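/-
The extraspecial group of order `p ^ 3` and exponent `p` in coordinates, with the action of `GL₂(p)`.
-/
import Mathlib
import Cfsg.Agent.FUS.RV.Defs

set_option autoImplicit false

open scoped commutatorElement
open Matrix

namespace CL.RV

/-- the Heisenberg group -/
@[ext] structure H (p : ℕ) where
  x : ZMod p
  y : ZMod p
  w : ZMod p

variable {p : ℕ}

namespace H

instance : Mul (H p) := ⟨fun a b => ⟨a.x + b.x, a.y + b.y, a.w + b.w + (a.x * b.y - a.y * b.x)⟩⟩
instance : One (H p) := ⟨⟨0, 0, 0⟩⟩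
instance : Inv (H p) := ⟨fun a => ⟨-a.x, -a.y, -a.w⟩⟩

@[simp] theorem mul_x (a b : H p) : (a * b).x = a.x + b.x := rfl
@[simp] theorem mul_y (a b : H p) : (a * b).y = a.y + b.y := rfl
@[simp] theorem mul_w (a b : H p) : (a * b).w = a.w + b.w + (a.x * b.y - a.y * b.x) := rfl
@[simp] theorem one_x : (1 : H p).x = 0 := rfl
@[simp] theorem one_y : (1 : H p).y = 0 := rfl
@[simp] theorem one_w : (1 : H p).w = 0 := rfl
@[simp] theorem inv_x (a : H p) : a⁻¹.x = -a.x := rfl
@[simp] theorem inv_y (a : H p) : a⁻¹.y = -a.y := rfl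
@[simp] theorem inv_w (a : H p) : a⁻¹.w = -a.w := rfl

instance : Group (H p) := Group.ofLeftAxioms
  (fun a b c => by ext <;> simp <;> ring) (fun a => by ext <;> simp) (fun a => by ext <;> simp; ring)

/-- coordinates -/
def equivProd : H p ≃ ZMod p × ZMod p × ZMod p where
  toFun a := (a.x, a.y, a.w)
  invFun t := ⟨t.1, t.2.1, t.2.2⟩

instance [NeZero p] : Finite (H p) := Finite.of_equiv _ equivProd.symm

theorem card : Nat.card (H p) = p ^ 3 := by
  rw [Nat.card_congr equivProd]; simp [pow_succ, mul_assoc]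

/-- powers with exponents in `ZMod p` -/
def pw (a : H p) (t : ZMod p) : H p := ⟨t * a.x, t * a.y, t * a.w⟩

theorem pow_eq (a : H p) (n : ℕ) : a ^ n = pw a n := by
  induction n with
  | zero => ext <;> simp [pw]
  | succ n ih => rw [pow_succ, ih]; ext <;> simp [pw] <;> ring

theorem pw_eq [NeZero p] (a : H p) (t : ZMod p) : pw a t = a ^ t.val := by
  rw [pow_eq, ZMod.natCast_zmod_val]

theorem pow_p (a : H p) : a ^ p = 1 := by rw [pow_eq]; ext <;> simp [pw]

theorem isPGroup : IsPGroup p (H p) := fun a => ⟨1, by rw [pow_one, pow_p]⟩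

theorem conj_eq (s a : H p) : s * a * s⁻¹ = ⟨a.x, a.y, a.w + 2 * (s.x * a.y - s.y * a.x)⟩ := by
  ext <;> simp; ring

/-- the action of matrices -/
def act (g : Matrix (Fin 2) (Fin 2) (ZMod p)) : H p →* H p := MonoidHom.mk'
  (fun a => ⟨g 0 0 * a.x + g 0 1 * a.y, g 1 0 * a.x + g 1 1 * a.y, g.det * a.w⟩)
  fun a b => by ext <;> simp [det_fin_two] <;> ring

theorem act_apply (g : Matrix (Fin 2) (Fin 2) (ZMod p)) (a : H p) :
    act g a = ⟨g 0 0 * a.x + g 0 1 * a.y, g 1 0 * a.x + g 1 1 * a.y, g.det * a.w⟩ := rfl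

theorem act_one (a : H p) : act 1 a = a := by ext <;> simp [act_apply]

theorem act_mul (g h : Matrix (Fin 2) (Fin 2) (ZMod p)) (a : H p) : act (g * h) a = act g (act h a) := by
  ext <;> simp [act_apply, mul_apply, Fin.sum_univ_two] <;> ring

theorem act_inv_act (g : GL (Fin 2) (ZMod p)) (a : H p) : act (g⁻¹).1 (act g.1 a) = a := by
  rw [← act_mul, Units.inv_mul, act_one]

theorem act_act_inv (g : GL (Fin 2) (ZMod p)) (a : H p) : act g.1 (act (g⁻¹).1 a) = a := by
  rw [← act_mul, Units.mul_inv, act_one]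

/-- a vector with a central coordinate -/
def vec (u : Fin 2 → ZMod p) (w : ZMod p) : H p := ⟨u 0, u 1, w⟩

theorem act_vec (g : Matrix (Fin 2) (Fin 2) (ZMod p)) (u : Fin 2 → ZMod p) (w : ZMod p) :
    act g (vec u w) = vec (g *ᵥ u) (g.det * w) := by
  ext <;> simp [act_apply, vec, mulVec, dotProduct, Fin.sum_univ_two]

/-- first generator -/
def e1 : H p := ⟨1, 0, 0⟩
/-- second generator -/
def e2 : H p := ⟨0, 1, 0⟩

theorem comm_e : ⁅(e1 : H p), (e2 : H p)⁆ = (⟨0, 0, 2⟩ : H p) := by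
  rw [commutatorElement_def]; ext <;> simp [e1, e2]; norm_num

theorem eq_pw [Fact p.Prime] (hp : p ≠ 2) (a : H p) :
    a = pw e1 a.x * pw e2 a.y * pw ⁅(e1 : H p), (e2 : H p)⁆ ((a.w - a.x * a.y) / 2) := by
  have : (2 : ZMod p) ≠ 0 := fun e =>
    hp ((Nat.prime_dvd_prime_iff_eq Fact.out Nat.prime_two).1 ((ZMod.natCast_eq_zero_iff 2 p).1 (by simpa using e)))
  rw [comm_e]; ext <;> simp [pw, e1, e2]; field_simp; ring

end H

open H

theorem two_ne [Fact p.Prime] (hp : p ≠ 2) : (2 : ZMod p) ≠ 0 := fun e =>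
  hp ((Nat.prime_dvd_prime_iff_eq Fact.out Nat.prime_two).1 ((ZMod.natCast_eq_zero_iff 2 p).1 (by simpa using e)))

variable {G : Type*} [Group G]

theorem hom_ext [Fact p.Prime] (hp : p ≠ 2) {f g : H p →* G} (h1 : f e1 = g e1) (h2 : f e2 = g e2) : f = g := by
  ext a
  rw [eq_pw hp a]
  simp only [pw_eq, map_mul, map_pow, map_commutatorElement, h1, h2]

theorem range_eq [Fact p.Prime] (hp : p ≠ 2) (f : H p →* G) : f.range = Subgroup.closure {f e1, f e2} := by
  refine le_antisymm ?_ ((Subgroup.closure_le _).2 ?_)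
  · rintro _ ⟨a, rfl⟩
    have h1 : f e1 ∈ Subgroup.closure {f e1, f e2} := Subgroup.subset_closure (by simp)
    have h2 : f e2 ∈ Subgroup.closure {f e1, f e2} := Subgroup.subset_closure (by simp)
    rw [eq_pw hp a]
    simp only [pw_eq, map_mul, map_pow, commutatorElement_def, map_inv]
    exact mul_mem (mul_mem (pow_mem h1 _) (pow_mem h2 _))
      (pow_mem (mul_mem (mul_mem (mul_mem h1 h2) (inv_mem h1)) (inv_mem h2)) _)
  · rintro _ (rfl | rfl)
    · exact ⟨_, rfl⟩
    · exact ⟨_, rfl⟩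

theorem pow_val_add [NeZero p] {g : G} (hg : g ^ p = 1) (s t : ZMod p) :
    g ^ (s + t).val = g ^ s.val * g ^ t.val := by
  rw [ZMod.val_add, ← pow_add, ← pow_eq_pow_mod _ hg]

theorem pow_mul_pow_comm {a b z : G} (h : a * b = z * b * a) (ha : Commute a z) (hb : Commute b z) (m n : ℕ) :
    a ^ m * b ^ n = z ^ (m * n) * b ^ n * a ^ m := by
  have h1 : ∀ n : ℕ, a * b ^ n = z ^ n * b ^ n * a := fun n => by
    induction n with
    | zero => simp
    | succ n ih =>
      rw [pow_succ, ← mul_assoc, ih, mul_assoc, h, pow_succ z]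
      simp only [mul_assoc]
      rw [← mul_assoc (b ^ n) z, (hb.pow_left n).eq, mul_assoc]
  induction m with
  | zero => simp
  | succ m ih =>
    rw [pow_succ', mul_assoc, ih, ← mul_assoc, ← mul_assoc, (ha.pow_right _).eq, mul_assoc (z ^ _), h1,
      add_mul, one_mul, pow_add]
    simp only [mul_assoc]

theorem exists_hom [Fact p.Prime] (hp : p ≠ 2) {a b : G} (pa : a ^ p = 1) (pb : b ^ p = 1)
    (ne : ⁅a, b⁆ ≠ 1) (ca : Commute a ⁅a, b⁆) (cb : Commute b ⁅a, b⁆) :
    ∃ ι : H p →* G, Function.Injective ι ∧ ι e1 = a ∧ ι e2 = b := by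
  have h2 := two_ne hp
  set z := ⁅a, b⁆ with hz
  have hab : a * b = z * b * a := by rw [hz, commutatorElement_def]; group
  have hc := pow_mul_pow_comm hab ca cb
  have pz : z ^ p = 1 := by
    have := hc p 1
    rwa [pa, one_mul, mul_one, mul_one, right_eq_mul] at this
  let ι : H p →* G := MonoidHom.mk'
    (fun t => z ^ ((t.w + t.x * t.y) / 2).val * b ^ t.y.val * a ^ t.x.val) fun s t => by
      have e : ((s * t).w + (s * t).x * (s * t).y) / 2 =
          (s.w + s.x * s.y) / 2 + (t.w + t.x * t.y) / 2 + ((s.x.val * t.y.val : ℕ) : ZMod p) := by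
        simp; field_simp; ring
      have e2 : z ^ (((s.x.val * t.y.val : ℕ) : ZMod p)).val = z ^ (s.x.val * t.y.val) := by
        rw [ZMod.val_natCast, ← pow_eq_pow_mod _ pz]
      rw [e, pow_val_add pz, pow_val_add pz, e2, mul_x, mul_y, pow_val_add pa, pow_val_add pb]
      generalize ((s.w + s.x * s.y) / 2).val = k
      generalize ((t.w + t.x * t.y) / 2).val = l
      generalize s.x.val = m
      generalize s.y.val = n
      generalize t.x.val = m'
      generalize t.y.val = n'
      have e3 : a ^ m * (z ^ l * b ^ n' * a ^ m') = z ^ l * (z ^ (m * n') * b ^ n' * a ^ m) * a ^ m' := by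
        rw [← hc, ← mul_assoc, ← mul_assoc, ((ca.pow_left m).pow_right l).eq]; simp only [mul_assoc]
      rw [mul_assoc (z ^ k * b ^ n), e3]
      simp only [mul_assoc]
      congr 1
      rw [((cb.pow_left n).pow_right l).left_comm, ((cb.pow_left n).pow_right _).left_comm]
  have h1 : ι e1 = a := by simp [ι, e1, ZMod.val_one]
  have h2' : ι e2 = b := by simp [ι, e2, ZMod.val_one]
  refine ⟨ι, (injective_iff_map_eq_one _).2 fun t ht => ?_, h1, h2'⟩
  have hz2 : ι ⟨0, 0, 2⟩ = z := by rw [← comm_e, map_commutatorElement, h1, h2']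
  have hc0 : ∀ c : ZMod p, ι ⟨0, 0, c⟩ = 1 → c = 0 := fun c e => by
    by_contra hc0
    have : (⟨0, 0, 2⟩ : H p) = pw ⟨0, 0, c⟩ (2 / c) := by ext <;> simp [pw]; field_simp
    rw [this, pw_eq, map_pow, e, one_pow] at hz2
    exact ne hz2.symm
  have hx : ∀ s : H p, 2 * (s.x * t.y - s.y * t.x) = 0 := fun s => hc0 _ (by
    have : (⟨0, 0, 2 * (s.x * t.y - s.y * t.x)⟩ : H p) = s * t * s⁻¹ * t⁻¹ := by
      ext <;> simp; ring
    rw [this]; simp [ht])
  have hy : t.y = 0 := by simpa [e1, h2] using hx e1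
  have hx' : t.x = 0 := by simpa [e2, h2] using hx e2
  have : t = ⟨0, 0, t.w⟩ := by ext <;> simp [hx', hy]
  rw [this] at ht
  rw [this, hc0 _ ht]; rfl

theorem exists_aff [Fact p.Prime] (hp : p ≠ 2) (f : H p →* H p) (hf : Function.Injective f) :
    ∃ (g : GL (Fin 2) (ZMod p)) (s : H p), ∀ a, f a = s * act g.1 a * s⁻¹ := by
  have h2 := two_ne hp
  let m : Matrix (Fin 2) (Fin 2) (ZMod p) := !![(f e1).x, (f e2).x; (f e1).y, (f e2).y]
  have hd : m.det ≠ 0 := fun e => by
    have : f ⟨0, 0, 2⟩ = 1 := by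
      rw [← comm_e, map_commutatorElement, commutatorElement_def]
      simp only [m, det_fin_two_of] at e
      ext <;> simp
      linear_combination 2 * e
    have := congrArg H.w ((injective_iff_map_eq_one _).1 hf _ this)
    exact h2 this
  let s : H p := ⟨((f e1).x * (f e2).w - (f e2).x * (f e1).w) / (2 * m.det),
    ((f e1).y * (f e2).w - (f e2).y * (f e1).w) / (2 * m.det), 0⟩
  refine ⟨GeneralLinearGroup.mkOfDetNeZero m hd, s, fun a => ?_⟩
  have hd' := hd
  simp only [m, det_fin_two_of] at hd'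
  have : f = (MulAut.conj s).toMonoidHom.comp (act m) := by
    refine hom_ext hp ?_ ?_
    · show f e1 = s * act m e1 * s⁻¹
      rw [conj_eq]
      ext <;> simp [act_apply, m, s, e1, det_fin_two_of]
      change (f e1).w = _
      simp only [e1] at hd' ⊢
      field_simp; ring
    · show f e2 = s * act m e2 * s⁻¹
      rw [conj_eq]
      ext <;> simp [act_apply, m, s, e2, det_fin_two_of]
      change (f e2).w = _
      simp only [e2] at hd' ⊢
      field_simp; ring
  rw [this]; rfl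

end CL.RV
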