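/-
The linear data of a fusion system on `p ^ (1 + 2)`: a subgroup `W` of `GL₂(p)` and a set `E` of vectors.
-/
import Cfsg.Agent.FUS.RV.Heis

set_option autoImplicit false

open Matrix

namespace CL.RV

/-- outer automorphisms and directions fused into the centre -/
@[ext] structure Dt (p : ℕ) where
  W : Subgroup (GL (Fin 2) (ZMod p))
  E : Set (Fin 2 → ZMod p)

variable {p : ℕ}

/-- the symplectic form -/
def om (u v : Fin 2 → ZMod p) : ZMod p := u 0 * v 1 - u 1 * v 0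

theorem om_mulVec (g : Matrix (Fin 2) (Fin 2) (ZMod p)) (u v : Fin 2 → ZMod p) :
    om (g *ᵥ u) (g *ᵥ v) = g.det * om u v := by
  simp [om, mulVec, dotProduct, Fin.sum_univ_two, det_fin_two]; ring

theorem inv_mulVec (g : GL (Fin 2) (ZMod p)) (u : Fin 2 → ZMod p) : (g⁻¹).1 *ᵥ (g.1 *ᵥ u) = u := by
  rw [mulVec_mulVec, Units.inv_mul, one_mulVec]

theorem mulVec_inv (g : GL (Fin 2) (ZMod p)) (u : Fin 2 → ZMod p) : g.1 *ᵥ ((g⁻¹).1 *ᵥ u) = u := by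
  rw [mulVec_mulVec, Units.mul_inv, one_mulVec]

namespace Dt

/-- the axioms -/
structure OK (D : Dt p) : Prop where
  pp : ∀ g ∈ D.W, g ^ p = 1 → g = 1
  ne : ∀ u ∈ D.E, u ≠ 0
  smul : ∀ u ∈ D.E, ∀ c : ZMod p, c ≠ 0 → c • u ∈ D.E
  act : ∀ g ∈ D.W, ∀ u ∈ D.E, g.1 *ᵥ u ∈ D.E
  tor : ∀ u ∈ D.E, ∀ l : ZMod p, l ≠ 0 → ∃ g ∈ D.W, l • (g.1 *ᵥ u) = u ∧ g.1.det = l

/-- change of basis -/
def tw (g : GL (Fin 2) (ZMod p)) (D : Dt p) : Dt p :=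
  ⟨D.W.comap (MulAut.conj g).toMonoidHom, {u | g.1 *ᵥ u ∈ D.E}⟩

theorem mem_tw_W {g x : GL (Fin 2) (ZMod p)} {D : Dt p} : x ∈ (D.tw g).W ↔ g * x * g⁻¹ ∈ D.W := Iff.rfl

theorem mem_tw_E {g : GL (Fin 2) (ZMod p)} {D : Dt p} {u : Fin 2 → ZMod p} :
    u ∈ (D.tw g).E ↔ g.1 *ᵥ u ∈ D.E := Iff.rfl

theorem tw_tw (g h : GL (Fin 2) (ZMod p)) (D : Dt p) : (D.tw h).tw g = D.tw (h * g) := by
  ext x
  · simp [mem_tw_W, mul_assoc]
  · rw [mem_tw_E, mem_tw_E, mem_tw_E, mulVec_mulVec, Units.val_mul]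

theorem tw_one (D : Dt p) : D.tw 1 = D := by
  ext x
  · simp [mem_tw_W]
  · simp [mem_tw_E]

theorem eq_tw {D D' : Dt p} {g h : GL (Fin 2) (ZMod p)} (e : D.tw g = D'.tw h) : D = D'.tw (h * g⁻¹) := by
  rw [← tw_tw, ← e, tw_tw, mul_inv_cancel, tw_one]

theorem OK.tw {D : Dt p} (h : D.OK) (g : GL (Fin 2) (ZMod p)) : (D.tw g).OK where
  pp x hx e := by
    have := h.pp _ hx (by rw [MulEquiv.coe_toMonoidHom, ← map_pow, e, map_one])
    simpa using this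
  ne u hu e := h.ne _ hu (by rw [e, mulVec_zero])
  smul u hu c hc := by rw [mem_tw_E, mulVec_smul]; exact h.smul _ hu c hc
  act x hx u hu := by
    have := h.act _ hx _ hu
    rwa [mulVec_mulVec, ← Units.val_mul, MulEquiv.coe_toMonoidHom, MulAut.conj_apply, inv_mul_cancel_right,
      Units.val_mul, ← mulVec_mulVec] at this
  tor u hu l hl := by
    obtain ⟨x, hx, e, hd⟩ := h.tor _ hu l hl
    refine ⟨g⁻¹ * x * g, by simpa [mem_tw_W, mul_assoc] using hx, ?_, ?_⟩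
    · rw [Units.val_mul, Units.val_mul, ← mulVec_mulVec, ← mulVec_mulVec, ← mulVec_smul, e, inv_mulVec]
    · rw [Units.val_mul, Units.val_mul, det_mul, det_mul, mul_right_comm, ← det_mul, Units.inv_mul, det_one,
        one_mul, hd]

/-- three independent directions -/
def Three (D : Dt p) : Prop :=
  ∃ u ∈ D.E, ∃ v ∈ D.E, ∃ w ∈ D.E, om u v ≠ 0 ∧ om u w ≠ 0 ∧ om v w ≠ 0

/-- exactly the two coordinate directions; `A` describes the torus and `b` says whether they are swapped -/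
structure IsM (D : Dt p) (A : Subgroup (ZMod p)ˣ) (b : Prop) : Prop where
  W : ∀ x, x ∈ D.W ↔ (x.1 0 1 = 0 ∧ x.1 1 0 = 0 ∧ ∃ d ∈ A, d.1 = x.1 0 0 ^ 2 * x.1 1 1) ∨
    (b ∧ x.1 0 0 = 0 ∧ x.1 1 1 = 0 ∧ ∃ d ∈ A, d.1 = x.1 0 1 ^ 2 * x.1 1 0)
  E : ∀ u, u ∈ D.E ↔ u ≠ 0 ∧ u 0 * u 1 = 0

theorem IsM.eq {D D' : Dt p} {A : Subgroup (ZMod p)ˣ} {b : Prop} (h : D.IsM A b) (h' : D'.IsM A b) :
    D = D' := by
  ext x
  · rw [h.W, h'.W]
  · rw [h.E, h'.E]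

end Dt

open H

variable {G : Type*} [Group G]

/-- the data of a subgroup `A` of `G` acting on the image of `ι` -/
def datG (ι : H p →* G) (A : Subgroup G) : Dt p where
  W := { carrier := {g | ∃ γ ∈ A, ∀ a, ι (act g.1 a) = γ * ι a * γ⁻¹}
         one_mem' := ⟨1, one_mem _, fun a => by simp [act_one]⟩
         mul_mem' := fun {g h} ⟨γ, hγ, e⟩ ⟨δ, hδ, e'⟩ => ⟨γ * δ, mul_mem hγ hδ, fun a => by
           rw [Units.val_mul, act_mul, e, e']; group⟩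
         inv_mem' := fun {g} ⟨γ, hγ, e⟩ => ⟨γ⁻¹, inv_mem hγ, fun a => by
           have := e (act (g⁻¹).1 a)
           rw [act_act_inv] at this
           rw [this]; group⟩ }
  E := {u | u ≠ 0 ∧ ∃ c w, ∃ γ ∈ A, ι (vec u w) = γ * ι ⟨0, 0, c⟩ * γ⁻¹}

theorem mem_datG_W {ι : H p →* G} {A : Subgroup G} {g : GL (Fin 2) (ZMod p)} :
    g ∈ (datG ι A).W ↔ ∃ γ ∈ A, ∀ a, ι (act g.1 a) = γ * ι a * γ⁻¹ := Iff.rfl

theorem mem_datG_E {ι : H p →* G} {A : Subgroup G} {u : Fin 2 → ZMod p} :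
    u ∈ (datG ι A).E ↔ u ≠ 0 ∧ ∃ c w, ∃ γ ∈ A, ι (vec u w) = γ * ι ⟨0, 0, c⟩ * γ⁻¹ := Iff.rfl

theorem datG_comp [Fact p.Prime] (ι : H p →* G) (A : Subgroup G) (g : GL (Fin 2) (ZMod p)) :
    datG (ι.comp (act g.1)) A = (datG ι A).tw g := by
  have hd : g.1.det ≠ 0 := g.det_ne_zero
  ext x
  · simp only [Dt.mem_tw_W, mem_datG_W, MonoidHom.comp_apply, Units.val_mul, act_mul]
    refine exists_congr fun γ => and_congr_right fun _ => ⟨fun h a => ?_, fun h a => ?_⟩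
    · rw [h, act_act_inv]
    · rw [← h, act_inv_act]
  · simp only [Dt.mem_tw_E, mem_datG_E, MonoidHom.comp_apply, act_vec]
    refine and_congr ⟨fun h e => h ?_, fun h e => h (by rw [e, mulVec_zero])⟩ ⟨?_, ?_⟩
    · rw [← inv_mulVec g x, e, mulVec_zero]
    · rintro ⟨c, w, γ, hγ, e⟩
      exact ⟨g.1.det * c, _, γ, hγ, by simpa [act_apply] using e⟩
    · rintro ⟨c, w, γ, hγ, e⟩
      exact ⟨c / g.1.det, w / g.1.det, γ, hγ, by simpa [act_apply, mul_div_cancel₀ _ hd] using e⟩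

end CL.RV
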