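/- Normal forms of the linear data. -/
import Cfsg.Agent.FUS.RV.Dt
import Cfsg.Agent.KSG.GL2Basic

set_option autoImplicit false

open Matrix

namespace CL.RV.Dt

open CL.GL2

variable {p : ℕ} [Fact p.Prime] {D : Dt p}

/-- an invertible matrix given by its entries -/
noncomputable def mk4 (a b c d : ZMod p) (h : a * d - b * c ≠ 0) : GL (Fin 2) (ZMod p) :=
  GeneralLinearGroup.mkOfDetNeZero !![a, b; c, d] (by rwa [det_fin_two_of])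

theorem coe_mk4 (a b c d : ZMod p) (h : a * d - b * c ≠ 0) : (mk4 a b c d h).1 = !![a, b; c, d] := rfl

theorem mk4_mulVec (a b c d : ZMod p) (h : a * d - b * c ≠ 0) (x y : ZMod p) :
    (mk4 a b c d h).1 *ᵥ ![x, y] = ![a * x + b * y, c * x + d * y] := by
  rw [vec_ext_iff, mulVec_0, mulVec_1]; simp [coe_mk4]

theorem det_ne (x : GL (Fin 2) (ZMod p)) : x.1 0 0 * x.1 1 1 - x.1 0 1 * x.1 1 0 ≠ 0 := by
  rw [← det_fin_two]; exact x.det_ne_zero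

theorem exists_mk4 (x : GL (Fin 2) (ZMod p)) : ∃ a b c d h, x = mk4 a b c d h :=
  ⟨_, _, _, _, det_ne x, Units.ext (eta_fin_two _)⟩

theorem mk4_mul {a b c d a' b' c' d' : ZMod p} (h : a * d - b * c ≠ 0) (h' : a' * d' - b' * c' ≠ 0) :
    mk4 a b c d h * mk4 a' b' c' d' h' = mk4 (a * a' + b * c') (a * b' + b * d') (c * a' + d * c')
      (c * b' + d * d') (fun e => mul_ne_zero h h' (by linear_combination e)) :=
  Units.ext (Matrix.mul_fin_two _ _ _ _ _ _ _ _)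

theorem mk4_inj {a b c d a' b' c' d' : ZMod p} {h : a * d - b * c ≠ 0} {h' : a' * d' - b' * c' ≠ 0} :
    mk4 a b c d h = mk4 a' b' c' d' h' ↔ a = a' ∧ b = b' ∧ c = c' ∧ d = d' := by
  rw [Units.ext_iff, coe_mk4, coe_mk4, mat_ext_iff]; simp

theorem mem_tw_of {g x y : GL (Fin 2) (ZMod p)} (hy : y ∈ D.W) (e : g * x = y * g) :
    x ∈ (D.tw g).W := by rwa [mem_tw_W, e, mul_inv_cancel_right]

theorem Three.tw (h : D.Three) (g : GL (Fin 2) (ZMod p)) : (D.tw g).Three := by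
  obtain ⟨u, hu, v, hv, w, hw, h1, h2, h3⟩ := h
  have k : ∀ u ∈ D.E, (g⁻¹).1 *ᵥ u ∈ (D.tw g).E := fun u hu => by rwa [mem_tw_E, mulVec_inv]
  have d := (g⁻¹).det_ne_zero
  exact ⟨_, k u hu, _, k v hv, _, k w hw, by rw [om_mulVec]; exact mul_ne_zero d h1,
    by rw [om_mulVec]; exact mul_ne_zero d h2, by rw [om_mulVec]; exact mul_ne_zero d h3⟩

theorem Three.of_tw {g : GL (Fin 2) (ZMod p)} (h : (D.tw g).Three) : D.Three := by
  have := h.tw g⁻¹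
  rwa [tw_tw, mul_inv_cancel, tw_one] at this

theorem basis {u v : Fin 2 → ZMod p} (hu : u ∈ D.E) (hv : v ∈ D.E) (h : om u v ≠ 0) :
    ∃ g, ![1, 0] ∈ (D.tw g).E ∧ ![0, 1] ∈ (D.tw g).E :=
  ⟨mk4 (u 0) (v 0) (u 1) (v 1) (fun e => h (by rw [om]; linear_combination e)), by
    rw [mem_tw_E, mk4_mulVec]; convert hu using 1; rw [vec_ext_iff]; simp, by
    rw [mem_tw_E, mk4_mulVec]; convert hv using 1; rw [vec_ext_iff]; simp⟩

theorem OK.tor' (h : D.OK) {x y : ZMod p} (hu : ![x, y] ∈ D.E) {l : ZMod p} (hl : l ≠ 0) :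
    ∃ a b c d hd, mk4 a b c d hd ∈ D.W ∧ l * (a * x + b * y) = x ∧ l * (c * x + d * y) = y ∧
      a * d - b * c = l := by
  obtain ⟨g, hg, e, hd⟩ := h.tor _ hu l hl
  obtain ⟨a, b, c, d, h0, rfl⟩ := exists_mk4 g
  rw [mk4_mulVec, vec_ext_iff] at e
  rw [coe_mk4, det_fin_two_of] at hd
  exact ⟨a, b, c, d, h0, hg, by simpa using e.1, by simpa using e.2, hd⟩

/-- The normal form in the case of three directions. -/
structure Nf (D : Dt p) (l : ZMod p) : Prop where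
  ok : D.OK
  e1 : ![1, 0] ∈ D.E
  e2 : ![1, 1] ∈ D.E
  dg : ∀ a h, l * a = 1 → mk4 a 0 0 (l ^ 2) h ∈ D.W

theorem OK.norm (h : D.OK) (h3 : D.Three) {l : ZMod p} (hl : l ≠ 0) (hl3 : l ^ 3 ≠ 1) :
    ∃ g, (D.tw g).Nf l := by
  obtain ⟨u, hu, v, hv, w, hw, h1, h2, h4⟩ := id h3
  have s1 : ∃ g : GL (Fin 2) (ZMod p), g.1 *ᵥ ![1, 0] = u :=
    ⟨mk4 (u 0) (v 0) (u 1) (v 1) (fun e => h1 (by rw [om]; linear_combination e)), by
      rw [mk4_mulVec, vec_ext_iff]; simp⟩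
  obtain ⟨g, rfl⟩ := s1
  obtain ⟨a, b, c, d, hd, hx, e1, e2, e3⟩ := (h.tw g).tor' (x := 1) (y := 0) hu hl
  obtain rfl : c = 0 := by simpa [hl] using e2
  have e4 : l * a = 1 := by simpa using e1
  obtain rfl : d = l ^ 2 := by linear_combination l * e3 - d * e4
  have n1 : l ^ 2 - a ≠ 0 := fun e => hl3 (by linear_combination l * e + e4)
  let g' : GL (Fin 2) (ZMod p) := mk4 1 (b / (l ^ 2 - a)) 0 1 (by simp)
  have k1 : mk4 a 0 0 (l ^ 2) (by simpa using hd) ∈ ((D.tw g).tw g').W := mem_tw_of hx (by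
    rw [mk4_mul, mk4_mul, mk4_inj]
    refine ⟨by ring, ?_, by ring, by ring⟩
    field_simp; ring)
  have k2 : g'.1 *ᵥ ![1, 0] = ![1, 0] := by rw [mk4_mulVec]; simp
  have k3 : ∀ v ∈ D.E, om (g.1 *ᵥ ![1, 0]) v ≠ 0 → ∃ x y, ![x, y] ∈ ((D.tw g).tw g').E ∧ y ≠ 0 ∧
      g.1 *ᵥ (g'.1 *ᵥ ![x, y]) = v := fun v hv e => by
    have e' : g.1 *ᵥ (g'.1 *ᵥ ((g'⁻¹).1 *ᵥ ((g⁻¹).1 *ᵥ v))) = v := by rw [mulVec_inv, mulVec_inv]
    generalize (g'⁻¹).1 *ᵥ ((g⁻¹).1 *ᵥ v) = z at e'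
    have ez : ![z 0, z 1] = z := by rw [vec_ext_iff]; simp
    refine ⟨z 0, z 1, by rwa [ez, mem_tw_E, mem_tw_E, e'], fun e0 => e ?_, by rwa [ez]⟩
    rw [← e', ← k2, om_mulVec, om_mulVec, om, e0]; simp
  obtain ⟨x, y, hxy, x0, y0⟩ : ∃ x y, ![x, y] ∈ ((D.tw g).tw g').E ∧ x ≠ 0 ∧ y ≠ 0 := by
    obtain ⟨x, y, k4, y0, rfl⟩ := k3 v hv h1
    obtain ⟨x', y', k5, y0', rfl⟩ := k3 w hw h2
    by_cases x0 : x = 0
    · refine ⟨x', y', k5, fun e => h4 ?_, y0'⟩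
      rw [om_mulVec, om_mulVec, om, x0, e]; simp
    · exact ⟨x, y, k4, x0, y0⟩
  have ok := (h.tw g).tw g'
  refine ⟨g * g' * mk4 x 0 0 y (by simp [x0, y0]), ?_⟩
  rw [← tw_tw, ← tw_tw]
  refine ⟨ok.tw _, ?_, by rw [mem_tw_E, mk4_mulVec]; simpa using hxy, fun a' h' e => ?_⟩
  · rw [mem_tw_E, mk4_mulVec]
    simpa using ok.smul ![1, 0] (by rwa [mem_tw_E, k2]) x x0
  · obtain rfl : a' = a := mul_left_cancel₀ hl (e.trans e4.symm)
    exact mem_tw_of k1 (by rw [mk4_mul, mk4_mul, mk4_inj]; exact ⟨by ring, by ring, by ring, by ring⟩)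

theorem OK.axes (h : D.OK) (e1 : ![1, 0] ∈ D.E) (e2 : ![0, 1] ∈ D.E) (h3 : ¬ D.Three)
    (u : Fin 2 → ZMod p) : u ∈ D.E ↔ u ≠ 0 ∧ u 0 * u 1 = 0 := by
  refine ⟨fun hu => ⟨h.ne u hu, by_contra fun e => h3 ⟨_, e1, _, e2, u, hu, by simp [om], ?_, ?_⟩⟩,
    fun ⟨h0, e⟩ => ?_⟩
  · simpa [om] using right_ne_zero_of_mul e
  · simpa [om] using left_ne_zero_of_mul e
  rcases mul_eq_zero.1 e with e | e
  · convert h.smul _ e2 (u 1) fun e' => h0 (vec_ext_iff.2 ⟨e, e'⟩) using 1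
    rw [vec_ext_iff]; simp [e]
  · convert h.smul _ e1 (u 0) fun e' => h0 (vec_ext_iff.2 ⟨e', e⟩) using 1
    rw [vec_ext_iff]; simp [e]

theorem OK.mono (h : D.OK) (hE : ∀ u, u ∈ D.E ↔ u ≠ 0 ∧ u 0 * u 1 = 0) {a b c d : ZMod p}
    {hd : a * d - b * c ≠ 0} (hx : mk4 a b c d hd ∈ D.W) : (b = 0 ∧ c = 0) ∨ (a = 0 ∧ d = 0) := by
  have h1 := ((hE _).1 (h.act _ hx ![1, 0] ((hE _).2 (by simp)))).2
  have h2 := ((hE _).1 (h.act _ hx ![0, 1] ((hE _).2 (by simp)))).2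
  rw [mk4_mulVec] at h1 h2
  simp only [mul_one, mul_zero, add_zero, zero_add, cons_val_zero, cons_val_one, mul_eq_zero] at h1 h2
  rcases h1 with rfl | rfl <;> rcases h2 with rfl | rfl <;> simp at hd ⊢

theorem OK.isM (h : D.OK) (hE : ∀ u, u ∈ D.E ↔ u ≠ 0 ∧ u 0 * u 1 = 0) (b : Prop)
    (hb : ∀ r s hd, mk4 0 r s 0 hd ∈ D.W → b)
    (hb' : b → ∃ r s hd, mk4 0 r s 0 hd ∈ D.W ∧ r ^ 2 * s = 1) :
    ∃ A : Subgroup (ZMod p)ˣ, (∀ t, t ^ 3 ∈ A) ∧ D.IsM A b := by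
  have t1 : ∀ l a hd, l * a = 1 → mk4 a 0 0 (l ^ 2) hd ∈ D.W := fun l a hd e => by
    have hl : l ≠ 0 := left_ne_zero_of_mul_eq_one e
    obtain ⟨a', b', c', d', h0, hx, e1, -, e3⟩ := h.tor' (x := 1) (y := 0) ((hE _).2 (by simp)) hl
    have e4 : l * a' = 1 := by simpa using e1
    obtain ⟨rfl, rfl⟩ := (h.mono hE hx).resolve_right fun e => by simp [e.1] at e4
    obtain rfl : d' = l ^ 2 := by linear_combination l * e3 - d' * e4
    obtain rfl : a' = a := mul_left_cancel₀ hl (e4.trans e.symm)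
    exact hx
  have t2 : ∀ l a hd, l * a = 1 → mk4 (l ^ 2) 0 0 a hd ∈ D.W := fun l a hd e => by
    have hl : l ≠ 0 := left_ne_zero_of_mul_eq_one e
    obtain ⟨a', b', c', d', h0, hx, -, e1, e3⟩ := h.tor' (x := 0) (y := 1) ((hE _).2 (by simp)) hl
    have e4 : l * d' = 1 := by simpa using e1
    obtain ⟨rfl, rfl⟩ := (h.mono hE hx).resolve_right fun e => by simp [e.2] at e4
    obtain rfl : a' = l ^ 2 := by linear_combination l * e3 - a' * e4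
    obtain rfl : d' = a := mul_left_cancel₀ hl (e4.trans e.symm)
    exact hx
  let f : (ZMod p)ˣ →* GL (Fin 2) (ZMod p) := MonoidHom.mk'
    (fun t => mk4 1 0 0 t (by simp)) fun s t => by rw [mk4_mul, mk4_inj]; simp
  have key : ∀ a d hd, mk4 a 0 0 d hd ∈ D.W ↔ ∃ t ∈ D.W.comap f, t.1 = a ^ 2 * d := fun a d hd => by
    have a0 : a ≠ 0 := fun e => hd (by simp [e])
    have d0 : d ≠ 0 := fun e => hd (by simp [e])
    have e : f (Units.mk0 (a ^ 2 * d) (by simp [a0, d0])) =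
        mk4 a⁻¹ 0 0 (a ^ 2) (by simp [a0]) * mk4 a 0 0 d hd := by
      rw [mk4_mul]
      change mk4 1 0 0 (a ^ 2 * d) (by simp [a0, d0]) = _
      rw [mk4_inj]; simp [a0]
    rw [← mul_mem_cancel_left (t1 a a⁻¹ (by simp [a0]) (by simp [a0])), ← e]
    exact ⟨fun h => ⟨_, h, rfl⟩, fun ⟨t, ht, e'⟩ => by
      rwa [show Units.mk0 (a ^ 2 * d) (by simp [a0, d0]) = t from Units.ext e'.symm]⟩
  refine ⟨D.W.comap f, fun t => ?_, ⟨fun x => ?_, hE⟩⟩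
  · obtain ⟨s, hs, e⟩ := (key _ _ _).1 (t2 t (t : ZMod p)⁻¹ (by
      rw [mul_zero, sub_zero]; exact mul_ne_zero (pow_ne_zero _ t.ne_zero) (inv_ne_zero t.ne_zero))
      (mul_inv_cancel₀ t.ne_zero))
    rwa [show t ^ 3 = s from Units.ext (by
      have := t.ne_zero
      rw [e, Units.val_pow_eq_pow_val]; field_simp)]
  obtain ⟨a, r, s, d, hd, rfl⟩ := exists_mk4 x
  change _ ↔ (r = 0 ∧ s = 0 ∧ ∃ t ∈ D.W.comap f, t.1 = a ^ 2 * d) ∨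
    (b ∧ a = 0 ∧ d = 0 ∧ ∃ t ∈ D.W.comap f, t.1 = r ^ 2 * s)
  have key' : b → ∀ r s hd, mk4 0 r s 0 hd ∈ D.W ↔ ∃ t ∈ D.W.comap f, t.1 = r ^ 2 * s :=
    fun hb r s hd => by
      obtain ⟨r', s', hd', hx, e⟩ := hb' hb
      have r0 : r' ≠ 0 := fun e => hd' (by simp [e])
      have s0 : s' ≠ 0 := fun e => hd' (by simp [e])
      have e' : mk4 0 r s 0 hd = mk4 (r / r') 0 0 (s / s') (by simpa [r0, s0] using hd) *
          mk4 0 r' s' 0 hd' := by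
        rw [mk4_mul, mk4_inj]; simp [r0, s0]
      rw [e', mul_mem_cancel_right hx, key,
        show (r / r') ^ 2 * (s / s') = r ^ 2 * s by rw [div_pow, div_mul_div_comm, e, div_one]]
  refine ⟨fun hx => ?_, ?_⟩
  · rcases h.mono hE hx with ⟨rfl, rfl⟩ | ⟨rfl, rfl⟩
    · exact Or.inl ⟨rfl, rfl, (key _ _ _).1 hx⟩
    · exact Or.inr ⟨hb _ _ _ hx, rfl, rfl, (key' (hb _ _ _ hx) _ _ _).1 hx⟩
  · rintro (⟨rfl, rfl, e⟩ | ⟨hb, rfl, rfl, e⟩)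
    exacts [(key _ _ _).2 e, (key' hb _ _ _).2 e]

theorem OK.two' (h : D.OK) (h2 : ∃ u ∈ D.E, ∃ v ∈ D.E, om u v ≠ 0) (h3 : ¬ D.Three) :
    ∃ (g : GL (Fin 2) (ZMod p)) (A : Subgroup (ZMod p)ˣ) (b : Prop),
      (∀ t, t ^ 3 ∈ A) ∧ (D.tw g).IsM A b := by
  obtain ⟨u, hu, v, hv, e⟩ := h2
  obtain ⟨g, e1, e2⟩ := basis hu hv e
  by_cases hb : ∃ r s hd, mk4 0 r s 0 hd ∈ (D.tw g).W
  · obtain ⟨r, s, hd, hx⟩ := hb
    have r0 : r ≠ 0 := fun e => hd (by simp [e])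
    have s0 : s ≠ 0 := fun e => hd (by simp [e])
    let g' : GL (Fin 2) (ZMod p) := mk4 1 0 0 (r ^ 2 * s)⁻¹ (by simp [r0, s0])
    have ok := (h.tw g).tw g'
    obtain ⟨A, hA⟩ := ok.isM (ok.axes (by rw [mem_tw_E, mk4_mulVec]; simpa using e1) (by
      rw [mem_tw_E, mk4_mulVec]
      convert (h.tw g).smul _ e2 (r ^ 2 * s)⁻¹ (by simp [r0, s0]) using 1
      rw [vec_ext_iff]; simp) fun h => h3 h.of_tw.of_tw) True
      (fun _ _ _ _ => trivial) fun _ => ⟨r * (r ^ 2 * s)⁻¹, s * (r ^ 2 * s), by simp [r0, s0],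
        mem_tw_of hx (by
          rw [mk4_mul, mk4_mul, mk4_inj]
          exact ⟨by ring, by ring, by field_simp; ring, by ring⟩), by field_simp⟩
    exact ⟨g * g', A, True, by rwa [← tw_tw]⟩
  · obtain ⟨A, hA⟩ := (h.tw g).isM ((h.tw g).axes e1 e2 fun h => h3 h.of_tw) False
      (fun r s hd hx => hb ⟨r, s, hd, hx⟩) False.elim
    exact ⟨g, A, False, hA⟩

end CL.RV.Dt
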