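/- Classification of the linear data. -/
import Cfsg.Agent.FUS.RV.ClsA
import Cfsg.Agent.CLAS.Dickson

set_option autoImplicit false
set_option linter.unusedVariables false

open Matrix
open scoped MatrixGroups

namespace CL.RV.Dt

section

open CL.GL2 CL.PGL2 CL.Dk

variable {p : ℕ} [Fact p.Prime] {W : Subgroup (GL (Fin 2) (ZMod p))} {l : ZMod p}

/-- the projection to the projective group -/
abbrev pj : GL (Fin 2) (ZMod p) →* PGL(2, ZMod p) := ProjGenLinGroup.mk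

theorem pj_eq_iff {x y : GL (Fin 2) (ZMod p)} : pj x = pj y ↔ ∃ c : ZMod p, c • x.1 = y.1 := by
  rw [← ofMat_coe x x.det_ne_zero, ← ofMat_coe y y.det_ne_zero, ofMat_eq_iff]

/-- the torus element attached to a direction -/
def Tr (l : ZMod p) (g : GL (Fin 2) (ZMod p)) (u : Fin 2 → ZMod p) : Prop :=
  l • (g.1 *ᵥ u) = u ∧ g.1.det = l

theorem Tr.pow {g : GL (Fin 2) (ZMod p)} {u : Fin 2 → ZMod p} (h : Tr l g u) (hu : u ≠ 0) {k : ℕ}
    (e : pj g ^ k = 1) : l ^ (3 * k) = 1 := by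
  rw [← map_pow, ← map_one pj, eq_comm, pj_eq_iff] at e
  obtain ⟨c, e⟩ := e
  have h1 : ∀ n : ℕ, l ^ n • ((g ^ n).1 *ᵥ u) = u := fun n => by
    induction n with
    | zero => simp
    | succ n ih =>
      rw [pow_succ, pow_succ, Units.val_mul, ← mulVec_mulVec, mul_smul, ← mulVec_smul, h.1, ih]
  have h2 := h1 k
  have h3 := congrArg det e
  rw [Units.val_pow_eq_pow_val, det_pow, h.2, det_smul, Units.val_one, det_one, Fintype.card_fin] at h3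
  rw [← e, Units.val_one, smul_mulVec, one_mulVec, smul_smul] at h2
  have h4 : l ^ k * c = 1 := smul_left_injective _ hu (h2.trans (one_smul _ u).symm)
  rw [mul_comm 3, pow_mul]
  linear_combination (l ^ k * c + 1) * h4 - (l ^ k) ^ 2 * h3

theorem Tr.fix {g : GL (Fin 2) (ZMod p)} {u : Fin 2 → ZMod p} (h : Tr l g u) (hu : u ≠ 0) :
    pj g • Projectivization.mk (ZMod p) u hu = Projectivization.mk (ZMod p) u hu := by
  rw [← ofMat_coe g g.det_ne_zero, ofMat_smul_mk, eq_comm, Projectivization.mk_eq_mk_iff']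
  exact ⟨l, h.1⟩

theorem poly (hp : ∀ g ∈ W, g ^ p = 1 → g = 1) (h6 : l ^ 6 ≠ 1) {u v w : Fin 2 → ZMod p}
    (hu : ∃ g ∈ W, Tr l g u) (hv : ∃ g ∈ W, Tr l g v) (hw : ∃ g ∈ W, Tr l g w) (h1 : om u v ≠ 0)
    (h2 : om u w ≠ 0) (h3 : om v w ≠ 0) : IsPoly (W.map pj) := by
  let f := algebraMap (ZMod p) (AlgebraicClosure (ZMod p))
  let ρ := (mapG f).comp (W.map pj).subtype
  have hρ : Function.Injective ρ := (mapG_injective f).comp (W.map pj).subtype_injective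
  have un : ∀ x g, g ∈ unp ρ x → g = 1 := by
    rintro x ⟨_, g, hg, rfl⟩ h
    have h4 := pow_char_eq_one_of_mem_unipAt p h
    rw [← map_pow, ← map_one ρ] at h4
    have h5 : pj g ^ p = 1 := congrArg Subtype.val (hρ h4)
    have h6 := h5
    rw [← map_pow, ← map_one pj, eq_comm, pj_eq_iff] at h6
    obtain ⟨c, e⟩ := h6
    have c0 : c ≠ 0 := fun e' => (g ^ p).det_ne_zero (by rw [← e, e']; simp)
    have h7 := hp (g ^ (p - 1)) (pow_mem hg _) (Units.ext (by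
      rw [← pow_mul, mul_comm, pow_mul, Units.val_pow_eq_pow_val, ← e, smul_pow,
        ZMod.pow_card_sub_one_eq_one c0]; simp))
    refine Subtype.ext ?_
    have h8 := pow_sub_one_mul (Fact.out : p.Prime).ne_zero (pj g)
    rw [← map_pow, h7, map_one, one_mul, h5] at h8
    exact h8
  have pt : ∀ u : Fin 2 → ZMod p, (∃ g ∈ W, Tr l g u) → ∀ hu : u ≠ 0, ∃ g : W.map pj, g * g ≠ 1 ∧
      ρ g • mapP f (Projectivization.mk _ u hu) = mapP f (Projectivization.mk _ u hu) := by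
    rintro u ⟨g, hg, h⟩ hu
    exact ⟨⟨_, g, hg, rfl⟩, fun e => h6 (h.pow hu (k := 2) (by rw [sq]; exact congrArg Subtype.val e)),
      (mapG_smul_eq_iff f _ _ _).2 (h.fix hu)⟩
  have ne : ∀ {u v : Fin 2 → ZMod p}, om u v ≠ 0 → ∀ hu hv,
      mapP f (Projectivization.mk _ u hu) ≠ mapP f (Projectivization.mk _ v hv) := fun h hu hv e =>
    h (by rw [om, (mk_eq_mk_iff_det hu hv).1 (mapP_injective f e), sub_self])
  have u0 : u ≠ 0 := fun e => h1 (by simp [e, om])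
  have v0 : v ≠ 0 := fun e => h1 (by simp [e, om])
  have w0 : w ≠ 0 := fun e => h2 (by simp [e, om])
  obtain ⟨a, a2, ha⟩ := pt u hu u0
  obtain ⟨b, b2, hb⟩ := pt v hv v0
  obtain ⟨c, c2, hc⟩ := pt w hw w0
  have n1 := ne h1 u0 v0
  have n2 := ne h2 u0 w0
  have n3 := ne h3 v0 w0
  generalize mapP f (Projectivization.mk _ u u0) = x at ha n1 n2
  generalize mapP f (Projectivization.mk _ v v0) = y at hb n1 n3
  generalize mapP f (Projectivization.mk _ w w0) = z at hc n2 n3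
  have nt : ∀ q, ¬ 3 ≤ Nat.card (unp ρ q) := fun q h => by
    rw [(Subgroup.eq_bot_iff_forall _).2 (un q), Subgroup.card_bot] at h; omega
  rcases dickson_pre hρ with ⟨q, h⟩ | ⟨q, r, hqr, h, -⟩ | h | ⟨-, q, h⟩ | ⟨q, h, -⟩
  · have hq : ∀ g, ρ g • q = q := fun g => mem_stab.1 (h ▸ Subgroup.mem_top g)
    have key : ∀ (a b : W.map pj) x y, a * a ≠ 1 → b * b ≠ 1 → ρ a • x = x → ρ b • y = y → x ≠ y →
        x ≠ q → y ≠ q → False := fun a b x y a2 b2 ha hb n1 n2 n3 => by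
      have h4 : a * b * (b * a)⁻¹ ∈ unp ρ q := by
        obtain ⟨k, rfl⟩ := exists_smul_inf q
        obtain ⟨s, t, e1⟩ := exists_aff_of_smul_inf ((cj_smul_eq_iff k ρ a _ _).2 (hq a))
        obtain ⟨s', t', e2⟩ := exists_aff_of_smul_inf ((cj_smul_eq_iff k ρ b _ _).2 (hq b))
        rw [← unp_cj, mem_unp, map_mul, map_inv, map_mul, map_mul, e1, e2, aff_mul, aff_mul, aff_inv,
          aff_mul, mem_unipAt_inf, mul_comm s' s, mul_inv_cancel]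
        exact ⟨_, rfl⟩
      have h5 := mul_inv_eq_one.1 (un q _ h4)
      have h6 : ρ a • ρ b • x = ρ b • x := by rw [← mul_smul, ← map_mul, h5, map_mul, mul_smul, ha]
      rcases eq_or_eq_of_mem_pairT hρ n2 (t := a) ⟨ha, hq a⟩ (fun e => a2 (by simp [e])) h6 with e | e
      · rcases eq_or_eq_of_mem_pairT hρ n2 (t := b) ⟨e, hq b⟩ (fun e => b2 (by simp [e])) hb with e | e
        exacts [n1 e.symm, n3 e]
      · exact n2 (smul_left_cancel _ (e.trans (hq b).symm))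
    exfalso
    by_cases e1 : x = q
    · exact key b c y z b2 c2 hb hc n3 (e1 ▸ n1.symm) (e1 ▸ n2.symm)
    by_cases e2 : y = q
    · exact key a c x z a2 c2 ha hc n2 e1 (e2 ▸ n3.symm)
    · exact key a b x y a2 b2 ha hb n1 e1 e2
  · have key : ∀ (a : W.map pj) x, a * a ≠ 1 → ρ a • x = x → x = q ∨ x = r := fun a x a2 ha =>
      eq_or_eq_of_mem_pairT hρ hqr (by_contra fun e => a2
        (mul_self_eq_one_of_mem_pairN hρ hqr (h ▸ Subgroup.mem_top a) e)) (fun e => a2 (by simp [e])) ha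
    rcases key a x a2 ha with rfl | rfl <;> rcases key b y b2 hb with rfl | rfl <;>
      rcases key c z c2 hc with rfl | rfl <;> contradiction
  · exact h.1
  · exact (nt q h.ge).elim
  · exact (nt q h).elim

theorem a4_ord : ∀ x : Equiv.Perm (Fin 4), Equiv.Perm.sign x = 1 → x ^ 2 = 1 ∨ x ^ 3 = 1 := by
  decide +kernel

theorem s4_ord : ∀ x : Equiv.Perm (Fin 4), x ^ 3 = 1 ∨ x ^ 4 = 1 := by decide +kernel

theorem a5_ord : ∀ x : Equiv.Perm (Fin 5), Equiv.Perm.sign x = 1 → x ^ 2 = 1 ∨ x ^ 3 = 1 ∨ x ^ 5 = 1 := by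
  decide +kernel

theorem s4_conj : ∀ x y : Equiv.Perm (Fin 4), x ^ 2 ≠ 1 → x ^ 3 ≠ 1 → y ^ 2 ≠ 1 → y ^ 3 ≠ 1 →
    ∃ c, c * x * c⁻¹ = y := by decide +kernel

theorem poly_cases {G : Type*} [Group G] (h : IsPoly G) (x : G) :
    x ^ 2 = 1 ∨ x ^ 3 = 1 ∨ x ^ 5 = 1 ∨ Nonempty (G ≃* Equiv.Perm (Fin 4)) := by
  have k : ∀ {n : ℕ} (e : G ≃* alternatingGroup (Fin n)) (k : ℕ), (e x).1 ^ k = 1 → x ^ k = 1 :=
    fun e k h => e.injective (by rw [map_pow, map_one]; exact Subtype.ext h)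
  rcases h with ⟨⟨e⟩⟩ | h | ⟨⟨e⟩⟩
  · rcases a4_ord (e x).1 (e x).2 with h | h
    exacts [Or.inl (k e _ h), Or.inr (Or.inl (k e _ h))]
  · exact Or.inr (Or.inr (Or.inr h))
  · rcases a5_ord (e x).1 (e x).2 with h | h | h
    exacts [Or.inl (k e _ h), Or.inr (Or.inl (k e _ h)), Or.inr (Or.inr (Or.inl (k e _ h)))]

theorem s4_pow {G : Type*} [Group G] (e : G ≃* Equiv.Perm (Fin 4)) (x : G) : x ^ 3 = 1 ∨ x ^ 4 = 1 :=
  (s4_ord (e x)).imp (fun h => e.injective (by rw [map_pow, h, map_one]))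
    fun h => e.injective (by rw [map_pow, h, map_one])

theorem s4_of (hp : ∀ g ∈ W, g ^ p = 1 → g = 1) (h6 : l ^ 6 ≠ 1) (h9 : l ^ 9 ≠ 1) (h15 : l ^ 15 ≠ 1)
    {u v w : Fin 2 → ZMod p} (hu : ∃ g ∈ W, Tr l g u) (hv : ∃ g ∈ W, Tr l g v)
    (hw : ∃ g ∈ W, Tr l g w) (h1 : om u v ≠ 0) (h2 : om u w ≠ 0) (h3 : om v w ≠ 0) :
    Nonempty (W.map pj ≃* Equiv.Perm (Fin 4)) := by
  obtain ⟨g, hg, h⟩ := id hu
  have u0 : u ≠ 0 := fun e => h1 (by simp [e, om])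
  rcases poly_cases (poly hp h6 hu hv hw h1 h2 h3) ⟨_, g, hg, rfl⟩ with e | e | e | e
  exacts [(h6 (h.pow u0 (congrArg Subtype.val e))).elim, (h9 (h.pow u0 (congrArg Subtype.val e))).elim,
    (h15 (h.pow u0 (congrArg Subtype.val e))).elim, e]

/-- cube or fourth power scalar -/
abbrev Sc (m : Matrix (Fin 2) (Fin 2) (ZMod p)) : Prop :=
  ((m * m * m) 0 1 = 0 ∧ (m * m * m) 1 0 = 0 ∧ (m * m * m) 0 0 = (m * m * m) 1 1) ∨
    ((m * m * (m * m)) 0 1 = 0 ∧ (m * m * (m * m)) 1 0 = 0 ∧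
      (m * m * (m * m)) 0 0 = (m * m * (m * m)) 1 1)

theorem sc_of (e : W.map pj ≃* Equiv.Perm (Fin 4)) {g : GL (Fin 2) (ZMod p)} (hg : g ∈ W) : Sc g.1 := by
  have k : ∀ k : ℕ, pj g ^ k = 1 → IsScal (g.1 ^ k) := fun k h => by
    rw [← map_pow, ← map_one pj, eq_comm, pj_eq_iff] at h
    obtain ⟨c, h⟩ := h
    exact isScal_iff.2 ⟨c, h.symm⟩
  refine (s4_pow e ⟨_, g, hg, rfl⟩).imp (fun h => ?_) fun h => ?_
  · have := k 3 (congrArg Subtype.val h)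
    rwa [pow_three'] at this
  · have := k 4 (congrArg Subtype.val h)
    rwa [show g.1 ^ 4 = g.1 * g.1 * (g.1 * g.1) by simp [pow_succ, mul_assoc]] at this

theorem Nf.eq {D D' : Dt p} (h : D.Nf l) (h' : D'.Nf l) {i b ω : ZMod p} (hi : l * i = 1)
    (h6 : l ^ 6 ≠ 1) (h9 : l ^ 9 ≠ 1) (h15 : l ^ 15 ≠ 1)
    (hb : ∀ x : ZMod p, Sc (!![i, 0; 0, l ^ 2] * !![i - x, x; i - (x + l ^ 2), x + l ^ 2]) →
      Sc (!![i, 0; 0, l ^ 2] * (!![i, 0; 0, l ^ 2] * !![i - x, x; i - (x + l ^ 2), x + l ^ 2])) →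
      Sc (!![i, 0; 0, l ^ 2] * (!![i, 0; 0, l ^ 2] * (!![i, 0; 0, l ^ 2] *
        !![i - x, x; i - (x + l ^ 2), x + l ^ 2]))) → x = b)
    (hω : !![i, 0; 0, l ^ 2] ^ 4 * (!![i, 0; 0, l ^ 2] * !![i - b, b; i - (b + l ^ 2), b + l ^ 2]) ^ 3 =
      ω • (1 : Matrix (Fin 2) (Fin 2) (ZMod p))) (hg : ∀ c : ZMod p, c ≠ 0 → ∃ n : Fin p, c = ω ^ n.1) :
    D = D' := by
  have hl : l ≠ 0 := left_ne_zero_of_mul_eq_one hi
  have i0 : i ≠ 0 := right_ne_zero_of_mul_eq_one hi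
  have h3 : l ^ 2 - i ≠ 0 := fun e => h6 (by linear_combination (l ^ 3 + 1) * (l * e + hi))
  let x₁ := mk4 i 0 0 (l ^ 2) (by simp [hl, i0])
  let x₂ := mk4 (i - b) b (i - (b + l ^ 2)) (b + l ^ 2) (fun e => hl (by linear_combination e - l * hi))
  have t1 : Tr l x₁ ![1, 0] := ⟨by rw [mk4_mulVec, vec_ext_iff]; simp [hi], by
    rw [coe_mk4, det_fin_two_of]; linear_combination l * hi⟩
  have t2 : Tr l x₂ ![1, 1] := ⟨by rw [mk4_mulVec, vec_ext_iff]; simp [hi], by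
    rw [coe_mk4, det_fin_two_of]; linear_combination l * hi⟩
  have t3 : Tr l (x₁ * x₂ * x₁⁻¹) ![i, l ^ 2] := ⟨by
    rw [show ![i, l ^ 2] = x₁.1 *ᵥ ![1, 1] by rw [mk4_mulVec]; simp, Units.val_mul, Units.val_mul,
      ← mulVec_mulVec, ← mulVec_mulVec, inv_mulVec, ← mulVec_smul, t2.1], by
    rw [Units.val_mul, Units.val_mul, det_mul, det_mul, mul_right_comm, ← det_mul, Units.mul_inv,
      det_one, one_mul, t2.2]⟩
  have key : ∀ D : Dt p, D.Nf l → D.W = Subgroup.closure {x₁, x₂} ∧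
      ∀ u, u ∈ D.E ↔ u ≠ 0 ∧ ∃ g ∈ D.W, Tr l g u := fun D h => by
    have m1 : x₁ ∈ D.W := h.dg _ _ hi
    obtain ⟨e⟩ := s4_of h.ok.pp h6 h9 h15 (h.ok.tor _ h.e1 l hl) (h.ok.tor _ h.e2 l hl)
      (h.ok.tor _ (h.ok.act _ m1 _ h.e2) l hl) (by simp [om]) (by rw [mk4_mulVec]; simp [om, hl])
      (by rw [mk4_mulVec]; simpa [om] using h3)
    have m2 : x₂ ∈ D.W := by
      obtain ⟨a, x, c, d, hd, hx, e1, e2, e3⟩ := h.ok.tor' h.e2 hl
      obtain rfl : a = i - x := mul_left_cancel₀ hl (by linear_combination e1 - hi)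
      obtain rfl : c = i - d := mul_left_cancel₀ hl (by linear_combination e2 - hi)
      obtain rfl : d = x + l ^ 2 := by linear_combination l * e3 - (d - x) * hi
      obtain rfl := hb x (sc_of e (mul_mem m1 hx)) (sc_of e (mul_mem m1 (mul_mem m1 hx)))
        (sc_of e (mul_mem m1 (mul_mem m1 (mul_mem m1 hx))))
      exact hx
    have le : Subgroup.closure {x₁, x₂} ≤ D.W := (Subgroup.closure_le _).2 (by
      rintro _ (rfl | rfl); exacts [m1, m2])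
    have k1 : x₁ ∈ Subgroup.closure {x₁, x₂} := Subgroup.subset_closure (by simp)
    have k2 : x₂ ∈ Subgroup.closure {x₁, x₂} := Subgroup.subset_closure (by simp)
    generalize Subgroup.closure {x₁, x₂} = K at le k1 k2
    obtain ⟨e'⟩ := s4_of (W := K) (fun g hg => h.ok.pp g (le hg)) h6 h9 h15 ⟨_, k1, t1⟩ ⟨_, k2, t2⟩
      ⟨_, mul_mem (mul_mem k1 k2) (inv_mem k1), t3⟩ (by simp [om]) (by simp [om, hl])
      (by simpa [om] using h3)
    have e2 : K.map pj = D.W.map pj := Subgroup.eq_of_le_of_card_ge (Subgroup.map_mono le)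
      (by rw [Nat.card_congr e.toEquiv, Nat.card_congr e'.toEquiv])
    refine ⟨le_antisymm (fun x hx => ?_) le, fun u => ⟨fun hu => ⟨h.ok.ne u hu, h.ok.tor u hu l hl⟩, ?_⟩⟩
    · obtain ⟨y, hy, e3⟩ := e2.ge ⟨x, hx, rfl⟩
      obtain ⟨c, e3⟩ := pj_eq_iff.1 e3
      obtain ⟨n, rfl⟩ := hg c fun e' => x.det_ne_zero (by rw [← e3, e']; simp)
      rw [show x = (x₁ ^ 4 * (x₁ * x₂) ^ 3) ^ n.1 * y from Units.ext (by
        simp only [Units.val_mul, Units.val_pow_eq_pow_val, x₁, x₂, coe_mk4]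
        rw [hω, ← e3, smul_pow, one_pow, smul_mul_assoc, one_mul])]
      exact mul_mem (pow_mem (mul_mem (pow_mem k1 _) (pow_mem (mul_mem k1 k2) _)) _) hy
    rintro ⟨u0, g, hg, t⟩
    have o : ∀ {g u} (hg : g ∈ D.W), Tr l g u → u ≠ 0 → ∀ k, l ^ (3 * k) ≠ 1 →
        e ⟨_, g, hg, rfl⟩ ^ k ≠ 1 := fun hg t u0 k hk e' => hk (t.pow u0 (by
      rw [← map_pow, ← map_one e] at e'
      exact congrArg Subtype.val (e.injective e')))
    obtain ⟨c, e3⟩ := s4_conj _ _ (o hg t u0 2 h6) (o hg t u0 3 h9) (o m1 t1 (by simp) 2 h6)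
      (o m1 t1 (by simp) 3 h9)
    obtain ⟨⟨_, y, hy, rfl⟩, rfl⟩ := e.surjective c
    rw [← map_inv, ← map_mul, ← map_mul] at e3
    have e4 : pj (y * g * y⁻¹) = pj x₁ := by
      rw [map_mul, map_mul, map_inv]; exact congrArg Subtype.val (e.injective e3)
    obtain ⟨c, e4⟩ := pj_eq_iff.1 e4
    have e5 := congrArg det e4
    rw [det_smul, t1.2, Units.val_mul, Units.val_mul, det_mul, det_mul, mul_right_comm, ← det_mul,
      Units.mul_inv, det_one, one_mul, t.2, Fintype.card_fin] at e5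
    have e6 : l • (x₁.1 *ᵥ (y.1 *ᵥ u)) = c • (y.1 *ᵥ u) := by
      rw [← e4, smul_mulVec, smul_comm, Units.val_mul, Units.val_mul, ← mulVec_mulVec, ← mulVec_mulVec,
        inv_mulVec, ← mulVec_smul, t.1]
    have v0 : y.1 *ᵥ u ≠ 0 := mulVec_ne_zero y.det_ne_zero u0
    rw [← inv_mulVec y u]
    refine h.ok.act _ (inv_mem hy) _ ?_
    generalize y.1 *ᵥ u = v at e6 v0
    have e7 := congrFun e6 1
    rw [Pi.smul_apply, mulVec_1] at e7
    have e8 : v 1 = 0 := by_contra fun n => h6 (by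
      have : l ^ 3 = c := mul_right_cancel₀ n (by simpa [x₁, coe_mk4, pow_succ', mul_assoc] using e7)
      have e9 : c ^ 2 = 1 := mul_right_cancel₀ hl (by rw [e5, one_mul])
      rw [← e9, ← this]; ring)
    convert h.ok.smul _ h.e1 (v 0) fun e' => v0 (vec_ext_iff.2 ⟨e', e8⟩) using 1
    rw [vec_ext_iff]; simp [e8]
  obtain ⟨k1, k2⟩ := key D h
  obtain ⟨k3, k4⟩ := key D' h'
  exact Dt.ext (k1.trans k3.symm) (Set.ext fun u => by rw [k2, k4, k1, k3])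

/-- monomial matrices -/
abbrev Mo (a b c d : ZMod 3) : Prop := (b = 0 ∧ c = 0) ∨ (a = 0 ∧ d = 0)

/-- no element of order three among the powers -/
abbrev O1 (a b c d : ZMod 3) : Prop := a * d - b * c = 1 → a + d ≠ 0 → b = 0 ∧ c = 0 ∧ a = d

set_option synthInstance.maxSize 4000 in
set_option maxRecDepth 100000 in
theorem Nf.three {D : Dt 3} (h : D.Nf 2) : (∀ u, u ∈ D.E ↔ u ≠ 0) ∧
    ((∀ a b c d hd, mk4 a b c d hd ∈ D.W ↔ Mo a b c d) ∨
      ∀ a b c d hd, mk4 a b c d hd ∈ D.W ↔ O1 a b c d ∧ O1 (2 * a) b (2 * c) d) := by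
  have m1 : mk4 2 0 0 1 (by decide) ∈ D.W := h.dg 2 (by decide) (by decide)
  have o1 : ∀ {a b c d hd}, mk4 a b c d hd ∈ D.W → O1 a b c d := fun {a b c d hd} hx e1 e2 => by
    have k1 : ∀ a b c d : ZMod 3, a * d - b * c = 1 → a + d ≠ 0 →
        (!![a, b; c, d] * !![a, b; c, d]) ^ 3 = 1 := by decide +kernel
    have k2 : ∀ a b c d : ZMod 3, a * d - b * c = 1 → !![a, b; c, d] * !![a, b; c, d] = 1 →
        b = 0 ∧ c = 0 ∧ a = d := by decide +kernel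
    exact k2 a b c d e1 (congrArg Units.val (h.ok.pp _ (mul_mem hx hx) (Units.ext (k1 a b c d e1 e2))))
  have o2 : ∀ {a b c d hd}, mk4 a b c d hd ∈ D.W → O1 (2 * a) b (2 * c) d := fun {a b c d hd} hx => by
    have := mul_mem hx m1
    rw [mk4_mul] at this
    simpa only [mul_zero, add_zero, zero_add, mul_one, mul_comm] using o1 this
  have m2 : mk4 0 2 2 0 (by decide) ∈ D.W := by
    obtain ⟨a, b, c, d, hd, hx, e1, e2, e3⟩ := h.ok.tor' h.e2 (l := 2) (by decide)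
    have k : ∀ a b c d : ZMod 3, 2 * (a * 1 + b * 1) = 1 → 2 * (c * 1 + d * 1) = 1 →
      a * d - b * c = 2 → O1 (2 * a) b (2 * c) d → a = 0 ∧ b = 2 ∧ c = 2 ∧ d = 0 := by decide +kernel
    obtain ⟨rfl, rfl, rfl, rfl⟩ := k a b c d e1 e2 e3 (o2 hx)
    exact hx
  have mo : ∀ a b c d hd, Mo a b c d → mk4 a b c d hd ∈ D.W := fun a b c d hd e => by
    have k : ∀ a b c d : ZMod 3, a * d - b * c ≠ 0 → Mo a b c d → ∃ i : Fin 4, ∃ j : Fin 2,
      !![a, b; c, d] = (!![2, 0; 0, 1] * !![0, 2; 2, 0]) ^ i.1 * !![2, 0; 0, 1] ^ j.1 := by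
      decide +kernel
    obtain ⟨i, j, e⟩ := k a b c d hd e
    rw [show mk4 a b c d hd = (mk4 2 0 0 1 (by decide) * mk4 0 2 2 0 (by decide)) ^ i.1 *
      mk4 2 0 0 1 (by decide) ^ j.1 from Units.ext e]
    exact mul_mem (pow_mem (mul_mem m1 m2) _) (pow_mem m1 _)
  refine ⟨fun u => ⟨h.ok.ne u, fun u0 => ?_⟩, ?_⟩
  · have k : ∀ u : Fin 2 → ZMod 3, u ≠ 0 → ∃ a b c d : ZMod 3, a * d - b * c ≠ 0 ∧ Mo a b c d ∧
      (u = ![a * 1 + b * 0, c * 1 + d * 0] ∨ u = ![a * 1 + b * 1, c * 1 + d * 1]) := by decide +kernel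
    obtain ⟨a, b, c, d, hd, e, rfl | rfl⟩ := k u u0
    · exact mk4_mulVec a b c d hd 1 0 ▸ h.ok.act _ (mo a b c d hd e) _ h.e1
    · exact mk4_mulVec a b c d hd 1 1 ▸ h.ok.act _ (mo a b c d hd e) _ h.e2
  by_cases hn : ∃ a b c d hd, mk4 a b c d hd ∈ D.W ∧ ¬ Mo a b c d
  · obtain ⟨a, b, c, d, hd, hx, hn⟩ := hn
    refine Or.inr fun a' b' c' d' hd' => ⟨fun h => ⟨o1 h, o2 h⟩, fun e => ?_⟩
    by_cases hm : Mo a' b' c' d'
    · exact mo _ _ _ _ _ hm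
    have k : ∀ a b c d : ZMod 3, a * d - b * c ≠ 0 → O1 a b c d → O1 (2 * a) b (2 * c) d →
      ¬ Mo a b c d → ∀ a' b' c' d' : ZMod 3, a' * d' - b' * c' ≠ 0 → O1 a' b' c' d' →
      O1 (2 * a') b' (2 * c') d' → ¬ Mo a' b' c' d' →
      Mo (a' * a + b' * c) (a' * b + b' * d) (c' * a + d' * c) (c' * b + d' * d) := by decide +kernel
    rw [← mul_mem_cancel_right hx, mk4_mul]
    exact mo _ _ _ _ _ (k a b c d hd (o1 hx) (o2 hx) hn a' b' c' d' hd' e.1 e.2 hm)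
  · exact Or.inl fun a b c d hd => ⟨fun hx => by_contra fun e => hn ⟨a, b, c, d, hd, hx, e⟩, mo a b c d hd⟩

end

theorem OK.two {p : ℕ} [Fact p.Prime] (hp : p ≠ 2) {D : Dt p} (h : D.OK)
    (h2 : ∃ u ∈ D.E, ∃ v ∈ D.E, om u v ≠ 0) (h3 : ¬ D.Three) :
    ∃ (g : GL (Fin 2) (ZMod p)) (A : Subgroup (ZMod p)ˣ) (b : Prop), (∀ t, t ^ 3 ∈ A) ∧ (D.tw g).IsM A b := by
  exact h.two' h2 h3

theorem OK.three {p : ℕ} [Fact p.Prime] (hp : p ≠ 2) (hp7 : p ≠ 7) {D : Dt p} (h : D.OK) (h3 : D.Three) :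
    p = 3 ∨ p = 5 ∨ p = 13 := by
  have pp : p.Prime := Fact.out
  obtain ⟨l, hl⟩ := IsCyclic.exists_ofOrder_eq_natCard (α := (ZMod p)ˣ)
  rw [Nat.card_eq_fintype_card, ZMod.card_units] at hl
  have key : ∀ k, 0 < k → k ≤ 15 → (l : ZMod p) ^ k = 1 → p - 1 ∣ k ∧ p ≤ 16 := fun k h0 h1 e => by
    have : p - 1 ∣ k := hl ▸ orderOf_dvd_of_pow_eq_one (Units.ext (by simpa using e))
    have := Nat.le_of_dvd h0 this
    exact ⟨‹_›, by omega⟩
  have fin : ∀ k, k = 6 ∨ k = 9 ∨ k = 12 ∨ k = 15 → (l : ZMod p) ^ k = 1 → p = 3 ∨ p = 5 ∨ p = 13 :=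
    fun k hk e => by
      obtain ⟨h1, h2⟩ := key k (by omega) (by omega) e
      clear key hl e
      clear! D l
      rcases hk with rfl | rfl | rfl | rfl <;> interval_cases p <;> simp_all <;> norm_num at pp
  by_cases h6 : (l : ZMod p) ^ 6 = 1
  · exact fin 6 (by simp) h6
  obtain ⟨u, hu, v, hv, w, hw, h1, h2, h4⟩ := h3
  have := poly h.pp h6 (h.tor u hu _ l.ne_zero) (h.tor v hv _ l.ne_zero) (h.tor w hw _ l.ne_zero) h1 h2 h4
  obtain ⟨g, hg, t⟩ : ∃ g ∈ D.W, Tr (l : ZMod p) g u := h.tor u hu _ l.ne_zero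
  have k : ∀ k, (⟨_, g, hg, rfl⟩ : D.W.map pj) ^ k = 1 → (l : ZMod p) ^ (3 * k) = 1 := fun k e =>
    t.pow (h.ne u hu) (congrArg Subtype.val e)
  rcases poly_cases this ⟨_, g, hg, rfl⟩ with e | e | e | ⟨⟨e⟩⟩
  · exact fin 6 (by simp) (k 2 e)
  · exact fin 9 (by simp) (k 3 e)
  · exact fin 15 (by simp) (k 5 e)
  · rcases s4_pow e ⟨_, g, hg, rfl⟩ with e | e
    exacts [fin 9 (by simp) (k 3 e), fin 12 (by simp) (k 4 e)]

local instance f5 : Fact (Nat.Prime 5) := ⟨by norm_num⟩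

local instance f13 : Fact (Nat.Prime 13) := ⟨by norm_num⟩

theorem OK.uniq5 {D D' : Dt 5} (h : D.OK) (h3 : D.Three) (h' : D'.OK) (h3' : D'.Three) :
    ∃ g, D = D'.tw g := by
  obtain ⟨g, k⟩ := h.norm h3 (l := 2) (by decide) (by decide)
  obtain ⟨g', k'⟩ := h'.norm h3' (l := 2) (by decide) (by decide)
  exact ⟨_, eq_tw (k.eq k' (i := 3) (b := 2) (ω := 2) (by decide) (by decide) (by decide) (by decide)
    (by decide +kernel) (by decide +kernel) (by decide +kernel))⟩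

theorem OK.uniq13 {D D' : Dt 13} (h : D.OK) (h3 : D.Three) (h' : D'.OK) (h3' : D'.Three) :
    ∃ g, D = D'.tw g := by
  obtain ⟨g, k⟩ := h.norm h3 (l := 2) (by decide) (by decide)
  obtain ⟨g', k'⟩ := h'.norm h3' (l := 2) (by decide) (by decide)
  exact ⟨_, eq_tw (k.eq k' (i := 7) (b := 8) (ω := 6) (by decide) (by decide) (by decide) (by decide)
    (by decide +kernel) (by decide +kernel) (by decide +kernel))⟩

theorem OK.uniq {p : ℕ} [Fact p.Prime] (hp : p = 5 ∨ p = 13) {D D' : Dt p} (h : D.OK) (h3 : D.Three)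
    (h' : D'.OK) (h3' : D'.Three) : ∃ g, D = D'.tw g := by
  rcases hp with rfl | rfl
  exacts [h.uniq5 h3 h' h3', h.uniq13 h3 h' h3']

theorem OK.uniq3 {D D₁ D₂ : Dt 3} (h : D.OK) (h3 : D.Three) (h₁ : D₁.OK) (h3₁ : D₁.Three) (h₂ : D₂.OK)
    (h3₂ : D₂.Three) (hlt : D₁.W < D₂.W) : (∃ g, D = D₁.tw g) ∨ ∃ g, D = D₂.tw g := by
  obtain ⟨g, k⟩ := h.norm h3 (l := 2) (by decide) (by decide)
  obtain ⟨g₁, k₁⟩ := h₁.norm h3₁ (l := 2) (by decide) (by decide)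
  obtain ⟨g₂, k₂⟩ := h₂.norm h3₂ (l := 2) (by decide) (by decide)
  have key : ∀ {D D' : Dt 3} {P : ZMod 3 → ZMod 3 → ZMod 3 → ZMod 3 → Prop}, D.Nf 2 → D'.Nf 2 →
      (∀ a b c d hd, mk4 a b c d hd ∈ D.W ↔ P a b c d) →
      (∀ a b c d hd, mk4 a b c d hd ∈ D'.W ↔ P a b c d) → D = D' := fun k k' e e' =>
    Dt.ext (Subgroup.ext fun x => by obtain ⟨a, b, c, d, hd, rfl⟩ := exists_mk4 x; rw [e, e'])
      (Set.ext fun u => by rw [k.three.1, k'.three.1])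
  have ne : D₁.tw g₁ ≠ D₂.tw g₂ := fun e => hlt.ne (Subgroup.eq_of_le_of_card_ge hlt.le (by
    rw [eq_tw e]; exact (CL.Dk.card_comap_equiv _ _).ge))
  rcases k.three.2 with e | e <;> rcases k₁.three.2 with e₁ | e₁ <;> rcases k₂.three.2 with e₂ | e₂
  exacts [(ne (key k₁ k₂ e₁ e₂)).elim, Or.inl ⟨_, eq_tw (key k k₁ e e₁)⟩,
    Or.inr ⟨_, eq_tw (key k k₂ e e₂)⟩, (ne (key k₁ k₂ e₁ e₂)).elim, (ne (key k₁ k₂ e₁ e₂)).elim,
    Or.inr ⟨_, eq_tw (key k k₂ e e₂)⟩, Or.inl ⟨_, eq_tw (key k k₁ e e₁)⟩, (ne (key k₁ k₂ e₁ e₂)).elim]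

end CL.RV.Dt
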