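/-
Saturated fusion systems on `p ^ (1 + 2)` are determined by their linear data.
-/
import Cfsg.Agent.FUS.RV.Dt
import Cfsg.Agent.FUS.SES

set_option autoImplicit false

namespace CL.RV

open CL.Fus Cfsg Cfsg.FusionSystem Subgroup H Matrix

variable {p : ℕ}

/-- the centre -/
def Zc : Subgroup (H p) where
  carrier := {a | a.x = 0 ∧ a.y = 0}
  one_mem' := ⟨rfl, rfl⟩
  mul_mem' := fun ha hb => by simp_all
  inv_mem' := fun ha => by simp_all

/-- the maximal subgroup in the direction `u` -/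
def V (u : Fin 2 → ZMod p) : Subgroup (H p) where
  carrier := {a | a.x * u 1 = a.y * u 0}
  one_mem' := by simp
  mul_mem' := fun {a b} ha hb => by
    simp only [Set.mem_ofPred_eq, mul_x, mul_y] at *
    linear_combination ha + hb
  inv_mem' := fun {a} ha => by
    simp only [Set.mem_ofPred_eq, inv_x, inv_y] at *
    linear_combination -ha

theorem mem_Zc {a : H p} : a ∈ (Zc : Subgroup (H p)) ↔ a.x = 0 ∧ a.y = 0 := Iff.rfl

theorem mem_V {u : Fin 2 → ZMod p} {a : H p} : a ∈ V u ↔ a.x * u 1 = a.y * u 0 := Iff.rfl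

/-- coordinates on `V u` -/
def ev (u : Fin 2 → ZMod p) (t w : ZMod p) : H p := ⟨t * u 0, t * u 1, w⟩

theorem ev_mem (u : Fin 2 → ZMod p) (t w : ZMod p) : ev u t w ∈ V u := by
  simp only [mem_V, ev]; ring

theorem cj_eq (s a : H p) : cj s a = ⟨a.x, a.y, a.w + 2 * (s.x * a.y - s.y * a.x)⟩ := conj_eq s a

variable [Fact p.Prime]

theorem ne_zero_iff {u : Fin 2 → ZMod p} : u ≠ 0 ↔ u 0 ≠ 0 ∨ u 1 ≠ 0 := by
  rw [Ne, funext_iff, Fin.forall_fin_two, not_and_or]; rfl

theorem exists_ev {u : Fin 2 → ZMod p} (hu : u ≠ 0) {a : H p} (ha : a ∈ V u) : ∃ t w, a = ev u t w := by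
  rw [mem_V] at ha
  rcases ne_zero_iff.1 hu with h | h
  · refine ⟨a.x / u 0, a.w, ?_⟩
    ext <;> simp [ev] <;> field_simp
    linear_combination -ha
  · refine ⟨a.y / u 1, a.w, ?_⟩
    ext <;> simp [ev] <;> field_simp
    linear_combination ha

theorem ev_inj {u : Fin 2 → ZMod p} (hu : u ≠ 0) {t w t' w' : ZMod p} (h : ev u t w = ev u t' w') :
    t = t' ∧ w = w' := by
  refine ⟨?_, congrArg H.w h⟩
  rcases ne_zero_iff.1 hu with h0 | h0
  · exact mul_right_cancel₀ h0 (congrArg H.x h)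
  · exact mul_right_cancel₀ h0 (congrArg H.y h)

theorem exists_om (hp : p ≠ 2) {x y : ZMod p} (hu : x ≠ 0 ∨ y ≠ 0) (k : ZMod p) :
    ∃ s : H p, 2 * (s.x * y - s.y * x) = k := by
  have := two_ne hp
  rcases hu with h | h
  · exact ⟨⟨0, -k / (2 * x), 0⟩, by field_simp; ring⟩
  · exact ⟨⟨k / (2 * y), 0, 0⟩, by field_simp; ring⟩

theorem comm_iff (hp : p ≠ 2) {a b : H p} : a * b = b * a ↔ a.x * b.y = a.y * b.x := by
  have := two_ne hp
  refine ⟨fun h => mul_left_cancel₀ this ?_, fun h => ?_⟩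
  · have := congrArg H.w h
    simp only [mul_w] at this
    linear_combination this
  · ext <;> simp only [mul_x, mul_y, mul_w]
    · ring
    · ring
    · linear_combination 2 * h

theorem ses (hp : p ≠ 2) : SES (⊤ : Subgroup (H p)) Zc where
  le := le_top
  cent z hz s _ := by rw [comm_iff hp, hz.1, hz.2]; ring
  comm s _ x _ := by simp [cj_eq, mem_Zc]
  trans x _ hx y _ w _ h1 h2 := by
    rw [comm_iff hp] at *
    rcases not_and_or.1 hx with h | h
    · exact mul_left_cancel₀ h (by linear_combination y.x * h2 - w.x * h1)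
    · exact mul_left_cancel₀ h (by linear_combination y.y * h2 - w.y * h1)
  surj y _ hy d hd := by
    obtain ⟨s, hs⟩ := exists_om hp (not_and_or.1 hy) d.w
    exact ⟨s, trivial, by rw [cj_eq, hs]; ext <;> simp [hd.1, hd.2]⟩

theorem homOn_pw {P : Subgroup (H p)} {f : H p → H p} (h : IsHomOn P f) {a : H p} (ha : a ∈ P) (t : ZMod p) :
    f (pw a t) = pw (f a) t := by rw [pw_eq, pw_eq, h.map_pow ha]

theorem homOn_ev {u : Fin 2 → ZMod p} {f : H p → H p} (h : IsHomOn (V u) f) (t w : ZMod p) :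
    f (ev u t w) = pw (f (ev u 1 0)) t * pw (f (ev u 0 1)) w := by
  rw [← homOn_pw h (ev_mem ..), ← homOn_pw h (ev_mem ..), ← h]
  · congr 1; ext <;> simp [ev, pw]
  · rw [pw_eq]; exact pow_mem (ev_mem ..) _
  · rw [pw_eq]; exact pow_mem (ev_mem ..) _

omit [Fact p.Prime] in
theorem isP : IsPGroup p (⊤ : Subgroup (H p)) := isPGroup.to_subgroup _

/-- the data of a fusion system -/
def dat (F : FusionSystem (⊤ : Subgroup (H p))) : Dt p where
  W := { carrier := {g | Mor F ⊤ (act g.1)}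
         one_mem' := (mor_id F le_rfl).congr fun a _ => (act_one a).symm
         mul_mem' := fun {g h} hg hh => (Mor.comp hg hh fun _ _ => trivial).congr fun a _ => (act_mul _ _ a).symm
         inv_mem' := fun {g} hg => by
           have := Mor.of_leftInv hg fun a _ => act_inv_act g a
           rwa [Mor.img_top hg] at this }
  E := {u | u ≠ 0 ∧ ∃ c w, F.IsConjElt ⟨0, 0, c⟩ (vec u w)}

variable {F E : FusionSystem (⊤ : Subgroup (H p))}

theorem mor_top (hp : p ≠ 2) {f : H p → H p} (hf : Mor F ⊤ f) :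
    ∃ g ∈ (dat F).W, ∃ s, ∀ a, f a = cj s (act g.1 a) := by
  obtain ⟨g, s, e⟩ := exists_aff hp (MonoidHom.mk' f fun a b => hf.map_mul trivial trivial)
    fun a b h => hf.injOn trivial trivial h
  refine ⟨g, (hf.cj_comp (s := s⁻¹) trivial).congr fun a _ => ?_, s, e⟩
  have : f a = cj s (act g.1 a) := e a
  rw [Function.comp_apply, this, cj_inv_cj]

/-- a linear map of `V u` is a map of the system -/
def L (F : FusionSystem (⊤ : Subgroup (H p))) (u : Fin 2 → ZMod p) (α β γ δ : ZMod p) : Prop :=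
  ∃ f, Mor F (V u) f ∧ ∀ t w, f (ev u t w) = ev u (α * t + β * w) (γ * t + δ * w)

variable {u : Fin 2 → ZMod p}

theorem L.comp (hu : u ≠ 0) {α β γ δ α' β' γ' δ' : ZMod p} (h : L F u α β γ δ) (h' : L F u α' β' γ' δ') :
    L F u (α * α' + β * γ') (α * β' + β * δ') (γ * α' + δ * γ') (γ * β' + δ * δ') := by
  obtain ⟨f, hf, e⟩ := h
  obtain ⟨g, hg, e'⟩ := h'
  refine ⟨f ∘ g, hf.comp hg fun a ha => ?_, fun t w => ?_⟩
  · obtain ⟨t, w, rfl⟩ := exists_ev hu ha
    rw [e']; exact ev_mem ..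
  · rw [Function.comp_apply, e', e]; congr 1 <;> ring

theorem L.cg {α β γ δ α' β' γ' δ' : ZMod p} (h : L F u α β γ δ) (h1 : α = α') (h2 : β = β') (h3 : γ = γ')
    (h4 : δ = δ') : L F u α' β' γ' δ' := h1 ▸ h2 ▸ h3 ▸ h4 ▸ h

theorem L_inner (hp : p ≠ 2) (hu : u ≠ 0) (γ : ZMod p) : L F u 1 0 γ 1 := by
  obtain ⟨s, hs⟩ := exists_om hp (ne_zero_iff.1 hu) γ
  refine ⟨cj s, mor_cj F le_top trivial, fun t w => ?_⟩
  rw [cj_eq]; ext <;> simp [ev]
  linear_combination t * hs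

theorem L_es (hp : p ≠ 2) (hF : F.IsSaturated p) (hu : u ∈ (dat F).E) (β : ZMod p) : L F u 1 β 0 1 := by
  obtain ⟨hu, c, w, h⟩ := hu
  obtain ⟨P, f, hf, hP, e⟩ := isConjElt_iff.1 h
  obtain ⟨s, hs⟩ := exists_om hp (ne_zero_iff.1 hu) (-w)
  have hf1 := (hf.cj_comp (s := s) trivial).mono (zpowers_le.2 hP)
  have e1 : (cj s ∘ f) ⟨0, 0, c⟩ = ev u 1 0 := by
    rw [Function.comp_apply, e, cj_eq]; ext <;> simp [ev, H.vec]
    linear_combination hs
  obtain ⟨g, hg, h1, h2⟩ := hf1.exists_inv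
  have e2 : g (ev u 1 0) = ⟨0, 0, c⟩ := e1 ▸ h1 _ (mem_zpowers _)
  have hi : img (cj s ∘ f) (zpowers ⟨0, 0, c⟩) = zpowers (ev u 1 0) := by rw [hf1.isHomOn.img_zpowers, e1]
  rw [hi] at hg
  have hi2 : img g (zpowers (ev u 1 0)) = zpowers ⟨0, 0, c⟩ := by rw [hg.isHomOn.img_zpowers, e2]
  have hr : F.IsReceptive (zpowers ⟨0, 0, c⟩) :=
    receptive_of_fullyCentralized isP hF (fullyCentralized_of_central F le_top fun a _ => by
      refine mem_centralizer_iff.2 ?_
      rintro _ ⟨n, rfl⟩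
      exact (Commute.zpow_left ((comm_iff hp).2 (by simp)) n).eq)
  obtain ⟨φ, hφ, e3⟩ := exists_extend_centralizer_of_receptive hr hg hi2
  have hle : V u ≤ zpowers (ev u 1 0) ⊔ centralizerIn ⊤ (zpowers (ev u 1 0)) := fun a ha =>
    mem_sup_right ⟨trivial, mem_centralizer_iff.2 (by
      rintro _ ⟨n, rfl⟩
      exact (Commute.zpow_left ((comm_iff hp).2 (by simp only [ev]; linear_combination -mem_V.1 ha)) n).eq)⟩
  replace hφ := hφ.mono hle
  have e4 : φ (ev u 1 0) = ⟨0, 0, c⟩ := (e3 (mem_zpowers _)).trans e2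
  have hc : c ≠ 0 := fun h0 => by
    have := (hφ.eq_one_iff (ev_mem u 1 0)).1 (by rw [e4, h0]; rfl)
    exact one_ne_zero (ev_inj hu (this.trans (show 1 = ev u 0 0 by ext <;> simp [ev]))).1
  have hφe := homOn_ev hφ.isHomOn
  rw [e4] at hφe
  set B := φ (ev u 0 1) with hB
  have hB0 : B.x ≠ 0 ∨ B.y ≠ 0 := by
    by_contra! h0
    have : φ (ev u 0 1) = φ (ev u (B.w / c) 0) := by
      rw [hφe (B.w / c), ← hB]; ext <;> simp [pw, h0.1, h0.2, hc]
    exact one_ne_zero (ev_inj hu (hφ.injOn (ev_mem ..) (ev_mem ..) this)).2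
  obtain ⟨r, hr⟩ := exists_om hp hB0 (β * c)
  obtain ⟨ψ, hψ, h3, -⟩ := hφ.exists_inv
  have key : ∀ t w, cj r (φ (ev u t w)) = φ (ev u (t + β * w) w) := fun t w => by
    rw [hφe, hφe, cj_eq]; ext <;> simp [pw]
    linear_combination w * hr
  refine ⟨ψ ∘ cj r ∘ φ, hψ.comp (hφ.cj_comp trivial) fun a ha => ?_, fun t w => ?_⟩
  · obtain ⟨t, w, rfl⟩ := exists_ev hu ha
    rw [Function.comp_apply, key]; exact mem_img_of_mem _ (ev_mem ..)
  · simp only [Function.comp_apply, key, h3 _ (ev_mem ..)]; simp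

theorem L_sl (hp : p ≠ 2) (hF : F.IsSaturated p) (hu : u ∈ (dat F).E) {α β γ δ : ZMod p}
    (h : α * δ - β * γ = 1) : L F u α β γ δ := by
  have h1 : ∀ α β γ δ : ZMod p, α * δ - β * γ = 1 → γ ≠ 0 → L F u α β γ δ := fun α β γ δ h hγ => by
    refine ((L_es hp hF hu ((α - 1) / γ)).comp hu.1 ((L_inner hp hu.1 γ).comp hu.1
      (L_es hp hF hu ((δ - 1) / γ)))).cg ?_ ?_ ?_ ?_ <;> field_simp
    · ring
    · linear_combination h
    · ring
    · ring
  by_cases hγ : γ = 0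
  · subst hγ
    have hα : α ≠ 0 := fun e => by simp [e] at h
    refine ((L_inner hp hu.1 (-1)).comp hu.1 (h1 α β α (β + δ) (by linear_combination h) hα)).cg ?_ ?_ ?_ ?_ <;>
      ring
  · exact h1 _ _ _ _ h hγ

theorem V_normal (s : H p) : s ∈ normalizer (V u : Set (H p)) :=
  mem_normalizer_of_cj_mem fun a ha => by rw [cj_eq]; exact ha

theorem L_ext (hp : p ≠ 2) (hF : F.IsSaturated p) (hu : u ≠ 0) {f : H p → H p} (hf : Mor F (V u) f)
    {α γ δ : ZMod p} (hα : α ≠ 0) (e : ∀ t w, f (ev u t w) = ev u (α * t + 0 * w) (γ * t + δ * w)) :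
    ∃ g, Mor F ⊤ g ∧ Set.EqOn g f (V u) := by
  have hi : img f (V u) = V u := hf.img_eq_self fun a ha => by
    obtain ⟨t, w, rfl⟩ := exists_ev hu ha
    rw [e]; exact ev_mem ..
  have hr : F.IsReceptive (V u) :=
    receptive_of_fullyNormalized isP hF (fullyNormalized_of_normal F le_top fun s _ => V_normal s)
  obtain ⟨g, hg, e'⟩ := (isReceptive_iff.1 hr).2 _ f hf hi
  refine ⟨g, hg.mono fun s _ => ?_, e'⟩
  obtain ⟨r, hr⟩ := exists_om hp (ne_zero_iff.1 hu) (δ * (2 * (s.x * u 1 - s.y * u 0)) / α)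
  refine ⟨trivial, V_normal s, r, trivial, fun a ha => ?_⟩
  obtain ⟨t, w, rfl⟩ := exists_ev hu ha
  have : cj s (ev u t w) = ev u t (w + t * (2 * (s.x * u 1 - s.y * u 0))) := by
    rw [cj_eq]; ext <;> simp [ev]; ring
  rw [this, e, e, cj_eq]
  rw [eq_div_iff hα] at hr
  ext <;> simp [ev]
  linear_combination -t * hr

theorem dat_ok (hp : p ≠ 2) (hF : F.IsSaturated p) : (dat F).OK where
  pp g hg e := by
    obtain ⟨α, hα, eα⟩ := Mor.exists_aut hg (Mor.img_top hg)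
    have hpow : ∀ (n : ℕ) (a : H p), autFun (α ^ n) a = act (g ^ n).1 a := fun n => by
      induction n with
      | zero => intro a; rw [pow_zero, pow_zero, autFun_one (mem_top a), Units.val_one, act_one]
      | succ n ih => intro a; rw [pow_succ, pow_succ, autFun_mul _ _ (mem_top a), ih, eα (mem_top a), Units.val_mul, act_mul]
    have hαp : α ^ p = 1 := mulAut_ext_autFun fun a _ => by
      rw [hpow, e, autFun_one (mem_top a), Units.val_one, act_one]
    have hz : IsPGroup p (zpowers α) := by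
      rintro ⟨_, n, rfl⟩
      exact ⟨1, Subtype.ext (show (α ^ n) ^ p ^ 1 = 1 by
        rw [pow_one, ← zpow_natCast, zpow_comm, zpow_natCast, hαp, _root_.one_zpow])⟩
    obtain ⟨s, -, es⟩ := mem_inn_iff.1 ((sylIn_inn_top isP hF).le_of_le_normalizer' (zpowers_le.2 hα) hz
      le_normalizer_of_normal (mem_zpowers α))
    have h1 := (eα (mem_top e1)).symm.trans (es (mem_top e1))
    have h2 := (eα (mem_top e2)).symm.trans (es (mem_top e2))
    simp only [cj_eq, act_apply, e1, e2, H.mk.injEq, mul_one, mul_zero, add_zero, zero_add] at h1 h2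
    ext i j
    fin_cases i <;> fin_cases j <;> simp [h1.1, h1.2.1, h2.1, h2.2.1]
  ne _ h := h.1
  smul u hu k hk := by
    obtain ⟨hu, c, w, h⟩ := hu
    obtain ⟨P, f, hf, hP, e⟩ := isConjElt_iff.1 h
    refine ⟨smul_ne_zero hk hu, k * c, k * w, isConjElt_iff.2 ⟨P, f, hf, ?_, ?_⟩⟩
    · have : (⟨0, 0, k * c⟩ : H p) = pw ⟨0, 0, c⟩ k := by ext <;> simp [pw]
      rw [this, pw_eq]; exact pow_mem hP _
    · have : (⟨0, 0, k * c⟩ : H p) = pw ⟨0, 0, c⟩ k := by ext <;> simp [pw]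
      rw [this, homOn_pw hf.isHomOn hP, e]; ext <;> simp [pw, H.vec]
  act g hg u hu := by
    obtain ⟨hu, c, w, h⟩ := hu
    obtain ⟨P, f, hf, hP, e⟩ := isConjElt_iff.1 h
    refine ⟨fun h0 => hu (by rw [← inv_mulVec g u, h0, mulVec_zero]), c, _, isConjElt_iff.2
      ⟨P, _, Mor.comp hg hf fun _ _ => trivial, hP, by rw [Function.comp_apply, e, act_vec]⟩⟩
  tor u hu l hl := by
    obtain ⟨f, hf, e⟩ := L_sl hp hF hu (α := l⁻¹) (β := 0) (γ := 0) (δ := l) (by field_simp; ring)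
    obtain ⟨f', hf', e'⟩ := L_ext hp hF hu.1 hf (inv_ne_zero hl) e
    obtain ⟨g, hg, s, e''⟩ := mor_top hp hf'
    have h1 := (e'' _).symm.trans ((e' (ev_mem u 1 0)).trans (e 1 0))
    have h2 := (e'' _).symm.trans ((e' (ev_mem u 0 1)).trans (e 0 1))
    simp only [cj_eq, act_apply, ev, H.mk.injEq, mul_one, mul_zero, add_zero, zero_add, one_mul, zero_mul,
      sub_self] at h1 h2
    refine ⟨g, hg, ?_, h2.2.2⟩
    ext i
    fin_cases i <;> simp [h1.1, h1.2.1, hl]

theorem exists_of_essential (hp : p ≠ 2) (hF : F.IsSaturated p) {P : Subgroup (H p)} (hP : F.IsEssential p P) :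
    ∃ u ∈ (dat F).E, P = V u := by
  obtain ⟨α, hα, z, hz, hzZ, h⟩ : ∃ α ∈ F.autGroup P, ∃ z ∈ P, z ∈ Zc ∧ autFun α z ∉ Zc := by
    by_contra! h
    exact (ses hp).not_autInv isP hF hP h
  have hx := autFun_mem α hz
  refine ⟨![(autFun α z).x, (autFun α z).y], ⟨ne_zero_iff.2 (not_and_or.1 h), z.w, (autFun α z).w,
    isConjElt_iff.2 ⟨P, _, mor_autFun le_top hα, ?_, ?_⟩⟩, ?_⟩
  · convert hz using 1; ext <;> simp [hzZ.1, hzZ.2]
  · have : (⟨0, 0, z.w⟩ : H p) = z := by ext <;> simp [hzZ.1, hzZ.2]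
    rw [this]; rfl
  · ext a
    refine ⟨fun ha => (comm_iff hp).1 ((ses hp).comm_of_essential isP hF hP ha hx), fun ha =>
      (ses hp).mem_of_comm isP hF hP hx h trivial ((comm_iff hp).2 ha).symm⟩

theorem sub_of_dat (hp : p ≠ 2) (hF : F.IsSaturated p) (hE : E.IsSaturated p) (h : dat F = dat E) :
    F.IsSubsystemOf E := by
  have htop : ∀ f, Mor F ⊤ f → Mor E ⊤ f := fun f hf => by
    obtain ⟨g, hg, s, e⟩ := mor_top hp hf
    rw [h] at hg
    exact (Mor.cj_comp hg (s := s) trivial).congr fun a _ => (e a).symm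
  refine alperin_isSubsystemOf isP hF fun P f hP hf hi => ?_
  rcases hP with rfl | hP
  · exact htop f hf
  obtain ⟨u, hu, rfl⟩ := exists_of_essential hp hF hP
  obtain ⟨α, γ, h1⟩ := exists_ev hu.1 (hi.le (mem_img_of_mem f (ev_mem u 1 0)))
  obtain ⟨β, δ, h2⟩ := exists_ev hu.1 (hi.le (mem_img_of_mem f (ev_mem u 0 1)))
  have e : ∀ t w, f (ev u t w) = ev u (α * t + β * w) (γ * t + δ * w) := fun t w => by
    rw [homOn_ev hf.isHomOn, h1, h2]; ext <;> simp [ev, pw] <;> ring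
  have hd : α * δ - β * γ ≠ 0 := fun h0 => by
    have h3 : f (ev u δ (-γ)) = f (ev u 0 0) := by
      rw [e, e]; congr 1
      · linear_combination h0
      · ring
    have h4 : f (ev u β (-α)) = f (ev u 0 0) := by
      rw [e, e]; congr 1
      · ring
      · linear_combination -h0
    have h5 := ev_inj hu.1 (hf.injOn (ev_mem ..) (ev_mem ..) h3)
    have h6 := ev_inj hu.1 (hf.injOn (ev_mem ..) (ev_mem ..) h4)
    have h7 : f (ev u 1 0) = f (ev u 0 0) := by
      rw [e, e, neg_eq_zero.1 h5.2, neg_eq_zero.1 h6.2]; simp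
    exact one_ne_zero (ev_inj hu.1 (hf.injOn (ev_mem ..) (ev_mem ..) h7)).1
  set d := α * δ - β * γ with hdd
  obtain ⟨k, hk, ek⟩ := (L.comp hu.1 ⟨f, hf, e⟩ (L_sl hp hF hu (α := δ) (β := -β / d) (γ := -γ) (δ := α / d)
    (by field_simp; ring))).cg (α' := d) (β' := 0) (γ' := 0) (δ' := 1) (by ring) (by ring) (by ring)
    (by field_simp; ring)
  obtain ⟨k', hk', ek'⟩ := L_ext hp hF hu.1 hk hd ek
  obtain ⟨m, hm, em⟩ := (L.comp hu.1 ⟨k, ((htop _ hk').mono le_top).congr ek', ek⟩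
    (L_sl hp hE (h ▸ hu) (α := α / d) (β := β / d) (γ := γ) (δ := δ) (by field_simp; ring))).cg
    (α' := α) (β' := β) (γ' := γ) (δ' := δ) (by field_simp; ring) (by field_simp; ring) (by ring) (by ring)
  refine hm.congr fun a ha => ?_
  obtain ⟨t, w, rfl⟩ := exists_ev hu.1 ha
  rw [em, e]

theorem eq_of_dat (hp : p ≠ 2) (hF : F.IsSaturated p) (hE : E.IsSaturated p) (h : dat F = dat E) : F = E :=
  FusionSystem_le_antisymm (sub_of_dat hp hF hE h) (sub_of_dat hp hE hF h.symm)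

theorem realizable_of_par (hp : p ≠ 2) (hF : F.IsSaturated p)
    (h : ∀ u ∈ (dat F).E, ∀ v ∈ (dat F).E, om u v = 0) : F.IsRealizable p := by
  have hc : F.IsConstrained p := by
    by_cases hex : ∃ R, F.IsEssential p R
    swap
    · exact ⟨hF, ⊤, isNormal_top_of_no_essential isP hF (not_exists.1 hex), isCentric_top F⟩
    obtain ⟨R, hR⟩ := hex
    have huniq : ∀ R R', F.IsEssential p R → F.IsEssential p R' → R ≤ R' := fun R R' hR hR' a ha => by
      obtain ⟨u, hu, rfl⟩ := exists_of_essential hp hF hR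
      obtain ⟨v, hv, rfl⟩ := exists_of_essential hp hF hR'
      obtain ⟨t, w, rfl⟩ := exists_ev hu.1 ha
      have := h u hu v hv
      simp only [mem_V, ev, om] at this ⊢
      linear_combination t * this
    refine ⟨hF, R, normal_of_essential isP hF fun R' hR' => ?_, hR.1⟩
    rcases hR' with rfl | hR'
    · refine ⟨hR.1.1, fun g hg e => ?_⟩
      obtain ⟨γ, hγ, e'⟩ := hg.exists_aut e
      have h1 := essential_img_aut hγ hR
      rw [img_congr (e'.mono hR.1.1)] at h1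
      exact le_antisymm (huniq _ _ h1 hR) (huniq _ _ hR h1)
    · obtain rfl := le_antisymm (huniq _ _ hR' hR) (huniq _ _ hR hR')
      exact ⟨le_rfl, fun _ _ e => e⟩
  obtain ⟨G, _, ι, hι⟩ := exists_model isP hc
  have := hι.1
  exact isRealizable_of_isRealizedBy hι.2.1 hι.2.2.1

theorem exists_realized {G : Type*} [Group G] [Finite G] {ι : H p →* G} (hι : Function.Injective ι)
    {A : Subgroup G} (hA : ι.range ≤ A) (hG : ¬ p ^ 4 ∣ Nat.card G) :
    ∃ E : FusionSystem (⊤ : Subgroup (H p)), E.IsRealizable p ∧ dat E = datG ι A := by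
  let κ : (⊤ : Subgroup (H p)) →* A := (ι.codRestrict A fun a => hA ⟨a, rfl⟩).comp (⊤ : Subgroup (H p)).subtype
  have hκ : Function.Injective κ := fun a b h => Subtype.ext (hι (congrArg Subtype.val h))
  obtain ⟨e', he⟩ := exists_isoOn_of_injective κ hκ
  obtain ⟨E, hE⟩ := he.symm.exists_corr (groupFusionSystem κ.range)
  have hr : E.IsRealizedBy κ := hE.symm.isRealizedBy fun x => (homFn_coe κ x).symm
  have hc : Nat.card κ.range = p ^ 3 := by
    rw [← Nat.card_congr (MonoidHom.ofInjective hκ).toEquiv, card_top, H.card]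
  have hm := ((isRealizedBy_iff (e := fun a => κ ⟨a, trivial⟩) fun _ => rfl).1 hr).2
  refine ⟨E, isRealizable_of_isRealizedBy hr ⟨(IsPGroup.of_card hc).toSylow fun hd => hG ?_, rfl⟩, ?_⟩
  · refine Dvd.dvd.trans ?_ A.card_subgroup_dvd_card
    rw [← κ.range.card_mul_index, hc, pow_succ]
    exact Nat.mul_dvd_mul_left _ hd
  · ext x
    · refine (hm ⊤ _ le_rfl fun _ _ => trivial).trans ⟨fun ⟨γ, h⟩ => ⟨γ, γ.2, fun a => ?_⟩,
        fun ⟨γ, hγ, h⟩ => ⟨⟨γ, hγ⟩, fun a _ => Subtype.ext (h a)⟩⟩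
      exact congrArg Subtype.val (h a trivial)
    · refine and_congr_right fun _ => exists₂_congr fun c w => ⟨fun h => ?_, fun ⟨γ, hγ, h⟩ => ?_⟩
      · obtain ⟨P, f, hf, hP, e⟩ := isConjElt_iff.1 h
        obtain ⟨γ, h⟩ := (hm P f le_top fun _ _ => trivial).1 hf
        exact ⟨γ, γ.2, e ▸ congrArg Subtype.val (h _ hP)⟩
      · have h1 : ∀ n : ℤ, ι (vec x w ^ n) = γ * ι (⟨0, 0, c⟩ ^ n) * γ⁻¹ := fun n => by
          rw [map_zpow, map_zpow, h, conj_zpow]
        have h2 : ∀ a ∈ zpowers (⟨0, 0, c⟩ : H p), ∃ b, ι b = γ * ι a * γ⁻¹ := by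
          rintro _ ⟨n, rfl⟩; exact ⟨_, h1 n⟩
        choose! f hf using h2
        exact isConjElt_iff.2 ⟨_, f, (hm _ f le_top fun _ _ => trivial).2
          ⟨⟨γ, hγ⟩, fun a ha => Subtype.ext (hf a ha)⟩, mem_zpowers _, hι ((hf _ (mem_zpowers _)).trans h.symm)⟩

theorem datG_ok (hp : p ≠ 2) {G : Type*} [Group G] [Finite G] {ι : H p →* G} (hι : Function.Injective ι)
    {A : Subgroup G} (hA : ι.range ≤ A) (hG : ¬ p ^ 4 ∣ Nat.card G) : (datG ι A).OK := by
  obtain ⟨E, hE, e⟩ := exists_realized hι hA hG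
  exact e ▸ dat_ok hp (isSaturated_of_isRealizable hE)

theorem realizable_of_tw (hp : p ≠ 2) (hF : F.IsSaturated p) {G : Type*} [Group G] [Finite G] {ι : H p →* G}
    (hι : Function.Injective ι) {A : Subgroup G} (hA : ι.range ≤ A) (hG : ¬ p ^ 4 ∣ Nat.card G)
    {g : GL (Fin 2) (ZMod p)} (h : dat F = (datG ι A).tw g) : F.IsRealizable p := by
  obtain ⟨E, hE, e⟩ := exists_realized (ι := ι.comp (act g.1))
    (hι.comp (Function.LeftInverse.injective (act_inv_act g))) (A := A)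
    (by rintro _ ⟨a, rfl⟩; exact hA ⟨_, rfl⟩) hG
  rwa [eq_of_dat hp hF (isSaturated_of_isRealizable hE) (by rw [h, e, datG_comp])]

end CL.RV
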