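/- The groups between `SL₃(p)` and `GL₃(p)`, with or without the graph automorphism. -/
import Cfsg.Agent.FUS.RV.Dt

set_option autoImplicit false

namespace CL.RV

namespace L3

open Matrix H

variable {p : ℕ} [Fact p.Prime]

/-- the general linear group -/
abbrev G3 (p : ℕ) := GL (Fin 3) (ZMod p)

/-- reflection in the antidiagonal -/
def rf (M : Matrix (Fin 3) (Fin 3) (ZMod p)) : Matrix (Fin 3) (Fin 3) (ZMod p) :=
  Mᵀ.submatrix Fin.revPerm Fin.revPerm

theorem rf_mul (M N : Matrix (Fin 3) (Fin 3) (ZMod p)) : rf (M * N) = rf N * rf M := by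
  rw [rf, rf, rf, submatrix_mul_equiv, transpose_mul]

theorem rf_one : rf (1 : Matrix (Fin 3) (Fin 3) (ZMod p)) = 1 := by
  rw [rf, transpose_one, submatrix_one_equiv]

omit [Fact p.Prime] in
theorem rf_rf (M : Matrix (Fin 3) (Fin 3) (ZMod p)) : rf (rf M) = M := by ext; simp [rf]

/-- the graph automorphism as a function -/
def tf (g : G3 p) : G3 p :=
  ⟨rf (g⁻¹).1, rf g.1, by rw [← rf_mul, Units.mul_inv, rf_one], by rw [← rf_mul, Units.inv_mul, rf_one]⟩

theorem tf_tf (g : G3 p) : tf (tf g) = g := Units.ext (rf_rf _)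

/-- the graph automorphism -/
def tau : MulAut (G3 p) :=
  ⟨⟨tf, tf, tf_tf, tf_tf⟩, fun g h => Units.ext (by
    change rf ((g * h)⁻¹).1 = rf (g⁻¹).1 * rf (h⁻¹).1
    rw [_root_.mul_inv_rev, Units.val_mul, rf_mul])⟩

/-- the action of the group of order two -/
def phi : ℤˣ →* MulAut (G3 p) := MonoidHom.mk' (fun e => if e = 1 then 1 else tau) fun e f => by
  have : (tau : MulAut (G3 p)) * tau = 1 := MulEquiv.ext tf_tf
  rcases Int.units_eq_one_or e with rfl | rfl <;> rcases Int.units_eq_one_or f with rfl | rfl <;>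
    simp [this]

theorem phi_neg : (phi (-1) : MulAut (G3 p)) = tau := rfl

theorem det_tau (g : G3 p) : GeneralLinearGroup.det (tau g) = (GeneralLinearGroup.det g)⁻¹ := by
  rw [← map_inv]
  exact Units.ext ((det_submatrix_equiv_self _ _).trans (det_transpose _))

/-- unitriangular matrices -/
def um (a : H p) : Matrix (Fin 3) (Fin 3) (ZMod p) :=
  !![1, a.x, (a.w + a.x * a.y) / 2; 0, 1, a.y; 0, 0, 1]

theorem um_mul (hp : p ≠ 2) (a b : H p) : um (a * b) = um a * um b := by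
  have := two_ne hp
  rw [um, um, um, mul_fin_three]
  ext i j
  fin_cases i <;> fin_cases j <;> simp [add_comm]
  field_simp; ring

/-- the embedding of the extraspecial group -/
def io (hp : p ≠ 2) : H p →* G3 p :=
  MonoidHom.toHomUnits ⟨⟨um, by rw [um, one_fin_three]; simp⟩, um_mul hp⟩

theorem tau_io (hp : p ≠ 2) (a : H p) : tau (io hp a) = io hp (act !![0, -1; -1, 0] a) := by
  refine Units.ext ?_
  change rf ((io hp a)⁻¹).1 = um _
  rw [← map_inv]
  change rf (um _) = _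
  ext i j
  fin_cases i <;> fin_cases j <;> simp [rf, um, act_apply, det_fin_two_of, mul_comm]

theorem io_iff (hp : p ≠ 2) {a b : H p} {g : G3 p} :
    io hp a = g * io hp b * g⁻¹ ↔ um a * g.1 = g.1 * um b := by
  rw [eq_mul_inv_iff_mul_eq, Units.ext_iff]; rfl

theorem diag (hp : p ≠ 2) {A : Subgroup (ZMod p)ˣ} (hA : ∀ t, t ^ 3 ∈ A)
    {x : Matrix (Fin 2) (Fin 2) (ZMod p)} (hx : x.det ≠ 0) :
    (∃ g : G3 p, GeneralLinearGroup.det g ∈ A ∧ ∀ a, io hp (act x a) = g * io hp a * g⁻¹) ↔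
      x 0 1 = 0 ∧ x 1 0 = 0 ∧ ∃ d ∈ A, d.1 = x 0 0 ^ 2 * x 1 1 := by
  have h2 := two_ne hp
  simp only [io_iff]
  refine ⟨fun ⟨g, hg, h⟩ => ?_, fun ⟨h1, h3, d, hd, e⟩ => ?_⟩
  · have k : ∀ a i j, (um (act x a) * g.1) i j = (g.1 * um a) i j := fun a i j => by rw [h]
    have k1 := k ⟨0, 0, 2⟩ 0 1
    have k2 := k ⟨0, 0, 2⟩ 1 2
    have k3 := k ⟨0, 0, 2⟩ 2 2
    have k4 := k e1 1 2
    have k5 := k e1 0 1
    have k6 := k e2 0 1
    have k7 := k e2 1 2
    have k8 := g.det_ne_zero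
    have k9 : (GeneralLinearGroup.det g).1 = g.1.det := rfl
    simp [um, act_apply, mul_apply, Fin.sum_univ_three, hx, h2] at k1 k2 k3
    rw [det_fin_three, k1, k2, k3] at k8 k9
    simp only [mul_zero, zero_mul, sub_zero, add_zero] at k8 k9
    have n0 : g.1 0 0 ≠ 0 := fun e => k8 (by simp [e])
    have n1 : g.1 1 1 ≠ 0 := fun e => k8 (by simp [e])
    have n2 : g.1 2 2 ≠ 0 := fun e => k8 (by simp [e])
    simp [um, act_apply, mul_apply, Fin.sum_univ_three, e1, e2, k1, k2, n1, n2] at k4 k5 k6 k7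
    refine ⟨k6, k4, Units.mk0 _ n0 ^ 3 * (GeneralLinearGroup.det g)⁻¹, mul_mem (hA _) (inv_mem hg), ?_⟩
    rw [Units.val_mul, Units.mul_inv_eq_iff_eq_mul, k9, Units.val_pow_eq_pow_val, Units.val_mk0]
    linear_combination (-x 0 0 ^ 2 * g.1 0 0 * g.1 1 1) * k7 - g.1 0 0 * (x 0 0 * g.1 1 1 + g.1 0 0) * k5
  · rw [det_fin_two, h1, zero_mul, sub_zero] at hx
    have n1 := right_ne_zero_of_mul hx
    refine ⟨GeneralLinearGroup.mkOfDetNeZero !![x 0 0 * x 1 1, 0, 0; 0, x 1 1, 0; 0, 0, 1]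
      (by simp [det_fin_three, hx, n1]), ?_, fun a => ?_⟩
    · convert mul_mem (hA (Units.mk0 _ hx)) (inv_mem hd) using 1
      rw [eq_mul_inv_iff_mul_eq]
      ext
      simp [e, det_fin_three]; ring
    · change _ * !![_, _, _; _, _, _; _, _, _] = !![_, _, _; _, _, _; _, _, _] * _
      rw [um, um, mul_fin_three, mul_fin_three]
      ext i j
      fin_cases i <;> fin_cases j <;> simp [act_apply, det_fin_two, h1, h3] <;> ring

theorem card3 (hp : p ≠ 2) : ¬ p ^ 4 ∣ Nat.card (G3 p ⋊[phi] ℤˣ) := by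
  have pp : p.Prime := Fact.out
  have k : ∀ n, ¬ p ∣ p ^ (n + 1) - 1 := fun n h => pp.one_lt.ne' (Nat.dvd_one.1
    ((Nat.dvd_sub_iff_right (Nat.one_le_pow _ _ pp.pos) (dvd_pow_self p n.succ_ne_zero)).1 h))
  rw [SemidirectProduct.card, card_GL_field, Nat.card_eq_fintype_card, Fintype.card_units_int, ZMod.card,
    Fin.prod_univ_three, show (p ^ 3 - p ^ ((0 : Fin 3) : ℕ)) * (p ^ 3 - p ^ ((1 : Fin 3) : ℕ)) *
      (p ^ 3 - p ^ ((2 : Fin 3) : ℕ)) * 2 = p ^ 3 * ((p ^ 3 - 1) * (p ^ 2 - 1) * (p ^ 1 - 1) * 2) by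
      rw [show p ^ 3 - p ^ ((1 : Fin 3) : ℕ) = p * (p ^ 2 - 1) by rw [Nat.mul_sub]; congr 1 <;> simp [pow_succ'],
        show p ^ 3 - p ^ ((2 : Fin 3) : ℕ) = p ^ 2 * (p ^ 1 - 1) by rw [Nat.mul_sub]; congr 1 <;> simp [pow_succ]]
      simp only [Fin.val_zero, pow_zero]; ring,
    pow_succ, Nat.mul_dvd_mul_iff_left (pow_pos pp.pos _), pp.dvd_mul, pp.dvd_mul, pp.dvd_mul,
    Nat.prime_dvd_prime_iff_eq pp Nat.prime_two]
  rintro (((h | h) | h) | h)
  exacts [k 2 h, k 1 h, k 0 h, hp h]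

theorem conj_inl (γ : G3 p ⋊[phi] ℤˣ) (a b : G3 p) : SemidirectProduct.inl a =
    γ * SemidirectProduct.inl b * γ⁻¹ ↔ a = γ.left * phi γ.right b * γ.left⁻¹ := by
  rw [eq_mul_inv_iff_mul_eq, eq_mul_inv_iff_mul_eq, SemidirectProduct.ext_iff]; simp

end L3

open L3 Matrix H in
theorem realM {p : ℕ} [Fact p.Prime] (hp : p ≠ 2) (A : Subgroup (ZMod p)ˣ) (hA : ∀ t, t ^ 3 ∈ A) (b : Prop) :
    ∃ (G : Type) (_ : Group G) (_ : Finite G) (ι : H p →* G) (B : Subgroup G),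
      Function.Injective ι ∧ ι.range ≤ B ∧ ¬ p ^ 4 ∣ Nat.card G ∧ (datG ι B).IsM A b := by
  have h2 := two_ne hp
  have m1 : (-1 : (ZMod p)ˣ) ∈ A := by simpa [pow_succ] using hA (-1)
  have dp : ∀ (e : ℤˣ) (g : G3 p), GeneralLinearGroup.det g ∈ A → GeneralLinearGroup.det (phi e g) ∈ A :=
    fun e g h => by
      rcases Int.units_eq_one_or e with rfl | rfl
      · rwa [map_one]
      · rw [phi_neg, det_tau]; exact inv_mem h
  let B : Subgroup (G3 p ⋊[phi] ℤˣ) :=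
    { carrier := {γ | GeneralLinearGroup.det γ.left ∈ A ∧ (γ.right = 1 ∨ b)}
      one_mem' := ⟨by simp, Or.inl rfl⟩
      mul_mem' := fun {γ δ} h k => ⟨by
        rw [SemidirectProduct.mul_left, map_mul]; exact mul_mem h.1 (dp _ _ k.1), by
        rw [SemidirectProduct.mul_right]
        exact h.2.elim (fun e => k.2.imp_left fun f => by rw [e, f, one_mul]) Or.inr⟩
      inv_mem' := fun {γ} h => ⟨dp _ _ (by rw [map_inv]; exact inv_mem h.1), by
        rw [SemidirectProduct.inv_right, inv_eq_one]; exact h.2⟩ }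
  refine ⟨G3 p ⋊[phi] ℤˣ, inferInstance, Finite.of_equiv _ SemidirectProduct.equivProd.symm,
    SemidirectProduct.inl.comp (io hp), B, SemidirectProduct.inl_injective.comp fun a c e => ?_, ?_,
    card3 hp, fun x => ?_, fun u => ?_⟩
  · have e' : um a = um c := congrArg Units.val e
    have e1 : a.x = c.x := congrFun (congrFun e' 0) 1
    have e2 : a.y = c.y := congrFun (congrFun e' 1) 2
    have e3 : (a.w + a.x * a.y) / 2 = (c.w + c.x * c.y) / 2 := congrFun (congrFun e' 0) 2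
    rw [div_left_inj' h2, e1, e2, add_left_inj] at e3
    exact H.ext e1 e2 e3
  · rintro _ ⟨a, rfl⟩
    refine ⟨?_, Or.inl rfl⟩
    change GeneralLinearGroup.det (io hp a) ∈ A
    rw [show GeneralLinearGroup.det (io hp a) = 1 from Units.ext (show (um a).det = 1 by simp [um, det_fin_three])]
    exact one_mem _
  · have ss : ∀ a : H p, act !![0, -1; -1, 0] (act !![0, -1; -1, 0] a) = a := fun a => by
      ext <;> simp [act_apply, det_fin_two_of]
    have k := diag hp hA (x := x.1 * !![0, -1; -1, 0]) (by simp [det_fin_two_of, x.det_ne_zero])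
    simp only [mem_datG_W, MonoidHom.comp_apply, conj_inl, ← diag hp hA x.det_ne_zero]
    simp only [act_mul, mul_apply, Fin.sum_univ_two, of_apply, cons_val', cons_val_zero, cons_val_one,
      cons_val_fin_one, mul_zero, mul_neg, mul_one, add_zero, zero_add, neg_eq_zero, even_two,
      Even.neg_pow] at k
    refine ⟨fun ⟨⟨g, e⟩, ⟨h1, h3⟩, h⟩ => ?_, ?_⟩
    · rcases Int.units_eq_one_or e with rfl | rfl
      · exact Or.inl ⟨g, h1, by simpa using h⟩
      · obtain ⟨k1, k2, d, hd, k3⟩ := k.1 ⟨g, h1, fun a => by rw [h, phi_neg, tau_io, ss]⟩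
        exact Or.inr ⟨h3.resolve_left (show (-1 : ℤˣ) ≠ 1 by decide), k1, k2, -1 * d, mul_mem m1 hd, by simp [k3]⟩
    · rintro (⟨g, h1, h⟩ | ⟨hb, k1, k2, d, hd, k3⟩)
      · exact ⟨⟨g, 1⟩, ⟨h1, Or.inl rfl⟩, by simpa using h⟩
      · obtain ⟨g, h1, h⟩ := k.2 ⟨k1, k2, -1 * d, mul_mem m1 hd, by simp [k3]⟩
        exact ⟨⟨g, -1⟩, ⟨h1, Or.inr hb⟩, fun a => by rw [phi_neg, tau_io, ← h, ss]⟩
  simp only [mem_datG_E, MonoidHom.comp_apply, conj_inl]
  refine and_congr_right fun u0 => ⟨fun ⟨c, w, ⟨g, e⟩, _, h⟩ => ?_, fun h => ?_⟩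
  · obtain ⟨c, h⟩ : ∃ c, um (vec u w) * g.1 = g.1 * um ⟨0, 0, c⟩ := by
      rcases Int.units_eq_one_or e with rfl | rfl
      · exact ⟨c, (io_iff hp).1 (by simpa using h)⟩
      · rw [phi_neg, tau_io, io_iff] at h
        exact ⟨-c, by simpa [act_apply, det_fin_two_of] using h⟩
    have h1 : (um (vec u w) - 1) * g.1 = g.1 * (um ⟨0, 0, c⟩ - 1) := by
      rw [sub_mul, mul_sub, h, one_mul, mul_one]
    have h3 : (um (⟨0, 0, c⟩ : H p) - 1) * (um ⟨0, 0, c⟩ - 1) = 0 := by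
      ext i j
      fin_cases i <;> fin_cases j <;> simp [um, mul_apply, Fin.sum_univ_three, one_fin_three]
    have h4 : (um (vec u w) - 1) * (um (vec u w) - 1) = 0 := g.mul_left_eq_zero.1 (by
      rw [mul_assoc, h1, ← mul_assoc, h1, mul_assoc, h3, mul_zero])
    simpa [um, H.vec, mul_apply, Fin.sum_univ_three, one_fin_three] using congrFun (congrFun h4 0) 2
  have key : ∀ (c : ZMod p) (m : Matrix (Fin 3) (Fin 3) (ZMod p)), m.det = -1 →
      um (vec u 0) * m = m * um ⟨0, 0, c⟩ → ∃ c w, ∃ γ ∈ B,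
        io hp (vec u w) = γ.left * phi γ.right (io hp ⟨0, 0, c⟩) * γ.left⁻¹ := fun c m hm e =>
    ⟨c, 0, ⟨GeneralLinearGroup.mkOfDetNeZero m (by simp [hm]), 1⟩, ⟨by
      convert m1 using 1; exact Units.ext hm, Or.inl rfl⟩, by rw [map_one]; exact (io_iff hp).2 e⟩
  rcases mul_eq_zero.1 h with h | h
  · exact key (2 * u 1) !![0, 1, 0; 1, 0, 0; 0, 0, 1] (by simp [det_fin_three])
      (by simp [um, H.vec, h, h2])
  · exact key (2 * u 0) !![1, 0, 0; 0, 0, 1; 0, 1, 0] (by simp [det_fin_three])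
      (by simp [um, H.vec, h, h2])

end CL.RV
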