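/-
The local configuration at the prime `13` and elementary facts on elements of order `13`.
-/
import Cfsg.Agent.FUS.SylIn
import Cfsg.Agent.FUS.RV.Heis

set_option autoImplicit false

namespace CL.RV

open Subgroup CL.Fus

variable {G : Type*} [Group G]

instance fact13 : Fact (Nat.Prime 13) := ⟨by norm_num⟩

/-- powers with exponents modulo `13` -/
def pz (g : G) (a : ZMod 13) : G := g ^ a.val

theorem pz_add {g : G} (hg : g ^ 13 = 1) (a b : ZMod 13) : pz g (a + b) = pz g a * pz g b :=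
  pow_val_add hg a b

theorem pz_zero (g : G) : pz g 0 = 1 := pow_zero g

theorem pz_one (g : G) : pz g 1 = g := pow_one g

theorem pz_nat {g : G} (hg : g ^ 13 = 1) (n : ℕ) : pz g n = g ^ n := by
  rw [pz, ZMod.val_natCast, ← pow_eq_pow_mod _ hg]

theorem pz_neg {g : G} (hg : g ^ 13 = 1) (a : ZMod 13) : pz g (-a) = (pz g a)⁻¹ :=
  eq_inv_of_mul_eq_one_left (by rw [← pz_add hg, neg_add_cancel, pz_zero])

theorem pz_pz {g : G} (hg : g ^ 13 = 1) (a b : ZMod 13) : pz (pz g a) b = pz g (a * b) := by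
  rw [pz, pz, ← pow_mul, ← pz_nat hg]; simp

theorem pz_pow {g : G} (hg : g ^ 13 = 1) (a : ZMod 13) : pz g a ^ 13 = 1 := by
  rw [pz, ← pow_mul, mul_comm, pow_mul, hg, one_pow]

theorem conj_pz (t g : G) (a : ZMod 13) : t * pz g a * t⁻¹ = pz (t * g * t⁻¹) a := conj_pow.symm

theorem pz_inv {g : G} (a : ZMod 13) : pz g⁻¹ a = (pz g a)⁻¹ := inv_pow g _

theorem pz_mem {H : Subgroup G} {g : G} (hg : g ∈ H) (a : ZMod 13) : pz g a ∈ H := pow_mem hg _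

theorem pz_back {g : G} (hg : g ^ 13 = 1) {a : ZMod 13} (ha : a ≠ 0) : pz (pz g a) a⁻¹ = g := by
  rw [pz_pz hg, mul_inv_cancel₀ ha, pz_one]

theorem pz_eq_one {g : G} (hg : g ^ 13 = 1) (h1 : g ≠ 1) {a : ZMod 13} (h : pz g a = 1) : a = 0 := by
  by_contra ha
  exact h1 (by rw [← pz_back hg ha, h, pz, one_pow])

theorem mem_zpowers_pz {g y : G} (hg : g ^ 13 = 1) : y ∈ zpowers g ↔ ∃ a, y = pz g a := by
  refine ⟨?_, fun ⟨a, e⟩ => e ▸ pz_mem (mem_zpowers g) a⟩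
  rintro ⟨n, rfl⟩
  obtain ⟨m, rfl | rfl⟩ := n.eq_nat_or_neg
  · exact ⟨m, by rw [pz_nat hg]; exact zpow_natCast g m⟩
  · exact ⟨-m, by rw [pz_neg hg, pz_nat hg]; simp⟩

theorem Commute.pz {g y : G} (h : Commute y g) (a : ZMod 13) : Commute y (pz g a) := h.pow_right _

theorem comm_of_pz {g y : G} (hg : g ^ 13 = 1) {a : ZMod 13} (ha : a ≠ 0) (h : Commute y (pz g a)) :
    Commute y g := pz_back hg ha ▸ Commute.pz h _

theorem eq_one_of_inv {g : G} (hg : g ^ 13 = 1) (h : g = g⁻¹) : g = 1 := by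
  have h2 : g ^ 2 = 1 := by rw [pow_two]; nth_rewrite 1 [h]; rw [inv_mul_cancel]
  simpa using pow_gcd_eq_one.2 ⟨hg, h2⟩

theorem pg_zpowers {p k : ℕ} {g : G} (h : g ^ p ^ k = 1) : IsPGroup p (zpowers g) :=
  fun ⟨_, n, rfl⟩ => ⟨k, Subtype.ext (by
    show (g ^ n) ^ p ^ k = 1
    rw [← zpow_natCast, ← zpow_mul, mul_comm, zpow_mul, zpow_natCast, h, one_zpow])⟩

theorem pg13 {g : G} (h : g ^ 13 = 1) : IsPGroup 13 (zpowers g) := pg_zpowers (k := 1) (by simpa using h)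

theorem card_zp {g : G} (hg : g ^ 13 = 1) (h1 : g ≠ 1) : Nat.card (zpowers g) = 13 := by
  rw [Nat.card_zpowers, orderOf_eq_prime hg h1]

theorem sq_dvd_of_lt [Finite G] {g : G} (hg : g ^ 13 = 1) (h1 : g ≠ 1) {V : Subgroup G}
    (hV : IsPGroup 13 V) (h : zpowers g < V) : 13 ^ 2 ∣ Nat.card V := by
  obtain ⟨k, hk⟩ := hV.exists_card_eq
  have h2 : 13 ^ 1 < 13 ^ k := by
    rw [← hk, pow_one, ← card_zp hg h1]
    exact lt_of_le_of_ne (card_le_of_le h.le) fun e => h.ne (eq_of_le_of_card_ge h.le e.ge)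
  rw [hk]
  exact pow_dvd_pow _ ((Nat.pow_lt_pow_iff_right (by norm_num)).1 h2)

theorem syl_zp [Finite G] {g : G} (hg : g ^ 13 = 1) (h1 : g ≠ 1) {H : Subgroup G} (hH : g ∈ H)
    (h : ¬ 13 ^ 2 ∣ Nat.card H) : SylIn 13 (zpowers g) H :=
  ⟨zpowers_le.2 hH, pg13 hg, fun _ hC hp hle => by
    by_contra hne
    exact h ((sq_dvd_of_lt hg h1 hp (lt_of_le_of_ne hle (Ne.symm hne))).trans (card_dvd_of_le hC))⟩

/-- fixed and inverted parts -/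
theorem dec {P : Subgroup G} (hP : IsPGroup 13 P) {t : G} (ht : t * t = 1)
    (hn : ∀ y ∈ P, t * y * t⁻¹ ∈ P) {y : G} (hy : y ∈ P) :
    ∃ r ∈ P, t * r * t⁻¹ = r⁻¹ ∧ t * (y * r) * t⁻¹ = y * r := by
  have hw : y⁻¹ * (t * y * t⁻¹) ∈ P := mul_mem (inv_mem hy) (hn y hy)
  obtain ⟨k, hk⟩ := hP ⟨_, hw⟩
  obtain ⟨m, hm⟩ : Odd (13 ^ k) := Odd.pow (by decide)
  have hk' : (y⁻¹ * (t * y * t⁻¹)) ^ (2 * m + 1) = 1 := hm ▸ congrArg Subtype.val hk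
  have h1 : t * (y⁻¹ * (t * y * t⁻¹)) * t⁻¹ = (y⁻¹ * (t * y * t⁻¹))⁻¹ := by
    calc _ = t * y⁻¹ * t⁻¹ * (t * t) * y * (t * t)⁻¹ := by group
      _ = _ := by rw [ht]; group
  have h3 : t * y * t⁻¹ = y * (y⁻¹ * (t * y * t⁻¹)) := by group
  generalize y⁻¹ * (t * y * t⁻¹) = w at hw hk' h1 h3
  have h2 : t * w ^ (m + 1) * t⁻¹ = (w ^ (m + 1))⁻¹ := by rw [← conj_pow, h1, inv_pow]
  refine ⟨w ^ (m + 1), pow_mem hw _, h2, ?_⟩
  rw [← conj_mul, h2, h3, mul_assoc, mul_right_inj, mul_inv_eq_iff_eq_mul, ← pow_add,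
    show m + 1 + (m + 1) = 2 * m + 1 + 1 by ring, pow_succ, hk', one_mul]

/-- the configuration -/
structure Loc (z x s i j ρ : G) : Prop where
  zz : z * z = 1
  z1 : z ≠ 1
  xp : x ^ 13 = 1
  x1 : x ≠ 1
  ii : i * i = z
  jj : j * j = z
  ss : s * s = z
  ij : i * j * (i * j) = z
  si : s * i = i * s
  sj : s * j = j * s
  ix : i * x = x * i
  jx : j * x = x * j
  sx : s * x * s⁻¹ = x⁻¹
  ρi : ρ * i * ρ⁻¹ = j
  ρx : ρ ∈ normalizer (zpowers x : Set G)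
  ρs : ρ * s * ρ⁻¹ = s ∨ ρ * s * ρ⁻¹ = s * z
  ρj : ρ * j * ρ⁻¹ = i * j ∨ ρ * j * ρ⁻¹ = i * j * z
  c2 : 13 ^ 2 ∣ Nat.card G
  c4 : ¬ 13 ^ 4 ∣ Nat.card G
  cz : ¬ 13 ^ 2 ∣ Nat.card (centralizer ({z} : Set G))
  U : ∀ t, t * t = 1 → t * z = z * t → t * x = x * t → t = 1 ∨ t = z
  cj : IsConj z (s * i)

end CL.RV
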