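/-
An invariant `13`-subgroup of the normaliser of `⟨x⟩`.
-/
import Cfsg.Agent.FUS.RV.MonD
import Cfsg.Agent.INV.ZStar
import Cfsg.Agent.TECH.IsolZ
import Cfsg.Agent.PLOC.PNormal

set_option autoImplicit false

namespace CL.RV

open Subgroup CL.Fus Cfsg
open scoped Pointwise

variable {G : Type*} [Group G] {z x s i j ρ : G}

/-- an invariant `13`-subgroup -/
structure Inv (x s i j ρ : G) (P : Subgroup G) : Prop where
  pg : IsPGroup 13 P
  xm : x ∈ P
  cx : ∀ y ∈ P, Commute y x
  big : 13 ^ 2 ∣ Nat.card P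
  ns : s ∈ normalizer (P : Set G)
  ni : i ∈ normalizer (P : Set G)
  nj : j ∈ normalizer (P : Set G)
  nρ : ρ ∈ normalizer (P : Set G)

theorem mem_norm_zp [Finite G] {g y : G} (h : g * y * g⁻¹ ∈ zpowers y) :
    g ∈ normalizer (zpowers y : Set G) := mem_normalizer_fintype (by
  rintro _ ⟨n, rfl⟩
  rw [← conj_zpow]
  exact zpow_mem h n)

theorem mem_norm_of_comm [Finite G] {g y : G} (h : g * y = y * g) :
    g ∈ normalizer (zpowers y : Set G) := mem_norm_zp (by rw [h, mul_inv_cancel_right]; exact mem_zpowers y)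

namespace Loc

variable (h : Loc z x s i j ρ)
include h

theorem iz : Commute i z := h.ii ▸ (Commute.refl i).mul_right (Commute.refl i)
theorem jz : Commute j z := h.jj ▸ (Commute.refl j).mul_right (Commute.refl j)
theorem sz : Commute s z := h.ss ▸ (Commute.refl s).mul_right (Commute.refl s)
theorem zx : Commute z x := h.ii ▸ Commute.mul_left h.ix h.ix

theorem inv_i : i⁻¹ = i * z := inv_eq_of_mul_eq_one_right (by rw [← mul_assoc, h.ii, h.zz])

theorem ji : j * i * j⁻¹ = i⁻¹ := by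
  have h1 : j * i * j = i := mul_left_cancel (a := i) (by
    rw [h.ii, ← h.ij]; simp only [mul_assoc])
  rw [h.inv_i, inv_eq_of_mul_eq_one_right (show j * (j * z) = 1 by rw [← mul_assoc, h.jj, h.zz]),
    ← mul_assoc, h1]

theorem four {g : G} (e : g * g = z) : IsPGroup 2 (zpowers g) :=
  pg_zpowers (k := 2) (by rw [show 2 ^ 2 = 2 * 2 from rfl, pow_mul, pow_two g, e, pow_two, h.zz])

variable [Finite G]

theorem pg_ij : IsPGroup 2 (zpowers i ⊔ zpowers j : Subgroup G) :=
  (h.four h.ii).to_sup_of_normal_left' (h.four h.jj)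
    (zpowers_le.2 (mem_norm_zp (h.ji ▸ inv_mem (mem_zpowers i))))

theorem sq_dvd_N : 13 ^ 2 ∣ Nat.card (normalizer (zpowers x : Set G)) := by
  obtain ⟨S, hS⟩ := (pg13 h.xp).exists_le_sylow
  have h1 : zpowers x < S := lt_of_le_of_ne hS fun e => by
    have := S.pow_dvd_card_of_pow_dvd_card h.c2
    rw [← e, card_zp h.xp h.x1] at this
    norm_num at this
  exact (sq_dvd_of_lt h.xp h.x1 (S.isPGroup'.to_inf_left)
    (CL.lt_inf_normalizer_of_isNilpotent S.isPGroup'.isNilpotent h1)).trans (card_dvd_of_le inf_le_right)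

theorem sq_dvd_O : 13 ^ 2 ∣ Nat.card (pPrimeCore 2 (normalizer (zpowers x : Set G))) ∧
    (⟨x, le_normalizer (mem_zpowers x)⟩ : normalizer (zpowers x : Set G)) ∈ pPrimeCore 2 _ := by
  set N := normalizer (zpowers x : Set G)
  let zN : N := ⟨z, mem_norm_of_comm h.zx⟩
  have z2 : zN * zN = 1 := Subtype.ext h.zz
  have hi : IsIsolatedInvolution zN := ⟨orderOf_eq_prime (by rwa [pow_two])
    fun e => h.z1 (congrArg Subtype.val e), fun g hg => Subtype.ext <| by
      refine (h.U (g.1 * z * g.1⁻¹) (by rw [conj_mul, h.zz]; group) (congrArg Subtype.val hg.eq).symm ?_).resolve_left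
        fun e => h.z1 (by simpa using e)
      obtain ⟨n, hn⟩ := (mem_normalizer_iff.1 (inv_mem g.2) x).1 (mem_zpowers x)
      have := (h.zx.zpow_right n).map (MulAut.conj (g : G))
      simp only at hn
      rw [hn] at this
      simpa [mul_assoc] using this.eq⟩
  have h1 : centralizer {zN} ⊔ pPrimeCore 2 N = ⊤ := CL.Isol.centralizer_sup_pPrimeCore
    (pg_zpowers (k := 1) (by rwa [pow_one, pow_two])) fun g => by
      simpa [mul_assoc] using inv_mem (CL.BS.zstar hi g)
  have hx : (⟨x, le_normalizer (mem_zpowers x)⟩ : N) ∈ pPrimeCore 2 N := by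
    refine CL.le_pPrimeCore (N := (zpowers x).subgroupOf N) ?_ (mem_zpowers x)
    rw [Nat.card_congr (subgroupOfEquivOfLe le_normalizer).toEquiv, card_zp h.xp h.x1]
    norm_num
  refine ⟨?_, hx⟩
  have h2 := CL.card_sup_mul_card_inf (centralizer {zN}) (pPrimeCore 2 N)
  rw [h1, card_top] at h2
  have h3 : 13 ∣ Nat.card ↥(centralizer {zN} ⊓ pPrimeCore 2 N) := by
    rw [← orderOf_eq_prime (x := (⟨x, le_normalizer (mem_zpowers x)⟩ : N)) (Subtype.ext h.xp)
      fun e => h.x1 (congrArg Subtype.val e)]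
    exact Subgroup.orderOf_dvd_natCard _ ⟨mem_centralizer_singleton_iff.2 (Subtype.ext h.zx.symm.eq), hx⟩
  have h4 : ¬ 13 ^ 2 ∣ Nat.card (centralizer {zN}) := fun e => h.cz (e.trans (by
    rw [← card_map_of_injective N.subtype_injective]
    refine card_dvd_of_le ?_
    rintro _ ⟨g, hg, rfl⟩
    exact mem_centralizer_singleton_iff.2 (congrArg Subtype.val (mem_centralizer_singleton_iff.1 hg))))
  have h5 := h2 ▸ mul_dvd_mul h.sq_dvd_N h3
  generalize Nat.card (centralizer {zN}) = a at h4 h5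
  by_cases ha : 13 ∣ a
  · obtain ⟨b, rfl⟩ := ha
    rw [mul_comm _ 13, mul_assoc, mul_dvd_mul_iff_left (by norm_num)] at h5
    exact (Nat.Coprime.pow_left 2 ((fact13.out.coprime_iff_not_dvd).2 fun e => h4
      (by rw [pow_two]; exact mul_dvd_mul_left _ e))).dvd_of_dvd_mul_left h5
  · exact (Nat.Coprime.pow_left 2 ((fact13.out.coprime_iff_not_dvd).2 ha)).dvd_of_dvd_mul_left
      ((dvd_mul_right _ _).trans h5)

theorem exists_inv : ∃ (ρ' : G) (P : Subgroup G), Loc z x s i j ρ' ∧ Inv x s i j ρ' P := by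
  obtain ⟨h1, h2⟩ := h.sq_dvd_O
  set N := normalizer (zpowers x : Set G)
  set O := (pPrimeCore 2 N).map N.subtype
  let R := zpowers s ⊔ (zpowers i ⊔ zpowers j)
  have hs : s ∈ R := mem_sup_left (mem_zpowers s)
  have hi : i ∈ R := mem_sup_right (mem_sup_left (mem_zpowers i))
  have hj : j ∈ R := mem_sup_right (mem_sup_right (mem_zpowers j))
  have hz : z ∈ R := h.ss ▸ mul_mem hs hs
  have pR : IsPGroup 2 R := (h.four h.ss).to_sup_of_normal_left' h.pg_ij
    (sup_le (zpowers_le.2 (mem_norm_of_comm h.si.symm)) (zpowers_le.2 (mem_norm_of_comm h.sj.symm)))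
  have RN : R ≤ N := sup_le (zpowers_le.2 (mem_norm_zp (h.sx ▸ inv_mem (mem_zpowers x))))
    (sup_le (zpowers_le.2 (mem_norm_of_comm h.ix)) (zpowers_le.2 (mem_norm_of_comm h.jx)))
  have NO : N ≤ normalizer (O : Set G) := fun g hg =>
    le_normalizer_map _ ⟨⟨g, hg⟩, by rw [normalizer_eq_top]; trivial, rfl⟩
  have cO : Nat.card O = Nat.card (pPrimeCore 2 N) := card_map_of_injective N.subtype_injective
  have cop : (Nat.card R).Coprime (Nat.card O) :=
    CL.coprime_card_of_isPGroup_of_coprime pR (cO ▸ CL.coprime_card_pPrimeCore 2 N)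
  have sol := Or.inl (b := Group.IsSolvable O) (CL.isSolvable_of_isPGroup pR)
  obtain ⟨P, hP⟩ := CL.coprime_exists_invariant_sylow R O (RN.trans NO) cop sol 13
  obtain ⟨P', hP'⟩ := CL.exists_sylow_map_subtype_eq_conj O P (NO (inv_mem h.ρx))
  have ρR : R ≤ R.comap (MulAut.conj ρ).toMonoidHom := sup_le (zpowers_le.2 (by
      show ρ * s * ρ⁻¹ ∈ R
      rcases h.ρs with e | e <;> rw [e]
      exacts [hs, mul_mem hs hz])) (sup_le (zpowers_le.2 (show ρ * i * ρ⁻¹ ∈ R from h.ρi ▸ hj))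
    (zpowers_le.2 (by
      show ρ * j * ρ⁻¹ ∈ R
      rcases h.ρj with e | e <;> rw [e]
      exacts [mul_mem hi hj, mul_mem (mul_mem hi hj) hz])))
  obtain ⟨c, ⟨c1, c2⟩, hc⟩ := CL.coprime_invariant_sylow_conj R O (RN.trans NO) cop sol 13 P P' hP (by
    rw [hP']
    refine le_normalizer_iff.2 fun r hr y hy => ?_
    rw [mem_pointwise_smul_iff_inv_smul_mem] at hy ⊢
    convert (mem_normalizer_iff.1 (hP (ρR hr)) _).1 hy using 1
    simp [mul_assoc])
  have cc : ∀ r ∈ R, ρ * c * r * (ρ * c)⁻¹ = ρ * r * ρ⁻¹ := fun r hr => by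
    rw [mul_assoc ρ, ← c2 r hr]; group
  have ON : O ≤ N := map_subtype_le _
  have xP := CL.le_map_sylow_of_le_normalizer (U := zpowers x) (K := O) (zpowers_le.2 ⟨_, h2, rfl⟩)
    (pg13 h.xp) ON P
  have pP : IsPGroup 13 ((P : Subgroup O).map O.subtype) := P.isPGroup'.map _
  refine ⟨ρ * c, _, { h with
    ρi := by rw [cc i hi, h.ρi]
    ρx := mul_mem h.ρx (ON c1)
    ρs := by rw [cc s hs]; exact h.ρs
    ρj := by rw [cc j hj]; exact h.ρj }, pP, xP (mem_zpowers x), fun y hy => ?_, ?_, hP hs, hP hi, hP hj, ?_⟩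
  · have := (normal_subgroupOf_iff_le_normalizer xP).2 ((map_subtype_le _).trans ON)
    have := CL.PN.le_center_of_card_eq_prime pP ((zpowers x).subgroupOf _) (by
      rw [Nat.card_congr (subgroupOfEquivOfLe xP).toEquiv, card_zp h.xp h.x1])
      (show (⟨x, xP (mem_zpowers x)⟩ : (P : Subgroup O).map O.subtype) ∈ _ from mem_zpowers x)
    exact congrArg Subtype.val (mem_center_iff.1 this ⟨y, hy⟩)
  · rw [card_map_of_injective O.subtype_injective]
    exact P.pow_dvd_card_of_pow_dvd_card (cO ▸ h1)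
  · rw [mem_normalizer_iff_map_conj_eq]
    show MulAut.conj (ρ * c) • (P : Subgroup O).map O.subtype = _
    rw [map_mul, mul_smul, hc, hP', map_inv, smul_inv_smul]

end Loc

end CL.RV
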