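/-
Coordinates on the invariant `13`-subgroup.
-/
import Cfsg.Agent.FUS.RV.MonA1

set_option autoImplicit false

namespace CL.RV

open Subgroup CL.Fus Cfsg
open scoped commutatorElement

variable {G : Type*} [Group G] {z x s i j ρ : G} {P : Subgroup G}

/-- coordinates -/
def ph (x v w : G) (a : Fin 3 → ZMod 13) : G := pz x (a 0) * pz v (a 1) * pz w (a 2)

/-- an element fixed by the second involution -/
structure Frm (z x s i j : G) (P : Subgroup G) (v : G) (a : ZMod 13) : Prop where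
  vm : v ∈ P
  vp : v ^ 13 = 1
  v1 : v ≠ 1
  uv : s * i * v * (s * i)⁻¹ = v
  zv : z * v * z⁻¹ = v⁻¹
  iv : i * v * i⁻¹ = pz v a
  aa : a * a = -1
  zi : ∀ y ∈ P, z * y * z⁻¹ * y ∈ zpowers x
  fus : ∃ g k, k ≠ 0 ∧ g * x * g⁻¹ = pz v k

theorem cm {H : Subgroup G} {g y : G} (hg : g ∈ normalizer (H : Set G)) (hy : y ∈ H) : g * y * g⁻¹ ∈ H :=
  (mem_normalizer_iff.1 hg y).1 hy

namespace Loc

variable (h : Loc z x s i j ρ)
include h

theorem uu : s * i * (s * i) = 1 := by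
  rw [mul_assoc, ← mul_assoc i, ← h.si, mul_assoc, h.ii, ← mul_assoc, h.ss, h.zz]

theorem uz : Commute (s * i) z := h.sz.mul_left h.iz

theorem ux : s * i * x * (s * i)⁻¹ = x⁻¹ := by
  rw [← h.sx, mul_assoc s, h.ix]; group

theorem ju : j * (s * i) * j⁻¹ = s * i * z := by
  rw [← mul_assoc, ← h.sj, mul_assoc, mul_assoc, ← mul_assoc j, h.ji, h.inv_i, mul_assoc]

theorem cu : ¬ 13 ^ 2 ∣ Nat.card (centralizer ({s * i} : Set G)) := by
  obtain ⟨g, hg⟩ := isConj_iff.1 h.cj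
  refine fun e => h.cz (e.trans (card_dvd_of_injective
    (((MulAut.conj g⁻¹).toMonoidHom.comp (centralizer {s * i}).subtype).codRestrict _ fun y => ?_)
    fun a b e => ?_))
  · have : y.1 * (g * z * g⁻¹) = g * z * g⁻¹ * y.1 := by
      rw [hg]; exact mem_centralizer_singleton_iff.1 y.2
    rw [mem_centralizer_singleton_iff]
    simpa [mul_assoc] using congrArg (fun t => g⁻¹ * t * g) this
  · exact Subtype.ext ((MulAut.conj g⁻¹).injective (congrArg Subtype.val e))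

theorem exists_frm [Finite G] (hP : Inv x s i j ρ P) : ∃ v a, Frm z x s i j P v a := by
  have nz : z ∈ normalizer (P : Set G) := h.ii ▸ mul_mem hP.ni hP.ni
  have nu := mul_mem hP.ns hP.ni
  have sX := syl_zp h.xp h.x1 (mem_centralizer_singleton_iff.2 h.zx.symm.eq) h.cz
  have cz : ∀ y ∈ P, z * y * z⁻¹ = y → y ∈ zpowers x := fun y hy e =>
    (sX.eq_of_le (C := P ⊓ centralizer {z}) inf_le_right hP.pg.to_inf_left
      (le_inf (zpowers_le.2 hP.xm) sX.le)).le
      ⟨hy, mem_centralizer_singleton_iff.2 (mul_inv_eq_iff_eq_mul.1 e).symm⟩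
  have zi : ∀ y ∈ P, z * y * z⁻¹ * y ∈ zpowers x := fun y hy => by
    obtain ⟨r, hr, e1, e2⟩ := dec hP.pg h.zz (fun _ => cm nz) hy
    have h1 := cz _ (mul_mem hy hr) e2
    obtain ⟨k, hk⟩ := (mem_zpowers_pz h.xp).1 h1
    have : z * y * z⁻¹ * y = y * r * (y * r) := by
      rw [← conj_mul, e1, mul_inv_eq_iff_eq_mul] at e2
      rw [e2, mul_assoc, mul_right_inj, ← mul_left_inj r, mul_assoc, hk, (Commute.pz (hP.cx r hr) k).eq]
    exact this ▸ mul_mem h1 h1
  obtain ⟨v, vm, v1, uv⟩ : ∃ v ∈ P, v ≠ 1 ∧ s * i * v * (s * i)⁻¹ = v := by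
    by_contra H
    push Not at H
    have h1 : ∀ y ∈ P, s * i * y * (s * i)⁻¹ = y⁻¹ := fun y hy => by
      obtain ⟨r, hr, e1, e2⟩ := dec hP.pg h.uu (fun _ => cm nu) hy
      have : y * r = 1 := by
        by_contra e
        exact H _ (mul_mem hy hr) e e2
      rw [eq_inv_of_mul_eq_one_left this, ← conj_inv, e1]
    have h2 : P ≤ zpowers x := fun y hy => cz y hy (by
      have a1 := congrArg (fun t => j * t * j⁻¹) (h1 _ (cm (inv_mem hP.nj) hy))
      have a2 : j * (s * i) * j⁻¹ * y * (j * (s * i) * j⁻¹)⁻¹ = y⁻¹ := by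
        simpa [mul_assoc] using a1
      rw [h.ju, ← h1 y hy] at a2
      simpa [mul_assoc] using congrArg (fun t => (s * i)⁻¹ * t * (s * i)) a2)
    have := hP.big.trans (card_dvd_of_le h2)
    rw [card_zp h.xp h.x1] at this
    norm_num at this
  have vc : v ∈ centralizer {s * i} := mem_centralizer_singleton_iff.2 (mul_inv_eq_iff_eq_mul.1 uv).symm
  have vp : v ^ 13 = 1 := by
    obtain ⟨k, hk⟩ := IsPGroup.iff_orderOf.1 hP.pg ⟨v, vm⟩
    rw [orderOf_mk] at hk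
    have : k ≤ 1 := by
      by_contra hk2
      exact h.cu ((pow_dvd_pow 13 (by omega)).trans (hk ▸ Subgroup.orderOf_dvd_natCard _ vc))
    exact orderOf_dvd_iff_pow_eq_one.1 (hk ▸ (pow_dvd_pow 13 this).trans (by norm_num))
  have sV := syl_zp vp v1 vc h.cu
  have zv : z * v * z⁻¹ = v⁻¹ := by
    obtain ⟨k, hk⟩ := (mem_zpowers_pz h.xp).1 (zi v vm)
    have h1 : s * i * (z * v * z⁻¹ * v) * (s * i)⁻¹ = z * v * z⁻¹ * v := by
      rw [← conj_mul, ← conj_mul, ← conj_mul, ← conj_inv, uv, h.uz.eq, mul_inv_cancel_right]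
    rw [hk, conj_pz, h.ux, pz_inv] at h1
    exact eq_inv_of_mul_eq_one_left (hk.trans (eq_one_of_inv (pz_pow h.xp k) h1.symm))
  obtain ⟨a, iv⟩ := (mem_zpowers_pz vp).1 ((sV.eq_of_le (C := P ⊓ centralizer {s * i}) inf_le_right
    hP.pg.to_inf_left (le_inf (zpowers_le.2 vm) sV.le)).le (show i * v * i⁻¹ ∈ _ from
      ⟨cm hP.ni vm, mem_centralizer_singleton_iff.2 (by
        have := ((show Commute v (s * i) from mem_centralizer_singleton_iff.1 vc).map (MulAut.conj i)).eq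
        rwa [MulAut.conj_apply, MulAut.conj_apply, ← mul_assoc i s, ← h.si, mul_assoc (s * i),
          mul_inv_cancel, mul_one] at this)⟩))
  refine ⟨v, a, vm, vp, v1, uv, zv, iv, ?_, zi, ?_⟩
  · have : pz v (a * a) = v⁻¹ := by
      rw [← pz_pz vp, ← iv, ← conj_pz, ← iv, ← zv, ← h.ii]; group
    exact eq_neg_of_add_eq_zero_left (pz_eq_one vp v1 (by rw [pz_add vp, this, pz_one, inv_mul_cancel]))
  · obtain ⟨g, hg⟩ := isConj_iff.1 h.cj
    obtain ⟨b, -, hb⟩ := sV.exists_conj_le (C := zpowers (g * x * g⁻¹)) (zpowers_le.2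
      (mem_centralizer_singleton_iff.2 (by rw [← hg, conj_mul, conj_mul, h.zx.eq])))
      (pg13 (by rw [conj_pow, h.xp]; group))
    obtain ⟨k, hk⟩ := (mem_zpowers_pz vp).1 (hb _ (mem_zpowers _))
    refine ⟨b * g, k, fun e => h.x1 ?_, by rw [← hk]; group⟩
    rw [e, pz_zero] at hk
    simpa using hk

end Loc

theorem ph_mem {v w : G} (hx : x ∈ P) (hv : v ∈ P) (hw : w ∈ P) (a : Fin 3 → ZMod 13) : ph x v w a ∈ P :=
  mul_mem (mul_mem (pz_mem hx _) (pz_mem hv _)) (pz_mem hw _)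

namespace Frm

variable {v : G} {a : ZMod 13} (f : Frm z x s i j P v a) (h : Loc z x s i j ρ) (hP : Inv x s i j ρ P)
include f

theorem wp : (j * v * j⁻¹) ^ 13 = 1 := by rw [conj_pow, f.vp]; group

theorem w1 : j * v * j⁻¹ ≠ 1 := fun e => f.v1 (by simpa using e)

theorem a0 : a ≠ 0 := fun e => by have := f.aa; rw [e] at this; exact absurd this (by decide)

include h

theorem zw : z * (j * v * j⁻¹) * z⁻¹ = (j * v * j⁻¹)⁻¹ := by
  rw [conj_inv, ← f.zv]
  calc _ = z * j * v * (z * j)⁻¹ := by group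
    _ = _ := by rw [← h.jz.eq]; group

theorem jw : j * (j * v * j⁻¹) * j⁻¹ = v⁻¹ := by rw [← f.zv, ← h.jj]; group

theorem uw : s * i * (j * v * j⁻¹) * (s * i)⁻¹ = (j * v * j⁻¹)⁻¹ := by
  have h1 : s * i * z * (j * v * j⁻¹) * (s * i * z)⁻¹ = j * v * j⁻¹ := by
    rw [← h.ju]; nth_rewrite 2 [← f.uv]; group
  have h2 := f.zw h
  generalize j * v * j⁻¹ = w at h1 h2
  rw [← inv_inj, inv_inv, conj_inv, ← h2]
  nth_rewrite 2 [← h1]; group

theorem iw : i * (j * v * j⁻¹) * i⁻¹ = pz (j * v * j⁻¹) (-a) := by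
  have h1 : i * z * v * (i * z)⁻¹ = pz v (-a) := by
    rw [pz_neg f.vp, ← f.iv, conj_inv, ← f.zv]; group
  have h2 : i * j = j * (i * z) := by
    rw [← h.inv_i, eq_mul_inv_iff_mul_eq, ← mul_left_inj j, h.jj, ← h.ij]; simp only [mul_assoc]
  rw [← conj_pz, ← h1]
  calc _ = i * j * v * (i * j)⁻¹ := by group
    _ = _ := by rw [h2]; group

include hP

theorem inj : Function.Injective (ph x v (j * v * j⁻¹)) := fun b c e => by
  have zw := f.zw h
  have uw := f.uw h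
  have wp := f.wp
  have w1 := f.w1
  generalize j * v * j⁻¹ = w at e zw uw wp w1
  have c1 : ∀ k l, pz v k * pz x l = pz x l * pz v k := fun k l => (Commute.pz (hP.cx _ (pz_mem f.vm k)) l).eq
  have h1 : pz x (b 0 - c 0) * pz v (b 1 - c 1) = pz w (c 2 - b 2) := by
    rw [sub_eq_neg_add (b 0), sub_eq_neg_add (b 1), sub_eq_add_neg, pz_add h.xp, pz_add f.vp, pz_add wp,
      pz_neg wp, eq_mul_inv_iff_mul_eq, mul_assoc (pz x _), ← mul_assoc (pz x (b 0)), ← c1, mul_assoc,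
      mul_assoc, mul_assoc, ← mul_assoc (pz x (b 0))]
    change _ * (_ * ph x v w b) = _
    rw [e, ph, ← mul_assoc, ← c1, pz_neg h.xp, pz_neg f.vp]
    group
  have h2 := congrArg (fun t => z * t * z⁻¹) h1
  simp only [← conj_mul, conj_pz, zw, f.zv, h.zx.eq, mul_inv_cancel_right, pz_inv] at h2
  rw [← h1, mul_inv_rev, ← pz_neg h.xp, ← pz_neg f.vp, c1, mul_left_inj, pz_neg h.xp] at h2
  have h3 := pz_eq_one h.xp h.x1 (eq_one_of_inv (pz_pow h.xp _) h2)
  rw [h3, pz_zero, one_mul] at h1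
  have h4 := congrArg (fun t => s * i * t * (s * i)⁻¹) h1
  simp only [conj_pz, uw, f.uv, pz_inv] at h4
  have h5 := pz_eq_one f.vp f.v1 (eq_one_of_inv (pz_pow f.vp _) (h4.trans (by rw [h1])))
  rw [h5, pz_zero] at h1
  have h6 := pz_eq_one wp w1 h1.symm
  funext t
  fin_cases t
  exacts [sub_eq_zero.1 h3, sub_eq_zero.1 h5, (sub_eq_zero.1 h6).symm]

theorem card [Finite G] : Nat.card P = 13 ^ 3 ∧ ∀ y ∈ P, ∃ b, y = ph x v (j * v * j⁻¹) b := by
  let φ : (Fin 3 → ZMod 13) → P := fun b => ⟨_, ph_mem hP.xm f.vm (cm hP.nj f.vm) b⟩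
  have hi : Function.Injective φ := fun b c e => f.inj h hP (congrArg Subtype.val e)
  have h1 : Nat.card P ≤ Nat.card (Fin 3 → ZMod 13) := by
    obtain ⟨k, hk⟩ := hP.pg.exists_card_eq
    have : k ≤ 3 := by
      by_contra e
      exact h.c4 ((pow_dvd_pow 13 (by omega)).trans (hk ▸ card_subgroup_dvd_card P))
    rw [hk]
    simpa using Nat.pow_le_pow_right (by norm_num) this
  have h2 := hi.bijective_of_nat_card_le h1
  refine ⟨by rw [← Nat.card_eq_of_bijective φ h2]; simp, fun y hy => ?_⟩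
  obtain ⟨b, hb⟩ := h2.2 ⟨y, hy⟩
  exact ⟨b, (congrArg Subtype.val hb).symm⟩

end Frm

end CL.RV
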