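/-
The non-abelian case.
-/
import Cfsg.Agent.FUS.RV.MonA2

set_option autoImplicit false

namespace CL.RV.Frm

open Subgroup CL.Fus Cfsg
open scoped commutatorElement

variable {G : Type*} [Group G] [Finite G] {z x s i j ρ : G} {P : Subgroup G} {v : G} {a : ZMod 13}
  (f : Frm z x s i j P v a) (h : Loc z x s i j ρ) (hP : Inv x s i j ρ P)
include f h hP

omit [Finite G] in
theorem comm_mem : ⁅v, j * v * j⁻¹⁆ ∈ zpowers x := by
  have := f.zi _ (mul_mem (inv_mem f.vm) (inv_mem (cm hP.nj f.vm)))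
  rw [← conj_mul (b := z), ← conj_inv (b := z), ← conj_inv (b := z), f.zv, f.zw h, inv_inv, inv_inv,
    ← mul_assoc] at this
  exact this

theorem tri (ne : ¬ Commute v (j * v * j⁻¹)) : Dat 13 v (j * v * j⁻¹) ∧ Tri v (j * v * j⁻¹) := by
  obtain ⟨k, hk⟩ := (mem_zpowers_pz h.xp).1 (f.comm_mem h hP)
  have k1 : ⁅v, j * v * j⁻¹⁆ ≠ 1 := fun e => ne (commutatorElement_eq_one_iff_commute.1 e)
  have k0 : k ≠ 0 := fun e => k1 (by rw [hk, e, pz_zero])
  have wm := cm hP.nj f.vm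
  refine ⟨⟨f.vp, f.wp, k1, hk ▸ Commute.pz (hP.cx _ f.vm) k, hk ▸ Commute.pz (hP.cx _ wm) k, h.c4⟩, ?_⟩
  have m1 : v ∈ closure {v, j * v * j⁻¹} := subset_closure (by simp)
  have m2 : j * v * j⁻¹ ∈ closure {v, j * v * j⁻¹} := subset_closure (by simp)
  have m3 : x ∈ zpowers ⁅v, j * v * j⁻¹⁆ := by
    rw [hk]; nth_rewrite 2 [← pz_back h.xp k0]; exact pz_mem (mem_zpowers _) _
  have m4 : x ∈ closure {v, j * v * j⁻¹} := zpowers_le.2
    (mul_mem (mul_mem (mul_mem m1 m2) (inv_mem m1)) (inv_mem m2)) m3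
  have fz : ∀ g, Fz v (j * v * j⁻¹) (g * v * g⁻¹) := fun g => by
    obtain ⟨n, l, l0, hl⟩ := f.fus
    exact ⟨pz x l⁻¹, pz_mem m3 _, isConj_iff.2 ⟨g * n, by
      rw [conj_pz, show g * n * x * (g * n)⁻¹ = g * (n * x * n⁻¹) * g⁻¹ by group, hl, ← conj_pz,
        pz_back f.vp l0]⟩⟩
  obtain ⟨b, hb⟩ := (f.card h hP).2 _ (cm hP.nρ f.vm)
  have jr : j * (ρ * v * ρ⁻¹) * j⁻¹ = pz (ρ * v * ρ⁻¹) a := by rw [← conj_pz, ← f.iv, ← h.ρi]; group
  have rp : (ρ * v * ρ⁻¹) ^ 13 = 1 := by rw [conj_pow, f.vp]; group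
  have cj : ∀ y, Commute y (ρ * v * ρ⁻¹) → Commute (j * y * j⁻¹) (ρ * v * ρ⁻¹) := fun y e =>
    comm_of_pz rp f.a0 (jr ▸ e.map (MulAut.conj j))
  have cc : ∀ {y p q : G}, Commute y p → Commute y (p * q) → Commute y q := fun e1 e2 => by
    simpa using e1.inv_right.mul_right e2
  have n1 : ¬ Commute v (ρ * v * ρ⁻¹) := fun e => by
    have e' := cj _ e
    rw [hb, ph] at e e'
    have b2 : b 2 = 0 := by
      by_contra b2
      exact ne (comm_of_pz f.wp b2 (cc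
        ((Commute.pz (hP.cx _ f.vm) _).mul_right (Commute.pz (Commute.refl v) _)) e))
    have b1 : b 1 = 0 := by
      by_contra b1
      rw [b2, pz_zero, mul_one] at e'
      exact ne (comm_of_pz f.vp b1 (cc (Commute.pz (hP.cx _ wm) _) e')).symm
    rw [ph, b1, b2, pz_zero, pz_zero, mul_one, mul_one] at hb
    have h1 : j * pz x (b 0) * j⁻¹ = pz x (b 0) := by rw [conj_pz, h.jx, mul_inv_cancel_right]
    rw [← hb, jr] at h1
    have h2 : a - 1 = 0 := pz_eq_one rp (fun e => f.v1 (by simpa using e)) (by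
      rw [sub_eq_add_neg, pz_add rp, h1, pz_neg rp, pz_one, mul_inv_cancel])
    have := f.aa
    rw [sub_eq_zero.1 h2] at this
    exact absurd this (by decide)
  exact ⟨v, m1, _, m2, ρ * v * ρ⁻¹, hb ▸ ph_mem m4 m1 m2 b, ne, n1,
    fun e => n1 (Commute.inv_left_iff.1 (f.jw h ▸ cj _ e)), by simpa using fz 1, fz j, fz ρ⟩

end CL.RV.Frm
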