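/-
Computations with matrices over the field with `13` elements.
-/
import Mathlib

set_option autoImplicit false

open Matrix

namespace CL.RV

/-- matrices -/
abbrev M3 := Matrix (Fin 3) (Fin 3) (ZMod 13)

/-- evaluate a number -/
def frcN (n : ℕ) (k : ℕ → Bool) : Bool := Nat.rec (k 0) (fun m _ => k (m + 1)) n

theorem frcN_eq (n : ℕ) (k : ℕ → Bool) : frcN n k = k n := by cases n <;> rfl

/-- coded matrices -/
structure T9 where
  (a b c d e f g h i : ℕ)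

/-- decoding -/
def T9.m (A : T9) : M3 := !![A.a, A.b, A.c; A.d, A.e, A.f; A.g, A.h, A.i]

/-- one entry of a product -/
def e3 (a b c d e f : ℕ) : ℕ := Nat.mod (Nat.add (Nat.add (Nat.mul a b) (Nat.mul c d)) (Nat.mul e f)) 13

theorem e3_cast (a b c d e f : ℕ) : (e3 a b c d e f : ZMod 13) = a * b + c * d + e * f := by
  show (((a * b + c * d + e * f) % 13 : ℕ) : ZMod 13) = _
  rw [ZMod.natCast_mod]; push_cast; rfl

/-- product -/
def mulk (A B : T9) (k : T9 → Bool) : Bool :=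
  frcN (e3 A.a B.a A.b B.d A.c B.g) fun a => frcN (e3 A.a B.b A.b B.e A.c B.h) fun b =>
  frcN (e3 A.a B.c A.b B.f A.c B.i) fun c => frcN (e3 A.d B.a A.e B.d A.f B.g) fun d =>
  frcN (e3 A.d B.b A.e B.e A.f B.h) fun e => frcN (e3 A.d B.c A.e B.f A.f B.i) fun f =>
  frcN (e3 A.g B.a A.h B.d A.i B.g) fun g => frcN (e3 A.g B.b A.h B.e A.i B.h) fun h =>
  frcN (e3 A.g B.c A.h B.f A.i B.i) fun i => k ⟨a, b, c, d, e, f, g, h, i⟩

theorem mulk_spec {A B : T9} {k : T9 → Bool} (h : mulk A B k = true) : ∃ C : T9, C.m = A.m * B.m ∧ k C = true := by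
  simp only [mulk, frcN_eq] at h
  exact ⟨_, by simp [T9.m, e3_cast, add_assoc], h⟩

/-- powers -/
def pwk (M : T9) (n : ℕ) : T9 → (T9 → Bool) → Bool :=
  Nat.rec (fun A k => k A) (fun _ ih A k => mulk A M fun B => ih B k) n

theorem pwk_spec {M : T9} {n : ℕ} {A : T9} {k : T9 → Bool} (h : pwk M n A k = true) :
    ∃ C : T9, C.m = A.m * M.m ^ n ∧ k C = true := by
  induction n generalizing A with
  | zero => exact ⟨A, by simp, h⟩
  | succ n ih =>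
    obtain ⟨B, e, h⟩ := mulk_spec (A := A) (B := M) (k := fun B => pwk M n B k) h
    obtain ⟨C, e', h⟩ := ih h
    exact ⟨C, by rw [e', e, pow_succ', mul_assoc], h⟩

/-- the central involution -/
def mZ : M3 := !![1, 0, 0; 0, -1, 0; 0, 0, -1]
/-- a second involution -/
def mU : M3 := !![-1, 0, 0; 0, 1, 0; 0, 0, -1]
/-- diagonal quaternion -/
def mI (a : ZMod 13) : M3 := !![1, 0, 0; 0, a, 0; 0, 0, -a]
/-- monomial quaternion -/
def mJ : M3 := !![1, 0, 0; 0, 0, -1; 0, 1, 0]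
/-- block matrices -/
def mB (α β γ δ : ZMod 13) : M3 := !![α, 0, β; 0, 1, 0; γ, 0, δ]
/-- linear combination -/
def mD (a : ZMod 13) (X : M3) : M3 := (6 * a) • mZ + (7 : ZMod 13) • 1 + (6 + 6 * a) • X

theorem chk0 : ∀ a β γ : ZMod 13, a * a = -1 → β * γ = -1 →
    (mulk ⟨0, 0, β.val, 0, 1, 0, γ.val, 0, 0⟩ ⟨(-a).val, 0, 0, 0, (7 - 6 * a).val, (-6 - 6 * a).val, 0,
      (6 + 6 * a).val, (7 - 6 * a).val⟩ fun X => pwk X 3 ⟨1, 0, 0, 0, 12, 0, 0, 0, 12⟩ fun W =>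
      pwk W 12 ⟨1, 0, 0, 0, 1, 0, 0, 0, 1⟩ fun A => (decide (A.m ≠ 1) &&
        pwk A 13 ⟨1, 0, 0, 0, 1, 0, 0, 0, 1⟩ fun B => decide (B.m = 1))) = true := by decide +kernel

theorem chk {a β γ : ZMod 13} (ha : a * a = -1) (hb : β * γ = -1) :
    (mZ * (mB 0 β γ 0 * mD a mJ) ^ 3) ^ 12 ≠ 1 ∧ ((mZ * (mB 0 β γ 0 * mD a mJ) ^ 3) ^ 12) ^ 13 = 1 := by
  obtain ⟨X, e1, h⟩ := mulk_spec (chk0 a β γ ha hb)
  obtain ⟨W, e2, h⟩ := pwk_spec h
  obtain ⟨A, e3, h⟩ := pwk_spec h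
  rw [Bool.and_eq_true, decide_eq_true_eq] at h
  obtain ⟨B, e4, h'⟩ := pwk_spec h.2
  have o : T9.m ⟨1, 0, 0, 0, 1, 0, 0, 0, 1⟩ = 1 := by decide
  have a1 : T9.m ⟨1, 0, 0, 0, 12, 0, 0, 0, 12⟩ = mZ := by decide
  have a2 : T9.m ⟨0, 0, β.val, 0, 1, 0, γ.val, 0, 0⟩ = mB 0 β γ 0 := by simp [T9.m, mB]
  have a3 : ∀ a : ZMod 13, T9.m ⟨(-a).val, 0, 0, 0, (7 - 6 * a).val, (-6 - 6 * a).val, 0,
      (6 + 6 * a).val, (7 - 6 * a).val⟩ = mD a mJ := by decide +kernel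
  rw [o, one_mul] at e3 e4
  rw [← a1, ← a2, ← a3, ← e1, ← e2, ← e3, ← e4]
  exact ⟨h.1, of_decide_eq_true h'⟩

theorem chkD {a β γ : ZMod 13} (ha : a * a = -1) (hb : β * γ = -1) :
    mJ * (mB 0 β γ 0 * mI a * mB 0 (-β) (-γ) 0) * mJ ^ 3 = mD a (mI a) := by
  have h1 : mB 0 β γ 0 * mI a * mB 0 (-β) (-γ) 0 = !![-a, 0, 0; 0, a, 0; 0, 0, 1] := by
    simp only [mB, mI, mul_fin_three]
    congr! 3 <;> simp
    · linear_combination a * hb
    · linear_combination -hb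
  rw [h1]
  clear h1 hb
  revert a
  decide +kernel

end CL.RV
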