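/-
Linear algebra over the field with `13` elements: the Sylow `13`-subgroup of the Monster is not abelian.
-/
import Cfsg.Agent.FUS.RV.MonK

set_option autoImplicit false

open Matrix

namespace CL.RV

theorem mB_mul (α β γ δ α' β' γ' δ' : ZMod 13) : mB α β γ δ * mB α' β' γ' δ' =
    mB (α * α' + β * γ') (α * β' + β * δ') (γ * α' + δ * γ') (γ * β' + δ * δ') := by
  simp [mB]

theorem no_ab {S : Submonoid M3} (pp : ∀ M ∈ S, M ^ 13 = 1 → M = 1) {a β γ : ZMod 13} (ha : a * a = -1)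
    (hb : β * γ = -1) (hZ : mZ ∈ S) (hI : mI a ∈ S) (hJ : mJ ∈ S) (hQ : mB 0 β γ 0 ∈ S) {R R' : M3}
    (hR : R ∈ S) (hR' : R' ∈ S) (e : R * R' = 1) (eZ : R * mZ = mZ * R) (eI : R * mI a = mJ * R) : False := by
  have hQ' : mB 0 (-β) (-γ) 0 ∈ S := by
    have : mB 0 β γ 0 ^ 3 = mB 0 (-β) (-γ) 0 := by
      rw [pow_three, mB_mul, mB_mul]
      congr 1
      · ring
      · linear_combination β * hb
      · linear_combination γ * hb
      · ring
    exact this ▸ pow_mem hQ 3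
  have hD : mD a (mI a) ∈ S := chkD ha hb ▸ mul_mem (mul_mem hJ (mul_mem (mul_mem hQ hI) hQ')) (pow_mem hJ 3)
  have hD' : mD a mJ ∈ S := by
    have : R * mD a (mI a) * R' = mD a mJ := by
      simp only [mD, mul_add, add_mul, mul_smul_comm, smul_mul_assoc, eZ, eI, mul_one, mul_assoc, e]
    exact this ▸ mul_mem (mul_mem hR hD) hR'
  exact (chk ha hb).1 (pp _ (pow_mem (mul_mem hZ (pow_mem (mul_mem hQ hD') 3)) 12) (chk ha hb).2)

theorem mB_inj {α β γ δ α' β' γ' δ' : ZMod 13} (h : mB α β γ δ = mB α' β' γ' δ') :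
    α = α' ∧ β = β' ∧ γ = γ' ∧ δ = δ' :=
  ⟨congrFun (congrFun h 0) 0, congrFun (congrFun h 0) 2, congrFun (congrFun h 2) 0, congrFun (congrFun h 2) 2⟩

theorem one_eq_mB : (1 : M3) = mB 1 0 0 1 := by decide

theorem f13 : (2 : ZMod 13) ≠ 0 ∧ (∀ m : ZMod 13, 2 * (m * m) ≠ 1) ∧ ∀ m : ZMod 13, 2 * (m * m) ≠ -1 := by decide

theorem two_elt (k : ℕ) : ∀ m β γ : ZMod 13, m * m - β * γ = 1 → mB m β γ m ^ 2 ^ k = 1 →
    m = 0 ∨ β = 0 ∧ γ = 0 := by
  have : Fact (Nat.Prime 13) := ⟨by norm_num⟩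
  induction k with
  | zero =>
    intro m β γ _ h
    rw [pow_zero, pow_one, one_eq_mB] at h
    exact Or.inr ⟨(mB_inj h).2.1, (mB_inj h).2.2.1⟩
  | succ k ih =>
    intro m β γ h1 h
    rw [pow_succ', pow_mul, pow_two, mB_mul, show γ * β + m * m = m * m + β * γ by ring] at h
    rcases ih _ _ _ (by linear_combination (m * m - β * γ + 1) * h1) h with e | e
    · exact absurd (show 2 * (m * m) = 1 by linear_combination e + h1) (f13.2.1 m)
    · by_cases hm : m = 0
      · exact Or.inl hm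
      have h2 : 2 * m ≠ 0 := mul_ne_zero f13.1 hm
      exact Or.inr ⟨(mul_eq_zero.1 (by linear_combination e.1)).resolve_left h2,
        (mul_eq_zero.1 (by linear_combination e.2)).resolve_left h2⟩

/-- a quaternion generating a `2`-group with `mZ` is monomial -/
theorem mono_of {α β γ δ : ZMod 13} (h : mB α β γ δ * mB α β γ δ = mU) {k : ℕ}
    (hk : (mZ * mB α β γ δ * mZ * mB α β γ δ ^ 3) ^ 2 ^ k = 1) :
    (β = 0 ∧ γ = 0 ∧ α * α = -1) ∨ (α = 0 ∧ δ = 0 ∧ β * γ = -1) := by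
  have : Fact (Nat.Prime 13) := ⟨by norm_num⟩
  have h3 : mB α β γ δ ^ 3 = mB (-α) (-β) (-γ) (-δ) := by
    rw [pow_succ, pow_two, h, show mU = mB (-1) 0 0 (-1) from rfl, mB_mul]; simp
  have h4 : mZ * mB α β γ δ * mZ = mB α (-β) (-γ) δ := by simp [mZ, mB]
  rw [mB_mul] at h
  obtain ⟨h1, h2, h5, h6⟩ := mB_inj (h.trans (show mU = mB (-1) 0 0 (-1) from rfl))
  by_cases hb : β = 0 ∧ γ = 0
  · exact Or.inl ⟨hb.1, hb.2, by rw [← h1, hb.1]; ring⟩
  have hd : δ = -α := by
    rcases not_and_or.1 hb with e | e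
    · exact mul_left_cancel₀ e (by linear_combination h2)
    · exact mul_left_cancel₀ e (by linear_combination h5)
  subst hd
  rw [h3, h4, mB_mul, show -γ * -β + -α * - -α = α * -α + -β * -γ by ring] at hk
  rcases two_elt k _ _ _ (by linear_combination (α * α + β * γ - 1) * h1) hk with e | e
  · exact absurd (show 2 * (α * α) = -1 by linear_combination h1 - e) (f13.2.2 α)
  · have ha : α = 0 := by
      by_contra ha
      have h2 : 2 * α ≠ 0 := mul_ne_zero f13.1 ha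
      exact hb ⟨(mul_eq_zero.1 (by linear_combination -e.1)).resolve_left h2,
        (mul_eq_zero.1 (by linear_combination e.2)).resolve_left h2⟩
    exact Or.inr ⟨ha, by rw [ha, neg_zero], by rw [← h1, ha]; ring⟩

end CL.RV
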