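/-
The abelian case does not occur.
-/
import Cfsg.Agent.FUS.RV.MonA2
import Cfsg.Agent.FUS.RV.MonL

set_option autoImplicit false

namespace CL.RV

open Subgroup CL.Fus Cfsg Matrix

variable {G : Type*} [Group G] {z x s i j ρ : G} {P : Subgroup G} {v w : G} {a : ZMod 13}

/-- commuting coordinates -/
structure Ab (x v w : G) : Prop where
  xp : x ^ 13 = 1
  vp : v ^ 13 = 1
  wp : w ^ 13 = 1
  vx : Commute v x
  wx : Commute w x
  wv : Commute w v
  inj : Function.Injective (ph x v w)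

/-- `g` acts by the matrix `M` -/
def Act (x v w g : G) (M : M3) : Prop := ∀ b, g * ph x v w b * g⁻¹ = ph x v w (M *ᵥ b)

theorem ph0 (k : ZMod 13) : ph x v w ![k, 0, 0] = pz x k := by simp [ph, pz_zero]
theorem ph1 (k : ZMod 13) : ph x v w ![0, k, 0] = pz v k := by simp [ph, pz_zero]
theorem ph2 (k : ZMod 13) : ph x v w ![0, 0, k] = pz w k := by simp [ph, pz_zero]

theorem Act.mul {g g' : G} {M M' : M3} (h : Act x v w g M) (h' : Act x v w g' M') :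
    Act x v w (g * g') (M * M') := fun b => by rw [← mulVec_mulVec, ← h, ← h']; group

theorem act_one : Act x v w 1 1 := fun b => by simp

theorem Act.pow {g : G} {M : M3} (h : Act x v w g M) (n : ℕ) : Act x v w (g ^ n) (M ^ n) := by
  induction n with
  | zero => simpa using act_one
  | succ n ih => rw [pow_succ, pow_succ]; exact ih.mul h

namespace Ab

variable (A : Ab x v w)
include A

theorem add (b c : Fin 3 → ZMod 13) : ph x v w (b + c) = ph x v w b * ph x v w c := by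
  simp only [ph, Pi.add_apply, pz_add A.xp, pz_add A.vp, pz_add A.wp]
  simp only [pz, mul_assoc]
  rw [((A.wx.pow_pow _ _).left_comm), (A.vx.pow_pow _ _).left_comm, (A.wv.pow_pow _ _).left_comm]

theorem smul (k : ZMod 13) (b : Fin 3 → ZMod 13) : ph x v w (k • b) = pz (ph x v w b) k := by
  have : ∀ n : ℕ, ph x v w (n • b) = ph x v w b ^ n := fun n => by
    induction n with
    | zero => simp [ph, pz_zero]
    | succ n ih => rw [succ_nsmul, A.add, ih, pow_succ]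
  rw [pz, ← this, ← Nat.cast_smul_eq_nsmul (ZMod 13), ZMod.natCast_zmod_val]

theorem act_of {g : G} {M : M3} (h0 : g * x * g⁻¹ = ph x v w (M.col 0)) (h1 : g * v * g⁻¹ = ph x v w (M.col 1))
    (h2 : g * w * g⁻¹ = ph x v w (M.col 2)) : Act x v w g M := fun b => by
  rw [ph, ← conj_mul, ← conj_mul, conj_pz, conj_pz, conj_pz, h0, h1, h2, ← A.smul, ← A.smul, ← A.smul,
    ← A.add, ← A.add]
  congr 1
  funext t
  simp [mulVec, dotProduct, Fin.sum_univ_three, mul_comm]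

theorem uniq {g : G} {M M' : M3} (h : Act x v w g M) (h' : Act x v w g M') : M = M' :=
  Matrix.ext fun r c => by
    simpa using congrFun (A.inj ((h (Pi.single c 1)).symm.trans (h' _))) r

end Ab

theorem unip (m n : ZMod 13) : (!![1, 0, 0; m, 1, n; 0, 0, 1] : M3) ^ 13 = 1 := by
  have : ∀ k : ℕ, (!![1, 0, 0; m, 1, n; 0, 0, 1] : M3) ^ k = !![1, 0, 0; k * m, 1, k * n; 0, 0, 1] := fun k => by
    induction k with
    | zero => simp [one_fin_three]
    | succ k ih => rw [pow_succ, ih]; simp [add_mul, add_comm]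
  rw [this, show ((13 : ℕ) : ZMod 13) = 0 from rfl, one_fin_three]; simp

theorem eq_mB {M : M3} (h1 : M *ᵥ ![0, 1, 0] = ![0, 1, 0]) (h2 : M * mU = mU * M) :
    M = mB (M 0 0) (M 0 2) (M 2 0) (M 2 2) := by
  have a0 := congrFun h1 0
  have a1 := congrFun h1 1
  have a2 := congrFun h1 2
  have b0 := congrFun (congrFun h2 1) 0
  have b2 := congrFun (congrFun h2 1) 2
  simp [mulVec, dotProduct, Fin.sum_univ_three, mU, mul_apply] at a0 a1 a2 b0 b2
  have k : ∀ t : ZMod 13, -t = t → t = 0 := by decide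
  ext r c
  fin_cases r <;> fin_cases c <;> simp [mB, a0, a1, a2, k _ b0, k _ b2]

namespace Frm

variable [Finite G] (f : Frm z x s i j P v a) (h : Loc z x s i j ρ) (hP : Inv x s i j ρ P)
include f h hP

theorem not_comm : ¬ Commute v (j * v * j⁻¹) := fun hc => by
  obtain ⟨cP, sur⟩ := f.card h hP
  have wm := cm hP.nj f.vm
  have A : Ab x v (j * v * j⁻¹) :=
    ⟨h.xp, f.vp, f.wp, hP.cx _ f.vm, hP.cx _ wm, hc.symm, f.inj h hP⟩
  have zw := f.zw h
  have uw := f.uw h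
  have jw := f.jw h
  have iw := f.iw h
  generalize hw : j * v * j⁻¹ = w at *
  have ex : ∀ g ∈ normalizer (P : Set G), ∃ M, Act x v w g M := fun g hg => by
    obtain ⟨c0, h0⟩ := sur _ (cm hg hP.xm)
    obtain ⟨c1, h1⟩ := sur _ (cm hg f.vm)
    obtain ⟨c2, h2⟩ := sur _ (cm hg wm)
    exact ⟨(of ![c0, c1, c2])ᵀ, A.act_of h0 h1 h2⟩
  have ab : ∀ y ∈ P, ∀ y' ∈ P, y * y' = y' * y := fun y hy y' hy' => by
    obtain ⟨b, rfl⟩ := sur y hy
    obtain ⟨c, rfl⟩ := sur y' hy'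
    rw [← A.add, ← A.add, add_comm]
  have sP : SylIn 13 P ⊤ := ⟨le_top, hP.pg, fun C _ hC hle => by
    obtain ⟨k, hk⟩ := hC.exists_card_eq
    have : k ≤ 3 := by
      by_contra e
      exact h.c4 ((pow_dvd_pow 13 (by omega)).trans (hk ▸ card_subgroup_dvd_card C))
    exact (eq_of_le_of_card_ge hle (by rw [cP, hk]; exact Nat.pow_le_pow_right (by norm_num) this)).symm⟩
  let S : Submonoid M3 := ⟨⟨{M | ∃ g ∈ normalizer (P : Set G), Act x v w g M},
    fun ⟨g, hg, e⟩ ⟨g', hg', e'⟩ => ⟨_, mul_mem hg hg', e.mul e'⟩⟩, 1, one_mem _, act_one⟩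
  have pp : ∀ M ∈ S, M ^ 13 = 1 → M = 1 := by
    rintro M ⟨g, hg, e⟩ h13
    obtain ⟨k, m, hm, ho⟩ := Nat.exists_eq_pow_mul_and_not_dvd (orderOf_pos g).ne' 13 (by norm_num)
    have h1 : g ^ m ∈ P := sP.le_of_le_normalizer' le_top (pg_zpowers (k := k) (by
      rw [← pow_mul, mul_comm, ← ho, pow_orderOf_eq_one])) (zpowers_le.2 (pow_mem hg m)) (mem_zpowers _)
    have h2 : M ^ m = 1 := A.uniq (e.pow m) fun b => by
      rw [one_mulVec, ab _ h1 _ (ph_mem hP.xm f.vm wm b), mul_inv_cancel_right]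
    have := pow_gcd_eq_one.2 ⟨h13, h2⟩
    rwa [(fact13.out.coprime_iff_not_dvd.2 hm).gcd_eq_one, pow_one] at this
  have nz : z ∈ normalizer (P : Set G) := h.ii ▸ mul_mem hP.ni hP.ni
  have n1 : ∀ {y : G}, y ^ 13 = 1 → pz y (-1) = y⁻¹ := fun e => by rw [pz_neg e, pz_one]
  have o0 : x = ph x v w ![1, 0, 0] := by rw [ph0, pz_one]
  have o1 : v = ph x v w ![0, 1, 0] := by rw [ph1, pz_one]
  have o2 : w = ph x v w ![0, 0, 1] := by rw [ph2, pz_one]
  have aZ : Act x v w z mZ := A.act_of (by rw [h.zx.eq, mul_inv_cancel_right]; exact o0)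
    (by rw [f.zv, ← n1 f.vp, ← ph1]; rfl) (by rw [zw, ← n1 A.wp, ← ph2]; rfl)
  have aU : Act x v w (s * i) mU := A.act_of (by rw [h.ux, ← n1 h.xp, ← ph0]; rfl)
    (by rw [f.uv]; exact o1) (by rw [uw, ← n1 A.wp, ← ph2]; rfl)
  have aI : Act x v w i (mI a) := A.act_of (by rw [h.ix, mul_inv_cancel_right]; exact o0)
    (by rw [f.iv, ← ph1]; rfl) (by rw [iw, ← ph2]; rfl)
  have aJ : Act x v w j mJ := A.act_of (by rw [h.jx, mul_inv_cancel_right]; exact o0)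
    (by rw [hw]; exact o2) (by rw [jw, ← n1 f.vp, ← ph1]; rfl)
  obtain ⟨n, hn, k, k0, e, T, pT, zT, iT, jT⟩ : ∃ n ∈ normalizer (P : Set G), ∃ k, k ≠ 0 ∧
      n * x * n⁻¹ = pz v k ∧ ∃ T : Subgroup G, IsPGroup 2 T ∧ z ∈ T ∧ n * i * n⁻¹ ∈ T ∧ n * j * n⁻¹ ∈ T := by
    obtain ⟨g, k, k0, e⟩ := f.fus
    obtain ⟨P', rfl⟩ := sylIn_top_iff.1 sP
    obtain ⟨n, hn, e'⟩ := P'.conj_eq_normalizer_conj_of_mem_centralizer x g⁻¹
      (fun y hy => ab y hy x hP.xm) fun y hy => ab y hy _ (by rw [inv_inv, e]; exact pz_mem f.vm k)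
    rw [inv_inv, e] at e'
    have c0 : ∀ q ∈ normalizer (P' : Set G), n⁻¹ * q * n⁻¹⁻¹ ∈ normalizer (P' : Set G) := fun q hq =>
      mul_mem (mul_mem (inv_mem hn) hq) (inv_mem (inv_mem hn))
    have c1 : ∀ q, q * x = x * q → n⁻¹ * q * n⁻¹⁻¹ ∈ normalizer (zpowers v : Set G) := fun q hq =>
      mem_norm_of_comm (comm_of_pz f.vp k0 (by
        rw [e']; simpa [mul_assoc] using (show Commute q x from hq).map (MulAut.conj n⁻¹))).eq
    obtain ⟨T, hT, zT⟩ := exists_sylIn_ge (C := zpowers z)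
      (B := normalizer (P' : Set G) ⊓ normalizer (zpowers v : Set G)) (zpowers_le.2
        ⟨nz, mem_norm_zp (f.zv ▸ inv_mem (mem_zpowers v))⟩)
      (pg_zpowers (k := 1) (by rw [pow_one, pow_two, h.zz]))
    obtain ⟨b, hb, hb'⟩ := hT.exists_conj_le
      (C := (zpowers i ⊔ zpowers j).map (MulAut.conj n⁻¹).toMonoidHom) (map_le_iff_le_comap.2 (sup_le
        (zpowers_le.2 ⟨c0 i hP.ni, c1 i h.ix⟩) (zpowers_le.2 ⟨c0 j hP.nj, c1 j h.jx⟩)))
      (h.pg_ij.map _)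
    obtain ⟨l, hl⟩ := (mem_zpowers_pz f.vp).1 (cm hb.2 (pz_mem (mem_zpowers v) k))
    refine ⟨b * n⁻¹, mul_mem hb.1 (inv_mem hn), l, fun l0 => h.x1 ?_, by rw [← hl, e']; group, T,
      hT.isPGroup, zT (mem_zpowers z), ?_, ?_⟩
    · rw [l0, pz_zero, e'] at hl
      simpa [mul_assoc] using congrArg (fun t => n * (b⁻¹ * t * b) * n⁻¹) hl
    · simpa [mul_assoc] using hb' _ ⟨i, mem_sup_left (mem_zpowers i), rfl⟩
    · simpa [mul_assoc] using hb' _ ⟨j, mem_sup_right (mem_zpowers j), rfl⟩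
  have nn : ∀ q ∈ normalizer (P : Set G), n * q * n⁻¹ ∈ normalizer (P : Set G) := fun q hq =>
    mul_mem (mul_mem hn hq) (inv_mem hn)
  have fx : ∀ q M, q * x = x * q → Act x v w (n * q * n⁻¹) M → M *ᵥ ![0, 1, 0] = ![0, 1, 0] := fun q M hq hM =>
    A.inj (by
      rw [← hM, ph1, pz_one, mul_inv_eq_iff_eq_mul]
      exact (comm_of_pz f.vp k0 (e ▸ (show Commute q x from hq).map (MulAut.conj n))).eq)
  have aZ' : Act x v w (n * z * n⁻¹) mU := by
    obtain ⟨M, hM⟩ := ex _ (nn z nz)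
    have h1 := fx z M h.zx hM
    have h2 : ∀ b, ∃ l, M *ᵥ b + b = ![0, l, 0] := fun b => by
      obtain ⟨l, hl⟩ := (mem_zpowers_pz h.xp).1 (f.zi _ (cm (inv_mem hn) (ph_mem hP.xm f.vm wm b)))
      refine ⟨k * l, A.inj ?_⟩
      rw [A.add, ← hM, ph1, ← pz_pz f.vp, ← e, ← conj_pz, ← hl]; group
    obtain ⟨l0, e0⟩ := h2 ![1, 0, 0]
    obtain ⟨l2, e2⟩ := h2 ![0, 0, 1]
    have h3 : M * mU = !![1, 0, 0; -M 1 0, 1, -M 1 2; 0, 0, 1] := by
      have a0 := congrFun h1 0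
      have a1 := congrFun h1 1
      have a2 := congrFun h1 2
      have b0 := congrFun e0 0
      have b2 := congrFun e0 2
      have c0 := congrFun e2 0
      have c2 := congrFun e2 2
      simp [mulVec, dotProduct, Fin.sum_univ_three, add_eq_zero_iff_eq_neg] at a0 a1 a2 b0 b2 c0 c2
      ext r c
      fin_cases r <;> fin_cases c <;> simp [mU, mul_apply, Fin.sum_univ_three, a0, a1, a2, b0, b2, c0, c2]
    have h4 := pp _ ⟨_, mul_mem (nn z nz) (mul_mem hP.ns hP.ni), hM.mul aU⟩ (h3 ▸ unip _ _)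
    rwa [← mul_one M, ← show mU * mU = 1 by decide, ← mul_assoc, h4, one_mul] at hM
  have mono : ∀ q ∈ normalizer (P : Set G), q * x = x * q → q * q = z → n * q * n⁻¹ ∈ T →
      ∃ α β γ δ, Act x v w (n * q * n⁻¹) (mB α β γ δ) ∧
        ((β = 0 ∧ γ = 0 ∧ α * α = -1) ∨ (α = 0 ∧ δ = 0 ∧ β * γ = -1)) := fun q hq h1 h2 h3 => by
    obtain ⟨M, hM⟩ := ex _ (nn q hq)
    have h4 : M * M = mU := A.uniq (hM.mul hM) (by rwa [conj_mul, h2])
    have h5 := eq_mB (fx q M h1 hM) (by rw [← h4, mul_assoc])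
    rw [h5] at hM h4
    obtain ⟨t, ht⟩ := pT ⟨_, mul_mem (mul_mem (mul_mem zT h3) zT) (pow_mem h3 3)⟩
    exact ⟨_, _, _, _, hM, mono_of h4 (k := t) (A.uniq ((((aZ.mul hM).mul aZ).mul (hM.pow 3)).pow _)
      (by rw [show (z * _ * z * _) ^ _ = (1 : G) from congrArg Subtype.val ht]; exact act_one))⟩
  obtain ⟨R, hR⟩ := ex ρ hP.nρ
  obtain ⟨R', hR'⟩ := ex ρ⁻¹ (inv_mem hP.nρ)
  have fin : ∀ q ∈ normalizer (P : Set G), ∀ β γ, β * γ = -1 → ¬ Act x v w (n * q * n⁻¹) (mB 0 β γ 0) :=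
    fun q hq β γ e1 e2 => no_ab pp f.aa e1 ⟨_, nz, aZ⟩ ⟨_, hP.ni, aI⟩ ⟨_, hP.nj, aJ⟩ ⟨_, nn q hq, e2⟩
      ⟨_, hP.nρ, hR⟩ ⟨_, inv_mem hP.nρ, hR'⟩ (A.uniq (hR.mul hR') (by rw [mul_inv_cancel]; exact act_one))
      (A.uniq (hR.mul aZ) (by
        rw [show ρ * z = z * ρ by nth_rewrite 2 [← h.jj]; rw [← h.ii, ← h.ρi]; group]; exact aZ.mul hR))
      (A.uniq (hR.mul aI) (by rw [show ρ * i = j * ρ by rw [← h.ρi]; group]; exact aJ.mul hR))
  obtain ⟨α, β, γ, δ, a1, ⟨rfl, rfl, a2⟩ | ⟨rfl, rfl, a2⟩⟩ := mono i hP.ni h.ix h.ii iT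
  swap
  · exact fin i hP.ni _ _ a2 a1
  obtain ⟨α', β, γ, δ', b1, ⟨rfl, rfl, b2⟩ | ⟨rfl, rfl, b2⟩⟩ := mono j hP.nj h.jx h.jj jT
  swap
  · exact fin j hP.nj _ _ b2 b1
  have h1 := A.uniq ((a1.mul b1).mul (a1.mul b1)) (by rwa [conj_mul, conj_mul, h.ij])
  rw [mB_mul, mB_mul] at h1
  have h2 := (mB_inj (h1.trans (show mU = mB (-1) 0 0 (-1) from rfl))).1
  exact absurd (show (1 : ZMod 13) = -1 by linear_combination h2 - α' * α' * a2 + b2) (by decide)

end Frm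

end CL.RV
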