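/- The groups `²F₄(2)' ≤ ²F₄(2)` at `p = 3`. -/
import Cfsg.Agent.FUS.RV.Defs
import Cfsg.Agent.CHEV.TitsCls

set_option autoImplicit false
set_option Elab.async false

open scoped commutatorElement

namespace CL.Chev.TCl

open CL.K CL.SchurC CL.Orb CL.Ru MulAction CL.Chev.Tits

attribute [local instance] act

theorem enum_of_comm {h : ℕ} {p q : Fin 4060} {Ws L F : List ℕ} {TB : List (ℕ × List ℕ)}
    (hk : chain p q Ws L (chkB h p q L F TB) = true) {g : G} (hg : Commute g (V h)) :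
    ∃ t ∈ TB, ∃ l ∈ L, V t.1 * V l = g := by
  obtain ⟨M, S, hk, e, h1, h2, -⟩ := chain_spec hk
  simp only [chkB, Bool.and_eq_true, lall_iff, tst_eq] at hk
  obtain ⟨⟨h3, h4, h5, h6, h7⟩, h8, -⟩ := hk
  have key : ∀ i : Fin 4060, i ∈ orbit G p → V h • i = i → ((g • i : Fin 4060) : ℕ) ∈ F := fun i hi hf => by
    have := allN_spec h3 _ (g • i).2
    rw [show M.testBit (g • i : Fin 4060) = true from e.ge (mapsTo_smul_orbit g p hi), ← act_V, ← mul_smul,
      ← hg.eq, mul_smul, hf, Nat.beq_refl, Bool.not_true, Bool.false_or, Bool.false_or, lany_iff] at this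
    obtain ⟨a, ha, e⟩ := this
    exact Nat.eq_of_beq_eq_true e ▸ ha
  have := h8 _ (key p (mem_orbit_self p) (V_fix h5)) _ (key q (e.le h4) (V_fix h6))
  simp only [Bool.or_eq_true, lany_iff, Bool.and_eq_true] at this
  obtain h10 | ⟨t, ht, h10, h11⟩ | ⟨t, ht, h10, h11⟩ := this
  · rw [smul_left_cancel g (Fin.ext (Nat.eq_of_beq_eq_true h10)), Nat.beq_refl] at h7
    cases h7
  · obtain ⟨l, hl, e1⟩ := h2 ((V t.1)⁻¹ * g) (by rw [mul_smul, inv_smul_eq_iff, V_fix h10])
      (by rw [mul_smul, inv_smul_eq_iff, V_fix h11])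
    rw [eq_inv_mul_iff_mul_eq] at e1
    exact ⟨t, ht, l, hl, e1⟩
  · have h12 := allN_spec h11 _ (((V t.1)⁻¹ * g) • q).2
    rw [h1 _ (by rw [mul_smul, inv_smul_eq_iff, V_fix h10]), ← act_V, ← mul_smul, mul_inv_cancel_left,
      Nat.beq_refl] at h12
    cases h12

theorem comm_eq : ⁅V 471952226248, V 518480863736⁆ = V 17 := by
  have := (((act_V 471952226248).mul (act_V 518480863736)).eqB_iff
    ((act_V 17).mul ((act_V 518480863736).mul (act_V 471952226248)))).1 (by decide +kernel)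
  rw [commutatorElement_def, this, mul_inv_eq_iff_eq_mul, mul_inv_eq_iff_eq_mul, mul_assoc]

theorem comm_commutator {H : Type*} [Group H] {g a b z : H} (ha : Commute g a) (hb : Commute g b)
    (h : ⁅a, b⁆ = z) : Commute g z :=
  h ▸ ((ha.mul_right hb).mul_right ha.inv_right).mul_right hb.inv_right

theorem cent_le {g : G} (ha : Commute g (V 471952226248)) (hb : Commute g (V 518480863736)) :
    g ∈ commutator G := by
  obtain ⟨t, ht, l, hl, rfl⟩ := enum_of_comm chain_3 (g := g) (comm_commutator (H := G) ha hb comm_eq)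
  have h : lall (fun e => lall (fun l => !xor (pr e.1) (pr l) ||
      (!eqB (cp (cp (ev e.1) (ev l)) (ev 471952226248)) (cp (ev 471952226248) (cp (ev e.1) (ev l))) ||
       !eqB (cp (cp (ev e.1) (ev l)) (ev 518480863736)) (cp (ev 518480863736) (cp (ev e.1) (ev l))))) L3) T3
      = true := by decide +kernel
  have := lall_iff.1 (lall_iff.1 h t ht) l hl
  rw [((((act_V _).mul (act_V _)).mul (act_V _)).eqB_iff ((act_V _).mul ((act_V _).mul (act_V _)))).2 ha.eq,
    ((((act_V _).mul (act_V _)).mul (act_V _)).eqB_iff ((act_V _).mul ((act_V _).mul (act_V _)))).2 hb.eq] at this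
  rw [Subgroup.mul_mem_iff_of_index_two index_commutator, V_mem, V_mem]
  revert this
  cases pr t.1 <;> cases pr l <;> simp

end CL.Chev.TCl

namespace CL.RV

open CL.Chev.TCl CL.Chev.Tits

theorem tri_of {H : Type*} [Group H] {N : Subgroup H} {a b : N} {z k l m : H} (hz : ⁅(a : H), (b : H)⁆ = z)
    (h0 : z ≠ 1) (hk : k ∈ N) (hl : l ∈ N) (hm : m ∈ N) (h1 : k * z = a * k) (h2 : l * z = b * l)
    (h3 : m * z = a * b * m) : Tri a b := by
  have h4 : ¬ Commute a b := fun h => h0 (hz ▸ commutatorElement_eq_one_iff_commute.2 (h.map N.subtype))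
  have ha : a ∈ Subgroup.closure {a, b} := Subgroup.subset_closure (by simp)
  have hb : b ∈ Subgroup.closure {a, b} := Subgroup.subset_closure (by simp)
  have key : ∀ (x : N) (c : H), c ∈ N → c * z = x * c → Fz a b x := fun x c hc e =>
    ⟨_, Subgroup.mem_zpowers _, isConj_iff.2 ⟨⟨c, hc⟩, Subtype.ext (mul_inv_eq_of_eq_mul (G := H) (by
      subst hz; exact e))⟩⟩
  exact ⟨a, ha, b, hb, a * b, mul_mem ha hb, h4, 
    fun h => h4 (by simpa using (Commute.refl a).inv_right.mul_right h),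
    fun h => h4 (by simpa using (h.mul_right (Commute.refl b).inv_right).symm), key _ k hk h1, key _ l hl h2, key _ m hm h3⟩

theorem dat_of {H : Type*} [Group H] {a b z : H} (hz : ⁅a, b⁆ = z) (h0 : z ≠ 1) (h1 : a ^ 3 = 1) (h2 : b ^ 3 = 1)
    (h3 : Commute a z) (h4 : Commute b z) (h5 : ¬ 3 ^ 4 ∣ Nat.card H) : Dat 3 a b :=
  ⟨h1, h2, hz ▸ h0, hz ▸ h3, hz ▸ h4, h5⟩

theorem real3 : ∃ (G : Type) (_ : Group G) (_ : Finite G) (N : Subgroup G) (a b : N),
    N.Normal ∧ N ≠ ⊤ ∧ Dat 3 (a : G) (b : G) ∧ Tri a b ∧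
      Subgroup.centralizer {(a : G), (b : G)} ≤ N := by
  have h0 : V 17 ≠ 1 := fun e =>
    absurd (((act_V 17).eqB_iff (act_V 0)).2 (e.trans V_zero.symm)) (by decide +kernel)
  have c : ∀ a b : ℕ, eqB (cp (ev a) (ev b)) (cp (ev b) (ev a)) = true → Commute (V a) (V b) := fun a b h =>
    (((act_V _).mul (act_V _)).eqB_iff ((act_V _).mul (act_V _))).1 h
  have p : ∀ a : ℕ, eqB (itr (ev a) 3) (ev 0) = true → V a ^ 3 = 1 := fun a h =>
    ((((act_V _).pow 3).eqB_iff (act_V 0)).1 h).trans V_zero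
  refine ⟨G, inferInstance, inferInstance, commutator G, ⟨V 471952226248, (V_mem _).2 (by decide +kernel)⟩,
    ⟨V 518480863736, (V_mem _).2 (by decide +kernel)⟩, Subgroup.commutator_normal ⊤ ⊤,
    fun e => s_not_mem (e ▸ Subgroup.mem_top _), dat_of comm_eq h0 (p _ (by decide +kernel)) (p _ (by decide +kernel))
      (c _ 17 (by decide +kernel)) (c _ 17 (by decide +kernel)) (by rw [card_G]; decide),
    tri_of comm_eq h0 ((V_mem 129354330654).2 (by decide +kernel)) ((V_mem 116017618).2 (by decide +kernel))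
      ((V_mem 7458779225726).2 (by decide +kernel))
      ((((act_V _).mul (act_V _)).eqB_iff ((act_V _).mul (act_V _))).1 (by decide +kernel))
      ((((act_V _).mul (act_V _)).eqB_iff ((act_V _).mul (act_V _))).1 (by decide +kernel))
      ((((act_V _).mul (act_V _)).eqB_iff (((act_V _).mul (act_V _)).mul (act_V _))).1 (by decide +kernel)),
    fun g hg => cent_le (hg _ (Set.mem_insert _ _)).symm (hg _ (Set.mem_insert_of_mem _ rfl)).symm⟩

end CL.RV
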